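import Mathlib
import Cfsg.Agent.Lib.Rec.Jordan
import Cfsg.Agent.Lib.Rec.Socle

set_option autoImplicit false
open scoped Pointwise

namespace CfsgLib.Rec

open MulAction Equiv Equiv.Perm

variable {α : Type*} [Fintype α] [DecidableEq α]

/-- A permutation commuting with a cycle and fixing a point of its support fixes the support. -/
theorem fix_support_of_commute {x w : Perm α} (hc : x.IsCycle) (hw : Commute w x) {v : α}
    (hv : x v ≠ v) (hwv : w v = v) {u : α} (hu : x u ≠ u) : w u = u := by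
  obtain ⟨i, hi⟩ := hc.exists_zpow_eq hv hu
  rw [← hi]
  have h : w * x ^ i = x ^ i * w := hw.zpow_right i
  have h2 := congrArg (fun f : Perm α => f v) h
  simp only [Perm.mul_apply, hwv] at h2
  exact h2

/-- The pointwise stabiliser of the complement of the support, inside `G`. -/
def suppFix (G : Subgroup (Perm α)) (x : Perm α) : Subgroup (Perm α) where
  carrier := {σ | σ ∈ G ∧ ∀ v, x v = v → σ v = v}
  mul_mem' := by
    rintro a b ⟨ha, ha'⟩ ⟨hb, hb'⟩
    refine ⟨G.mul_mem ha hb, fun v hv => ?_⟩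
    rw [Perm.mul_apply, hb' v hv, ha' v hv]
  one_mem' := ⟨G.one_mem, fun _ _ => rfl⟩
  inv_mem' := by
    rintro a ⟨ha, ha'⟩
    refine ⟨G.inv_mem ha, fun v hv => ?_⟩
    rw [Perm.inv_eq_iff_eq]
    exact (ha' v hv).symm

theorem mem_suppFix {G : Subgroup (Perm α)} {x σ : Perm α} :
    σ ∈ suppFix G x ↔ σ ∈ G ∧ ∀ v, x v = v → σ v = v := Iff.rfl

/-- the group fixing the complement of the support has order dividing `p!`. -/
theorem card_suppFix_dvd (G : Subgroup (Perm α)) (x : Perm α) :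
    Nat.card (suppFix G x) ∣ (x.support.card).factorial := by
  classical
  have key : ∀ σ : suppFix G x, ∀ v, (σ : Perm α) v ∈ x.support ↔ v ∈ x.support := by
    intro σ v
    have hσ := (mem_suppFix.1 σ.2).2
    simp only [Perm.mem_support]
    constructor
    · intro hv hv2
      rw [hσ v hv2] at hv
      exact hv hv2
    · intro hv hv2
      have := hσ _ hv2
      have h3 : (σ : Perm α) v = v := (σ : Perm α).injective this
      rw [h3] at hv2
      exact hv hv2
  let φ : suppFix G x →* Perm x.support :=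
    { toFun := fun σ => (σ : Perm α).subtypePerm (key σ)
      map_one' := by ext; simp
      map_mul' := by intro a b; ext v; rfl }
  have hφ : Function.Injective φ := by
    intro a b hab
    apply Subtype.ext
    ext v
    by_cases hv : v ∈ x.support
    · have := congrArg (fun f : Perm x.support => ((f ⟨v, hv⟩ : x.support) : α)) hab
      simpa [φ] using this
    · have hv' : x v = v := by simpa [Perm.mem_support] using hv
      rw [(mem_suppFix.1 a.2).2 v hv', (mem_suppFix.1 b.2).2 v hv']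
  have h := Subgroup.card_dvd_of_injective φ hφ
  have h2 : Nat.card (Perm x.support) = (x.support.card).factorial := by
    rw [Nat.card_eq_fintype_card, Fintype.card_perm, Fintype.card_coe]
  rwa [h2] at h

theorem inv_maps_of_maps {g : Perm α} {F : α → Prop} (h : ∀ u, F u → F (g u)) (u : α) (hu : F u) :
    F (g⁻¹ u) := by
  have hpow : ∀ k : ℕ, ∀ u, F u → F ((g ^ k) u) := by
    intro k
    induction k with
    | zero => intro u hu; simpa using hu
    | succ k ih =>
      intro u hu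
      rw [pow_succ', Perm.mul_apply]
      exact h _ (ih u hu)
  have hn : 0 < orderOf g := orderOf_pos g
  have h1 : g ^ (orderOf g - 1) * g = 1 := by
    rw [← pow_succ, Nat.sub_add_cancel hn, pow_orderOf_eq_one]
  have h2 : g⁻¹ = g ^ (orderOf g - 1) := (eq_inv_of_mul_eq_one_left h1).symm
  rw [h2]
  exact hpow _ u hu

/-- Frattini step: an element preserving the complement of the support can be corrected by an
element of `suppFix` to normalise `⟨x⟩`. -/
theorem exists_normalizing {G : Subgroup (Perm α)} {x g : Perm α} (hx : x ∈ G) (hc : x.IsCycle)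
    (hp : x.support.card.Prime) (hg : g ∈ G) (hgΔ : ∀ v, x v = v → x (g v) = g v) :
    ∃ n ∈ G, ∃ j : ℤ, n * x * n⁻¹ = x ^ j ∧ ∀ v, x v = v → n v = g v := by
  classical
  set p := x.support.card with hpd
  haveI : Fact p.Prime := ⟨hp⟩
  have hord : orderOf x = p := hc.orderOf
  set K := suppFix G x with hK
  have hxK : x ∈ K := ⟨hx, fun _ hv => hv⟩
  have hx'K : g * x * g⁻¹ ∈ K := by
    refine ⟨G.mul_mem (G.mul_mem hg hx) (G.inv_mem hg), fun v hv => ?_⟩
    have h1 : x (g⁻¹ v) = g⁻¹ v := inv_maps_of_maps (F := fun u => x u = u) hgΔ v hv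
    simp only [Perm.mul_apply]
    rw [h1]
    simp
  -- Sylow subgroups of `K` have order `p`
  have hdvd : Nat.card K ∣ p.factorial := card_suppFix_dvd G x
  have hKp : p ∣ Nat.card K := by
    have := orderOf_dvd_natCard (⟨x, hxK⟩ : K)
    rw [Subgroup.orderOf_mk, hord] at this
    exact this
  have hKp2 : ¬ p ^ 2 ∣ Nat.card K := by
    intro h
    have h1 : p ^ 2 ∣ p.factorial := h.trans hdvd
    have h2 : p.factorial = p * (p - 1).factorial := (Nat.mul_factorial_pred hp.ne_zero).symm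
    rw [h2, pow_two] at h1
    have h3 : p ∣ (p - 1).factorial := Nat.dvd_of_mul_dvd_mul_left hp.pos h1
    have h4 := (Nat.Prime.dvd_factorial hp).1 h3
    have := hp.pos
    omega
  have hfac : (Nat.card K).factorization p = 1 := by
    have hne : Nat.card K ≠ 0 := Nat.card_pos.ne'
    have h1 : 1 ≤ (Nat.card K).factorization p := by
      have := (hp.pow_dvd_iff_le_factorization hne (k := 1)).1 (by simpa using hKp)
      exact this
    have h2 : ¬ 2 ≤ (Nat.card K).factorization p := by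
      intro h
      exact hKp2 ((hp.pow_dvd_iff_le_factorization hne).2 h)
    omega
  let xK : K := ⟨x, hxK⟩
  let xK' : K := ⟨g * x * g⁻¹, hx'K⟩
  have hcard1 : Nat.card (Subgroup.zpowers xK) = p ^ (Nat.card K).factorization p := by
    rw [hfac, pow_one, Nat.card_zpowers, Subgroup.orderOf_mk, hord]
  have hcard2 : Nat.card (Subgroup.zpowers xK') = p ^ (Nat.card K).factorization p := by
    have h0 : orderOf (g * x * g⁻¹) = orderOf x := by
      rw [← MulAut.conj_apply]
      exact MulEquiv.orderOf_eq _ _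
    rw [hfac, pow_one, Nat.card_zpowers, Subgroup.orderOf_mk, h0, hord]
  let S1 : Sylow p K := Sylow.ofCard (Subgroup.zpowers xK) hcard1
  let S2 : Sylow p K := Sylow.ofCard (Subgroup.zpowers xK') hcard2
  obtain ⟨h, hh⟩ := MulAction.exists_smul_eq K S2 S1
  have hmem : h * xK' * h⁻¹ ∈ Subgroup.zpowers xK := by
    have h1 : xK' ∈ (S2 : Subgroup K) := Subgroup.mem_zpowers xK'
    have h2 : MulAut.conj h • xK' ∈ MulAut.conj h • (S2 : Subgroup K) :=
      Subgroup.smul_mem_pointwise_smul _ _ _ h1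
    rw [← Sylow.pointwise_smul_def, ← Sylow.smul_def, hh] at h2
    have h3 : h * xK' * h⁻¹ ∈ (S1 : Subgroup K) := by simpa [MulAut.smul_def] using h2
    exact h3
  obtain ⟨j, hj⟩ := hmem
  refine ⟨(h : Perm α) * g, G.mul_mem (mem_suppFix.1 h.2).1 hg, j, ?_, ?_⟩
  · have := congrArg (Subtype.val) hj
    simp only [xK, xK', Subgroup.coe_mul, Subgroup.coe_inv, Subgroup.coe_zpow] at this
    rw [this]
    group
  · intro v hv
    rw [Perm.mul_apply]
    exact (mem_suppFix.1 h.2).2 _ (hgΔ v hv)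

/-- **Jordan's theorem**: a primitive permutation group containing a cycle of prime length with at
least three fixed points contains the alternating group. -/
theorem alt_le_of_prime_cycle (G : Subgroup (Perm α)) (hG : IsPreprimitive G α) {x : Perm α}
    (hx : x ∈ G) (hc : x.IsCycle) (hp : x.support.card.Prime)
    (hk : x.support.card + 3 ≤ Fintype.card α) : alternatingGroup α ≤ G := by
  classical
  set p := x.support.card with hpd
  set k := Fintype.card α - p with hkd
  -- multi-transitivity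
  have hmt : IsMultiplyPretransitive G α (k + 1) := by
    have hΓ : ((x.support : Set α)).ncard = p := by
      rw [Set.ncard_coe_finset]
    have hJ := Equiv.Perm.isPretransitive_of_isCycle_mem (G := G) hc hx
    have hJp : IsPreprimitive (fixingSubgroup G ((x.support : Set α)ᶜ))
        (SubMulAction.ofFixingSubgroup G ((x.support : Set α)ᶜ)) := by
      apply IsPreprimitive.of_prime_card
      convert hp using 1
      rw [Nat.card_eq_fintype_card, Fintype.card_subtype, hpd]
      apply congr_arg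
      ext y
      simp [SubMulAction.mem_ofFixingSubgroup_iff]
    have := s3619 (G := G) (Ω := α)
      (fun N hN hNb => by
        haveI := hN
        exact trans_of_normal hG N hNb)
      (x.support : Set α) (by rw [hΓ]; exact hp.one_lt)
      (by
        rw [hΓ, Nat.card_eq_fintype_card]
        omega)
      hJ hJp
    simp only [hΓ, Nat.card_eq_fintype_card] at this
    exact this
  -- realising any permutation of the complement of the support
  have hkt : IsMultiplyPretransitive G α k := isMultiplyPretransitive_of_le (n := k + 1) (by omega)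
    (by
      have := hp.pos
      rw [Nat.card_eq_fintype_card]
      omega)
  let D : Finset α := Finset.univ \ x.support
  have hDcard : D.card = k := by
    rw [Finset.card_sdiff_of_subset (Finset.subset_univ _), Finset.card_univ]
  have hmemD : ∀ v, v ∈ D ↔ x v = v := by
    intro v
    simp [D, Perm.mem_support]
  let e₀ : Fin k ≃ D := (Finset.equivFinOfCardEq hDcard).symm
  let e : Fin k ↪ α := ⟨fun i => (e₀ i : α), fun i j h => e₀.injective (Subtype.ext h)⟩
  have hreal : ∀ σ : Perm α, ∃ g ∈ G, ∀ v, x v = v → g v = σ v := by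
    intro σ
    let e' : Fin k ↪ α := e.trans σ.toEmbedding
    obtain ⟨g, hg⟩ := hkt.exists_smul_eq e e'
    refine ⟨g, g.2, fun v hv => ?_⟩
    have hvD := (hmemD v).2 hv
    have he : e (e₀.symm ⟨v, hvD⟩) = v := by
      show ((e₀ (e₀.symm ⟨v, hvD⟩) : D) : α) = v
      simp
    have h4 := congrArg (fun f : Fin k ↪ α => f (e₀.symm ⟨v, hvD⟩)) hg
    have h5 : (g : Perm α) (e (e₀.symm ⟨v, hvD⟩)) = σ (e (e₀.symm ⟨v, hvD⟩)) := h4
    rwa [he] at h5
  -- three fixed points
  have h3 : 3 ≤ D.card := by omega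
  obtain ⟨a, b, c, ha, hb, hcc, hab, hac, hbc⟩ : ∃ a b c, a ∈ D ∧ b ∈ D ∧ c ∈ D ∧ a ≠ b ∧ a ≠ c ∧ b ≠ c := by
    obtain ⟨T, hT, hT3⟩ := Finset.exists_subset_card_eq h3
    obtain ⟨a, b, c, hab, hac, hbc, rfl⟩ := Finset.card_eq_three.1 hT3
    exact ⟨a, b, c, hT (by simp), hT (by simp), hT (by simp), hab, hac, hbc⟩
  have ha' := (hmemD a).1 ha
  have hb' := (hmemD b).1 hb
  have hc' := (hmemD c).1 hcc
  let σ₁ : Perm α := swap a b
  let σ₂ : Perm α := swap a c
  have hσ₁ : ∀ v, x v = v → x (σ₁ v) = σ₁ v := by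
    intro v hv
    by_cases h1 : v = a
    · subst h1; simpa [σ₁] using hb'
    by_cases h2 : v = b
    · subst h2; simpa [σ₁] using ha'
    rw [show σ₁ v = v from swap_apply_of_ne_of_ne h1 h2]
    exact hv
  have hσ₂ : ∀ v, x v = v → x (σ₂ v) = σ₂ v := by
    intro v hv
    by_cases h1 : v = a
    · subst h1; simpa [σ₂] using hc'
    by_cases h2 : v = c
    · subst h2; simpa [σ₂] using ha'
    rw [show σ₂ v = v from swap_apply_of_ne_of_ne h1 h2]
    exact hv
  obtain ⟨g₁, hg₁, hg₁'⟩ := hreal σ₁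
  obtain ⟨g₂, hg₂, hg₂'⟩ := hreal σ₂
  obtain ⟨n₁, hn₁, j₁, hj₁, hn₁'⟩ := exists_normalizing hx hc hp hg₁ (fun v hv => by
    rw [hg₁' v hv]; exact hσ₁ v hv)
  obtain ⟨n₂, hn₂, j₂, hj₂, hn₂'⟩ := exists_normalizing hx hc hp hg₂ (fun v hv => by
    rw [hg₂' v hv]; exact hσ₂ v hv)
  have hn₁v : ∀ v, x v = v → n₁ v = σ₁ v := fun v hv => by rw [hn₁' v hv, hg₁' v hv]
  have hn₂v : ∀ v, x v = v → n₂ v = σ₂ v := fun v hv => by rw [hn₂' v hv, hg₂' v hv]
  -- inverses on the fixed set
  have hn₁i : ∀ v, x v = v → n₁⁻¹ v = σ₁ v := by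
    intro v hv
    rw [Perm.inv_eq_iff_eq, hn₁v _ (hσ₁ v hv)]
    simp [σ₁]
  have hn₂i : ∀ v, x v = v → n₂⁻¹ v = σ₂ v := by
    intro v hv
    rw [Perm.inv_eq_iff_eq, hn₂v _ (hσ₂ v hv)]
    simp [σ₂]
  let w : Perm α := n₁⁻¹ * n₂⁻¹ * n₁ * n₂
  have hwG : w ∈ G := G.mul_mem (G.mul_mem (G.mul_mem (G.inv_mem hn₁) (G.inv_mem hn₂)) hn₁) hn₂
  have hconj₁ : ∀ i : ℤ, n₁ * x ^ i * n₁⁻¹ = (x ^ j₁) ^ i := by
    intro i
    rw [← hj₁, conj_zpow]
  have hconj₂ : ∀ i : ℤ, n₂ * x ^ i * n₂⁻¹ = (x ^ j₂) ^ i := by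
    intro i
    rw [← hj₂, conj_zpow]
  have hw_comm : Commute w x := by
    have e12 : (n₁ * n₂) * x * (n₁ * n₂)⁻¹ = x ^ (j₁ * j₂) := by
      have h1 : (n₁ * n₂) * x * (n₁ * n₂)⁻¹ = n₁ * (n₂ * x * n₂⁻¹) * n₁⁻¹ := by group
      rw [h1, hj₂, hconj₁, ← zpow_mul]
    have e21 : (n₂ * n₁) * x * (n₂ * n₁)⁻¹ = x ^ (j₁ * j₂) := by
      have h1 : (n₂ * n₁) * x * (n₂ * n₁)⁻¹ = n₂ * (n₁ * x * n₁⁻¹) * n₂⁻¹ := by group
      rw [h1, hj₁, hconj₂, ← zpow_mul, mul_comm]
    have e : (n₁ * n₂) * x * (n₁ * n₂)⁻¹ = (n₂ * n₁) * x * (n₂ * n₁)⁻¹ := e12.trans e21.symm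
    show w * x = x * w
    have hw' : w = (n₂ * n₁)⁻¹ * (n₁ * n₂) := by
      show n₁⁻¹ * n₂⁻¹ * n₁ * n₂ = _
      group
    rw [hw']
    have : (n₁ * n₂) * x = (n₂ * n₁) * x * (n₂ * n₁)⁻¹ * (n₁ * n₂) := by
      rw [← e]
      group
    calc (n₂ * n₁)⁻¹ * (n₁ * n₂) * x = (n₂ * n₁)⁻¹ * ((n₁ * n₂) * x) := by group
      _ = (n₂ * n₁)⁻¹ * ((n₂ * n₁) * x * (n₂ * n₁)⁻¹ * (n₁ * n₂)) := by rw [this]
      _ = x * ((n₂ * n₁)⁻¹ * (n₁ * n₂)) := by group
  -- `τ` the three-cycle
  let τ : Perm α := σ₁ * σ₂ * σ₁ * σ₂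
  have hτ3 : IsThreeCycle τ := by
    have h1 : IsThreeCycle (σ₁ * σ₂) := isThreeCycle_swap_mul_swap_same hab hac hbc
    have h2 : τ = (σ₁ * σ₂) ^ 2 := by
      show σ₁ * σ₂ * σ₁ * σ₂ = _
      rw [pow_two]
      group
    rw [h2]
    exact h1.isThreeCycle_sq
  have hσ₁fix : ∀ v, x v ≠ v → σ₁ v = v := by
    intro v hv
    apply swap_apply_of_ne_of_ne
    · rintro rfl; exact hv ha'
    · rintro rfl; exact hv hb'
  have hσ₂fix : ∀ v, x v ≠ v → σ₂ v = v := by
    intro v hv
    apply swap_apply_of_ne_of_ne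
    · rintro rfl; exact hv ha'
    · rintro rfl; exact hv hc'
  have hwτ : ∀ v, x v = v → w v = τ v := by
    intro v hv
    show n₁⁻¹ (n₂⁻¹ (n₁ (n₂ v))) = σ₁ (σ₂ (σ₁ (σ₂ v)))
    rw [hn₂v v hv, hn₁v _ (hσ₂ v hv), hn₂i _ (hσ₁ _ (hσ₂ v hv)), hn₁i _ (hσ₂ _ (hσ₁ _ (hσ₂ v hv)))]
  -- correct by a power of x
  obtain ⟨v₀, hv₀, -⟩ := id hc
  have hwv₀ : x (w v₀) ≠ w v₀ := by
    intro h
    have h1 : x (w v₀) = w (x v₀) := by
      have := congrArg (fun f : Perm α => f v₀) hw_comm.eq
      simpa [Perm.mul_apply] using this.symm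
    rw [h1] at h
    exact hv₀ (w.injective h)
  obtain ⟨i, hi⟩ := hc.exists_zpow_eq hv₀ hwv₀
  let w' : Perm α := (x ^ i)⁻¹ * w
  have hw'G : w' ∈ G := G.mul_mem (G.inv_mem (G.zpow_mem hx i)) hwG
  have hw'_comm : Commute w' x := (Commute.inv_left ((Commute.refl x).zpow_left i)).mul_left hw_comm
  have hw'v₀ : w' v₀ = v₀ := by
    show (x ^ i)⁻¹ (w v₀) = v₀
    rw [Perm.inv_eq_iff_eq, hi]
  have hw'τ : w' = τ := by
    ext v
    by_cases hv : x v = v
    · show (x ^ i)⁻¹ (w v) = τ v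
      have h1 : x (w v) = w v := by
        have := congrArg (fun f : Perm α => f v) hw_comm.eq
        simp only [Perm.mul_apply, hv] at this
        exact this.symm
      rw [Perm.inv_eq_iff_eq, hwτ v hv] 
      have h2 : x (τ v) = τ v := by rw [← hwτ v hv]; exact h1
      have h3 : (x ^ i) (τ v) = τ v := by
        have : Function.IsFixedPt x (τ v) := h2
        exact (zpow_apply_eq_self_of_apply_eq_self h2 i)
      exact h3.symm
    · rw [fix_support_of_commute hc hw'_comm hv₀ hw'v₀ hv]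
      show v = σ₁ (σ₂ (σ₁ (σ₂ v)))
      rw [hσ₂fix v hv, hσ₁fix v hv, hσ₂fix v hv, hσ₁fix v hv]
  have hτG : τ ∈ G := hw'τ ▸ hw'G
  exact alternatingGroup_le_of_isPreprimitive_of_isThreeCycle_mem hG hτ3 hτG

end CfsgLib.Rec
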