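import Mathlib
import Cfsg.Agent.Lib.Rec.PrimeCycle

set_option autoImplicit false
open scoped Pointwise

namespace CfsgLib.Rec

open MulAction Equiv Equiv.Perm

variable {α : Type*} [Fintype α] [DecidableEq α]

/-- If a coprime power of `x` fixes `v`, then `x` fixes `v`. -/
theorem fix_of_pow_fix {x : Perm α} (hp : (orderOf x).Prime) {t : ℕ} (ht : ¬ orderOf x ∣ t) {v : α}
    (h : (x ^ t) v = v) : x v = v := by
  have hco : Nat.Coprime t (orderOf x) := (Nat.Prime.coprime_iff_not_dvd hp).2 ht |>.symm
  obtain ⟨m, -, hm⟩ := Nat.exists_mul_mod_eq_one_of_coprime hco hp.one_lt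
  have h1 : (x ^ t) ^ m = x := by
    rw [← pow_mul, ← pow_mod_orderOf, hm, pow_one]
  have h2 : ((x ^ t) ^ m) v = v := Perm.pow_apply_eq_self_of_apply_eq_self h m
  rwa [h1] at h2

/-- Same for integer powers. -/
theorem fix_of_zpow_fix {x : Perm α} (hp : (orderOf x).Prime) {t : ℤ} (ht : x ^ t ≠ 1) {v : α}
    (h : (x ^ t) v = v) : x v = v := by
  have hpos : (0 : ℤ) < orderOf x := by exact_mod_cast hp.pos
  have hmod : 0 ≤ t % (orderOf x : ℤ) := Int.emod_nonneg _ hpos.ne'
  obtain ⟨n, hn⟩ := Int.eq_ofNat_of_zero_le hmod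
  have h1 : x ^ t = x ^ n := by
    rw [← zpow_mod_orderOf, hn, zpow_natCast]
  rw [h1] at ht h
  refine fix_of_pow_fix hp (fun hd => ht ?_) h
  exact orderOf_dvd_iff_pow_eq_one.1 hd

/-- Transitivity: `y` is a cycle with big support, and the `x`-cycles are longer than the
complement of the support of `y`. -/
theorem trans_of_cycles (G : Subgroup (Perm α)) {x y : Perm α} (hx : x ∈ G) (hy : y ∈ G)
    (hcy : y.IsCycle) (hp : (orderOf x).Prime) (hcov : ∀ v, x v ≠ v ∨ y v ≠ v)
    (hsize : Fintype.card α < orderOf x + y.support.card) : IsPretransitive G α := by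
  classical
  obtain ⟨z, hz, hzc⟩ := id hcy
  have hmain : ∀ v, ∃ g ∈ G, g z = v := by
    intro v
    have hsupp : ∀ u, y u ≠ u → ∃ g ∈ G, g z = u := by
      intro u hu
      obtain ⟨i, hi⟩ := hcy.exists_zpow_eq hz hu
      exact ⟨y ^ i, G.zpow_mem hy i, hi⟩
    by_cases hv : y v ≠ v
    · exact hsupp v hv
    · have hxv : x v ≠ v := (hcov v).resolve_right hv
      -- some `x ^ i v` lies in the support of `y`
      have : ∃ i : ℕ, y ((x ^ i) v) ≠ (x ^ i) v := by
        by_contra hcon
        push Not at hcon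
        let f : Fin (orderOf x) → α := fun i => (x ^ (i : ℕ)) v
        have hf : Function.Injective f := by
          intro i j hij
          by_contra hne
          wlog hlt : (i : ℕ) < j generalizing i j
          · exact this hij.symm (Ne.symm hne) (by
              have h1 : (i : ℕ) ≠ j := fun h => hne (Fin.ext h)
              omega)
          have h1 : (x ^ ((j : ℕ) - i)) ((x ^ (i : ℕ)) v) = (x ^ (i : ℕ)) v := by
            rw [← Perm.mul_apply, ← pow_add, Nat.sub_add_cancel hlt.le]
            exact hij.symm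
          have h2 : (x ^ ((j : ℕ) - i)) v = v := by
            have h3 : (x ^ (i : ℕ)) ((x ^ ((j : ℕ) - i)) v) = (x ^ (i : ℕ)) v := by
              rw [← Perm.mul_apply, ← pow_add, add_comm, pow_add, Perm.mul_apply]
              exact h1
            exact (x ^ (i : ℕ)).injective h3
          have h4 : ¬ orderOf x ∣ ((j : ℕ) - i) := by
            intro hd
            have := Nat.le_of_dvd (by omega) hd
            have := j.2
            omega
          exact hxv (fix_of_pow_fix hp h4 h2)
        have hcard : orderOf x ≤ (Finset.univ \ y.support).card := by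
          have := Finset.card_le_card_of_injOn (s := (Finset.univ : Finset (Fin (orderOf x))))
            (t := Finset.univ \ y.support) f (by
              intro i _
              simp [Perm.mem_support, hcon (i : ℕ), f]) (hf.injOn)
          simpa using this
        rw [Finset.card_sdiff_of_subset (Finset.subset_univ _), Finset.card_univ] at hcard
        have hle : y.support.card ≤ Fintype.card α := Finset.card_le_univ _
        omega
      obtain ⟨i, hi⟩ := this
      obtain ⟨g, hg, hgz⟩ := hsupp _ hi
      refine ⟨(x ^ i)⁻¹ * g, G.mul_mem (G.inv_mem (G.pow_mem hx i)) hg, ?_⟩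
      rw [Perm.mul_apply, hgz]
      simp
  constructor
  intro a b
  obtain ⟨g₁, hg₁, h1⟩ := hmain a
  obtain ⟨g₂, hg₂, h2⟩ := hmain b
  refine ⟨⟨g₂ * g₁⁻¹, G.mul_mem hg₂ (G.inv_mem hg₁)⟩, ?_⟩
  show (g₂ * g₁⁻¹) a = b
  rw [Perm.mul_apply, ← h1]
  simp [h2]

theorem pow_smul_eq_of_smul_eq {K X : Type*} [Group K] [MulAction K X] {h : K} {B : Set X}
    (h1 : h • B = B) (m : ℕ) : (h ^ m) • B = B := by
  induction m with
  | zero => simp
  | succ m ih => rw [pow_succ, mul_smul, h1, ih]

/-- A transitive group containing a prime cycle with support more than half is primitive. -/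
theorem prim_of_big_cycle (G : Subgroup (Perm α)) [IsPretransitive G α] {y : Perm α} (hy : y ∈ G)
    (hcy : y.IsCycle) (hp : y.support.card.Prime) (hsize : Fintype.card α < 2 * y.support.card) :
    IsPreprimitive G α := by
  classical
  have hord : orderOf y = y.support.card := hcy.orderOf
  have hordp : (orderOf y).Prime := hord ▸ hp
  refine { toIsPretransitive := inferInstance, isTrivialBlock_of_isBlock := ?_ }
  intro B hB
  by_contra hnt
  have hnt1 : ¬ B.Subsingleton := fun h => hnt (Or.inl h)
  have hnt2 : B ≠ Set.univ := fun h => hnt (Or.inr h)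
  obtain ⟨b₀, hb₀, b₁, hb₁, hb⟩ := Set.not_subsingleton_iff.1 hnt1
  obtain ⟨z, hz, hzc⟩ := id hcy
  obtain ⟨g, hg⟩ := exists_smul_eq G b₀ z
  set B' : Set α := g • B with hB'
  have hB'block : IsBlock G B' := hB.translate g
  have hzB' : z ∈ B' := ⟨b₀, hb₀, hg⟩
  -- the size of the block
  have hcard : B.ncard ∣ Nat.card α := hB.ncard_dvd_card ⟨b₀, hb₀⟩
  have hcardne : B.ncard ≠ Nat.card α := by
    intro h
    apply hnt2
    apply Set.eq_of_subset_of_ncard_le (Set.subset_univ _)
    rw [Set.ncard_univ, h]
  have hn : 0 < Nat.card α := Nat.card_pos_iff.2 ⟨⟨z⟩, inferInstance⟩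
  have h2B : 2 * B.ncard ≤ Fintype.card α := by
    rw [← Nat.card_eq_fintype_card]
    obtain ⟨k, hk⟩ := hcard
    have hk0 : k ≠ 0 := by
      intro h0
      rw [h0, mul_zero] at hk
      omega
    have hk1 : k ≠ 1 := by
      intro h1
      apply hcardne
      rw [hk, h1, mul_one]
    have : 2 ≤ k := by omega
    rw [hk, mul_comm]
    exact Nat.mul_le_mul_left _ this
  have hB'card : B'.ncard = B.ncard := Set.ncard_smul_set g B
  -- `y` stabilises `B'`
  have hstab : (⟨y, hy⟩ : G) • B' = B' := by
    have hsm : ∀ (h : G) (u : α), h • u = (h : Perm α) u := fun _ _ => rfl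
    obtain ⟨z', hz'B, hz'⟩ : ∃ z' ∈ B', z' ≠ z := by
      by_contra hcon
      push Not at hcon
      have h1 : g • b₀ ∈ B' := ⟨b₀, hb₀, rfl⟩
      have h2 : g • b₁ ∈ B' := ⟨b₁, hb₁, rfl⟩
      have h3 := hcon _ h1
      have h4 := hcon _ h2
      exact hb (smul_left_cancel g (h3.trans h4.symm))
    by_cases hyz' : y z' = z'
    · apply hB'block.smul_eq_of_mem hz'B
      rw [hsm]
      show y z' ∈ B'
      rw [hyz']
      exact hz'B
    · obtain ⟨t, ht⟩ := hcy.exists_pow_eq hz hyz'
      have htne : ¬ orderOf y ∣ t := by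
        intro hd
        have h1 := orderOf_dvd_iff_pow_eq_one.1 hd
        rw [h1] at ht
        exact hz' ht.symm
      have h1 : ((⟨y, hy⟩ : G) ^ t) • B' = B' := by
        apply hB'block.smul_eq_of_mem hzB'
        have : ((⟨y, hy⟩ : G) ^ t) • z = z' := by
          rw [hsm]
          simpa using ht
        rw [this]
        exact hz'B
      have hco : Nat.Coprime t (orderOf y) := ((Nat.Prime.coprime_iff_not_dvd hordp).2 htne).symm
      obtain ⟨m, -, hm⟩ := Nat.exists_mul_mod_eq_one_of_coprime hco hordp.one_lt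
      have h2 : (y ^ t) ^ m = y := by
        rw [← pow_mul, ← pow_mod_orderOf, hm, pow_one]
      have hm' : ((⟨y, hy⟩ : G) ^ t) ^ m = (⟨y, hy⟩ : G) := Subtype.ext (by simpa using h2)
      have := pow_smul_eq_of_smul_eq h1 m
      rwa [hm'] at this
  -- hence the support of `y` lies in `B'`
  have hsub : (y.support : Set α) ⊆ B' := by
    intro u hu
    have hu' : y u ≠ u := by simpa using hu
    obtain ⟨t, ht⟩ := hcy.exists_pow_eq hz hu'
    have h3 : ((⟨y, hy⟩ : G) ^ t) • B' = B' := pow_smul_eq_of_smul_eq hstab t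
    rw [← h3]
    refine ⟨z, hzB', ?_⟩
    show (((⟨y, hy⟩ : G) ^ t : G) : Perm α) z = u
    simpa using ht
  have hle : y.support.card ≤ B'.ncard := by
    rw [← Set.ncard_coe_finset]
    exact Set.ncard_le_ncard hsub (Set.toFinite _)
  omega

/-- The standing hypotheses on the two generators. -/
structure Gens (x y : Perm α) (p q : ℕ) : Prop where
  hp : p.Prime
  hq : q.Prime
  hpq : p < q
  ox : orderOf x = p
  oy : orderOf y = q
  sx : sign x = 1
  sy : sign y = 1
  cov : ∀ v, x v ≠ v ∨ y v ≠ v
  big : Fintype.card α ≤ 2 * p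

namespace Gens

variable {x y : Perm α} {p q : ℕ}

theorem y_cycle (h : Gens x y p q) : y.IsCycle := by
  apply isCycle_of_prime_order'
  · rw [h.oy]; exact h.hq
  · rw [h.oy]
    have := h.big
    have := h.hpq
    omega

theorem y_supp (h : Gens x y p q) : y.support.card = q := by
  rw [← h.y_cycle.orderOf, h.oy]

theorem q_le (h : Gens x y p q) : q ≤ Fintype.card α := by
  rw [← h.y_supp]
  exact Finset.card_le_univ _

theorem x_cycle_or (h : Gens x y p q) : x.IsCycle ∨ Fintype.card α = 2 * p := by
  by_cases hlt : Fintype.card α < 2 * p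
  · left
    apply isCycle_of_prime_order'
    · rw [h.ox]; exact h.hp
    · rw [h.ox]; exact hlt
  · right
    have := h.big
    omega

theorem memx (_ : Gens x y p q) : x ∈ Subgroup.closure ({x, y} : Set (Perm α)) :=
  Subgroup.subset_closure (by simp)

theorem memy (_ : Gens x y p q) : y ∈ Subgroup.closure ({x, y} : Set (Perm α)) :=
  Subgroup.subset_closure (by simp)

theorem le_alt (h : Gens x y p q) : Subgroup.closure ({x, y} : Set (Perm α)) ≤ alternatingGroup α := by
  rw [Subgroup.closure_le]
  rintro v (rfl | rfl)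
  · exact Equiv.Perm.mem_alternatingGroup.2 h.sx
  · exact Equiv.Perm.mem_alternatingGroup.2 h.sy

theorem trans (h : Gens x y p q) : IsPretransitive (Subgroup.closure ({x, y} : Set (Perm α))) α := by
  apply trans_of_cycles _ h.memx h.memy h.y_cycle
  · rw [h.ox]; exact h.hp
  · exact h.cov
  · rw [h.ox, h.y_supp]
    have := h.big
    have := h.hpq
    omega

theorem prim (h : Gens x y p q) : IsPreprimitive (Subgroup.closure ({x, y} : Set (Perm α))) α := by
  haveI := h.trans
  apply prim_of_big_cycle _ h.memy h.y_cycle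
  · rw [h.y_supp]; exact h.hq
  · rw [h.y_supp]
    have := h.big
    have := h.hpq
    omega

/-- In the good cases the generated subgroup is the alternating group. -/
theorem eq_alt_of_gap (h : Gens x y p q) (hgap : p + 3 ≤ q)
    (hor : Fintype.card α < 2 * p ∨ q + 3 ≤ 2 * p) :
    Subgroup.closure ({x, y} : Set (Perm α)) = alternatingGroup α := by
  apply le_antisymm h.le_alt
  rcases h.x_cycle_or with hc | hc
  · apply alt_le_of_prime_cycle _ h.prim h.memx hc
    · rw [← hc.orderOf, h.ox]; exact h.hp
    · rw [← hc.orderOf, h.ox]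
      have := h.q_le
      omega
  · apply alt_le_of_prime_cycle _ h.prim h.memy h.y_cycle
    · rw [h.y_supp]; exact h.hq
    · rw [h.y_supp]
      rcases hor with h1 | h1
      · omega
      · omega

end Gens

/-- From an equality with the alternating group to an isomorphism. -/
theorem iso_of_eq_alt {G : Subgroup (Perm α)} (h : G = alternatingGroup α) :
    Nonempty (G ≃* alternatingGroup (Fin (Fintype.card α))) :=
  ⟨(MulEquiv.subgroupCongr h).trans (Equiv.altCongrHom (Fintype.equivFin α))⟩

/-- The transfer from `Fin m` to the union of supports. -/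
theorem transfer {m : ℕ} (x y : alternatingGroup (Fin m)) (p q : ℕ)
    (hp : p.Prime) (hq : q.Prime) (hpq : p < q) (hm : m ≤ 2 * p)
    (ox : orderOf x = p) (oy : orderOf y = q)
    (core : ∀ (Ω : Type) [Fintype Ω] [DecidableEq Ω] (X Y : Perm Ω), Fintype.card Ω ≤ m → Gens X Y p q →
      ∃ d : ℕ, 5 ≤ d ∧ Nonempty (Subgroup.closure ({X, Y} : Set (Perm Ω)) ≃* alternatingGroup (Fin d))) :
    ∃ d : ℕ, 5 ≤ d ∧ Nonempty (Subgroup.closure ({x, y} : Set (alternatingGroup (Fin m))) ≃*
      alternatingGroup (Fin d)) := by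
  classical
  set X : Perm (Fin m) := x.1 with hX
  set Y : Perm (Fin m) := y.1 with hY
  let S : Finset (Fin m) := X.support ∪ Y.support
  let P : Fin m → Prop := fun v => v ∈ S
  have hgen : ∀ (Z : Perm (Fin m)), (∀ v, Z v ≠ v → P v) → ∀ v, P (Z v) ↔ P v := by
    intro Z hZ v
    by_cases hv : Z v = v
    · rw [hv]
    · refine ⟨fun _ => hZ v hv, fun _ => hZ _ ?_⟩
      intro h
      exact hv (Z.injective h)
  have hXS' : ∀ v, X v ≠ v → P v := fun v hv => Finset.mem_union_left _ (Perm.mem_support.2 hv)
  have hYS' : ∀ v, Y v ≠ v → P v := fun v hv => Finset.mem_union_right _ (Perm.mem_support.2 hv)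
  let X' : Perm (Subtype P) := X.subtypePerm (hgen X hXS')
  let Y' : Perm (Subtype P) := Y.subtypePerm (hgen Y hYS')
  have hX' : Perm.ofSubtype X' = X := ofSubtype_subtypePerm _ hXS'
  have hY' : Perm.ofSubtype Y' = Y := ofSubtype_subtypePerm _ hYS'
  have hinj : Function.Injective (Perm.ofSubtype (p := P)) := Perm.ofSubtype_injective
  have hgens : Gens X' Y' p q := by
    refine ⟨hp, hq, hpq, ?_, ?_, ?_, ?_, ?_, ?_⟩
    · rw [← orderOf_injective _ hinj, hX', hX, Subgroup.orderOf_coe, ox]
    · rw [← orderOf_injective _ hinj, hY', hY, Subgroup.orderOf_coe, oy]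
    · rw [← sign_ofSubtype, hX']
      exact Equiv.Perm.mem_alternatingGroup.1 x.2
    · rw [← sign_ofSubtype, hY']
      exact Equiv.Perm.mem_alternatingGroup.1 y.2
    · rintro ⟨v, hv⟩
      have hv' : v ∈ S := hv
      rw [Finset.mem_union, Perm.mem_support, Perm.mem_support] at hv'
      rcases hv' with h | h
      · left
        intro h2
        exact h (congrArg Subtype.val h2)
      · right
        intro h2
        exact h (congrArg Subtype.val h2)
    · have h1 : Fintype.card (Subtype P) ≤ Fintype.card (Fin m) := Fintype.card_subtype_le P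
      rw [Fintype.card_fin] at h1
      omega
  have hcardle : Fintype.card (Subtype P) ≤ m := by
    have h1 : Fintype.card (Subtype P) ≤ Fintype.card (Fin m) := Fintype.card_subtype_le P
    rwa [Fintype.card_fin] at h1
  obtain ⟨d, hd, ⟨e⟩⟩ := core (Subtype P) X' Y' hcardle hgens
  refine ⟨d, hd, ⟨?_⟩⟩
  let A := Subgroup.closure ({x, y} : Set (alternatingGroup (Fin m)))
  let B := Subgroup.closure ({X', Y'} : Set (Perm (Subtype P)))
  have hA : A.map (alternatingGroup (Fin m)).subtype = Subgroup.closure ({X, Y} : Set (Perm (Fin m))) := by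
    rw [MonoidHom.map_closure, Set.image_pair]
    rfl
  have hB : B.map (Perm.ofSubtype (p := P)) = Subgroup.closure ({X, Y} : Set (Perm (Fin m))) := by
    rw [MonoidHom.map_closure, Set.image_pair, hX', hY']
  have e1 : A ≃* A.map (alternatingGroup (Fin m)).subtype :=
    A.equivMapOfInjective _ (alternatingGroup (Fin m)).subtype_injective
  have e2 : B ≃* B.map (Perm.ofSubtype (p := P)) := B.equivMapOfInjective _ hinj
  exact e1.trans ((MulEquiv.subgroupCongr (hA.trans hB.symm)).trans (e2.symm.trans e))

end CfsgLib.Rec
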