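import Mathlib
import Cfsg.Agent.Lib.Rec.AltGen
import Cfsg.Agent.Lib.H9.Sharp3
import Cfsg.Agent.Lib.H9.PrimeDeg
import Cfsg.Agent.Lib.Rec.Order60
import Cfsg.Agent.S0494

set_option autoImplicit false
open scoped Pointwise

namespace CfsgLib.Rec

open MulAction Equiv Equiv.Perm

variable {α : Type*} [Fintype α] [DecidableEq α]

/-- The shape of a permutation of prime order. -/
theorem supp_of_order_prime {z : Perm α} {r : ℕ} (hr : r.Prime) (hz : orderOf z = r) :
    ∃ n : ℕ, z.support.card = r * (n + 1) ∧ z.cycleType = Multiset.replicate (n + 1) r := by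
  obtain ⟨n, hn⟩ := cycleType_prime_order (σ := z) (hz ▸ hr)
  rw [hz] at hn
  refine ⟨n, ?_, hn⟩
  rw [← sum_cycleType, hn, Multiset.sum_replicate, smul_eq_mul, mul_comm]

/-- Multiple transitivity given a prime cycle. -/
theorem multi_of_prime_cycle (G : Subgroup (Perm α)) (hG : IsPreprimitive G α) {x : Perm α}
    (hx : x ∈ G) (hc : x.IsCycle) (hp : x.support.card.Prime)
    (hk : x.support.card < Fintype.card α) :
    IsMultiplyPretransitive G α (Fintype.card α - x.support.card + 1) := by
  classical
  have hΓ : ((x.support : Set α)).ncard = x.support.card := by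
    rw [Set.ncard_coe_finset]
  have hJ := Equiv.Perm.isPretransitive_of_isCycle_mem (G := G) hc hx
  have hJp : IsPreprimitive (fixingSubgroup G ((x.support : Set α)ᶜ))
      (SubMulAction.ofFixingSubgroup G ((x.support : Set α)ᶜ)) := by
    apply IsPreprimitive.of_prime_card
    convert hp using 1
    rw [Nat.card_eq_fintype_card, Fintype.card_subtype]
    apply congr_arg
    ext y
    simp [SubMulAction.mem_ofFixingSubgroup_iff]
  have := s3619 (G := G) (Ω := α)
    (fun N hN hNb => by
      haveI := hN
      exact trans_of_normal hG N hNb)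
    (x.support : Set α) (by rw [hΓ]; exact hp.one_lt)
    (by
      rw [hΓ, Nat.card_eq_fintype_card]
      omega)
    hJ hJp
  simp only [hΓ, Nat.card_eq_fintype_card] at this
  exact this

/-- No sharply triply transitive action unless the degree minus one is a prime power. -/
theorem sharp_false (G : Subgroup (Perm α)) (h3 : IsMultiplyPretransitive G α 3)
    (hs : ∀ e : Fin 3 ↪ α, stabilizer G e = ⊥) (hcard : ¬ IsPrimePow (Fintype.card α - 1))
    (a : α) (h2 : 3 ≤ Fintype.card α) : False := by
  classical
  have hS := CfsgLib.H9.Sharp3.isSharp3_of_subgroup G h3 hs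
  have hS2 := hS.stabilizer a
  have hc : Nat.card (SubMulAction.ofStabilizer G a) = Fintype.card α - 1 := by
    rw [SubMulAction.nat_card_ofStabilizer_eq, Nat.card_eq_fintype_card]
  have hnt : Nontrivial (SubMulAction.ofStabilizer G a) := by
    rw [← Finite.one_lt_card_iff_nontrivial, hc]
    omega
  obtain ⟨p, j, hp, hj, hpj, -⟩ := CfsgLib.H9.Sharp2.exists_card_eq_prime_pow hS2
  apply hcard
  rw [← hc, hpj]
  exact ⟨p, j, hp.prime, by omega, rfl⟩

/-- Order formula for a triply transitive group. -/
theorem card_of_multi {n : ℕ} (G : Subgroup (Perm α)) (h3 : IsMultiplyPretransitive G α n)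
    (e : Fin n ↪ α) :
    Nat.card G = (Fintype.card α).descFactorial n * Nat.card (stabilizer G e) := by
  classical
  have h1 := Subgroup.card_mul_index (stabilizer G e)
  have h5 : (stabilizer G e).index = Nat.card (Fin n ↪ α) := by
    rw [index_stabilizer]
    convert Set.ncard_univ (Fin n ↪ α) using 2
    ext y
    simp only [Set.mem_univ, iff_true]
    obtain ⟨g, hg⟩ := h3.exists_smul_eq e y
    exact ⟨g, hg⟩
  rw [h5, Nat.card_eq_fintype_card (α := Fin n ↪ α),
    Fintype.card_embedding_eq, Fintype.card_fin] at h1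
  rw [← h1, mul_comm]

theorem stab_ne_bot {n : ℕ} (G : Subgroup (Perm α)) (h3 : IsMultiplyPretransitive G α n)
    {e₀ : Fin n ↪ α} (h : stabilizer G e₀ ≠ ⊥) (e : Fin n ↪ α) : stabilizer G e ≠ ⊥ := by
  intro hbot
  apply h
  rw [eq_bot_iff]
  intro t ht
  obtain ⟨g, hg⟩ := h3.exists_smul_eq e₀ e
  have h1 : g * t * g⁻¹ ∈ stabilizer G e := by
    rw [mem_stabilizer_iff]
    ext i
    have e_i : e i = g • e₀ i := by rw [← hg]; rfl
    have t_i : t • e₀ i = e₀ i := DFunLike.congr_fun (mem_stabilizer_iff.1 ht) i
    show (g * t * g⁻¹) • e i = e i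
    rw [e_i, mul_smul, mul_smul, inv_smul_smul, t_i]
  rw [hbot, Subgroup.mem_bot] at h1
  rw [Subgroup.mem_bot]
  have h2 : t = g⁻¹ * (g * t * g⁻¹) * g := by group
  rw [h2, h1]
  group

/-- A simple group embeds in the symmetric group on the cosets of a proper subgroup. -/
theorem card_dvd_factorial_index {A : Type*} [Group A] [IsSimpleGroup A] [Finite A] (H : Subgroup A)
    (hH : H ≠ ⊤) : Nat.card A ∣ (H.index).factorial := by
  classical
  let φ : A →* Perm (A ⧸ H) := MulAction.toPermHom A (A ⧸ H)
  have hker : φ.ker = ⊥ := by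
    rcases (IsSimpleGroup.eq_bot_or_eq_top_of_normal φ.ker inferInstance) with h | h
    · exact h
    · exfalso
      apply hH
      rw [eq_top_iff]
      intro a _
      have ha : a ∈ φ.ker := by rw [h]; trivial
      have h1 : φ a = 1 := ha
      have h2 : φ a ((1 : A) : A ⧸ H) = ((1 : A) : A ⧸ H) := by rw [h1]; rfl
      have h3 : ((a * 1 : A) : A ⧸ H) = ((1 : A) : A ⧸ H) := h2
      have h4 := QuotientGroup.eq.1 h3
      simpa using H.inv_mem h4
  have hinj : Function.Injective φ := (MonoidHom.ker_eq_bot_iff φ).1 hker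
  haveI : Finite (A ⧸ H) := inferInstance
  haveI : Fintype (A ⧸ H) := Fintype.ofFinite _
  have h := Subgroup.card_dvd_of_injective φ hinj
  rw [Nat.card_eq_fintype_card (α := Perm (A ⧸ H)), Fintype.card_perm] at h
  rwa [← Nat.card_eq_fintype_card] at h

/-- The twin case `(5,7)`. -/
theorem twin5 (G : Subgroup (Perm α)) (hG : IsPreprimitive G α) (hle : G ≤ alternatingGroup α)
    {x : Perm α} (hx : x ∈ G) (hc : x.IsCycle) (h5 : x.support.card = 5)
    (hn : Fintype.card α = 7) : alternatingGroup α ≤ G := by
  classical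
  have h3 : IsMultiplyPretransitive G α 3 := by
    have := multi_of_prime_cycle G hG hx hc (by rw [h5]; norm_num) (by omega)
    rwa [hn, h5] at this
  by_contra hnot
  have hne : Nonempty α := by
    rw [← Fintype.card_pos_iff]; omega
  obtain ⟨a⟩ := hne
  by_cases hs : ∀ e : Fin 3 ↪ α, stabilizer G e = ⊥
  · refine sharp_false G h3 hs ?_ a (by omega)
    rw [hn]
    decide
  push Not at hs
  obtain ⟨e, he⟩ := hs
  have hcardG := card_of_multi G h3 e
  rw [hn] at hcardG
  have h210 : (7 : ℕ).descFactorial 3 = 210 := by decide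
  rw [h210] at hcardG
  have ht : 2 ≤ Nat.card (stabilizer G e) := by
    have : Nontrivial (stabilizer G e) := (Subgroup.nontrivial_iff_ne_bot _).2 he
    exact Finite.one_lt_card
  let A := alternatingGroup α
  haveI : IsSimpleGroup A := alternatingGroup.isSimpleGroup (by rw [Nat.card_eq_fintype_card]; omega)
  let H : Subgroup A := G.subgroupOf A
  have hH : H ≠ ⊤ := by
    intro h
    apply hnot
    exact Subgroup.subgroupOf_eq_top.1 h
  have hcardH : Nat.card H = Nat.card G := by
    exact Nat.card_congr (Subgroup.subgroupOfEquivOfLe hle).toEquiv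
  have hcardA : Nat.card A = 2520 := by
    haveI : Nontrivial α := Fintype.one_lt_card_iff_nontrivial.1 (by omega)
    have h1 := two_mul_card_alternatingGroup (α := α)
    rw [Fintype.card_perm, hn] at h1
    have h2 : Nat.factorial 7 = 5040 := by decide
    rw [Nat.card_eq_fintype_card]
    show Fintype.card (alternatingGroup α) = 2520
    omega
  have hi := H.index_mul_card
  have hd := card_dvd_factorial_index H hH
  rw [hcardA] at hd hi
  rw [hcardH, hcardG] at hi
  have hi6 : H.index ≤ 6 := by
    by_contra hgt
    push Not at hgt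
    have : 7 * (210 * 2) ≤ H.index * (210 * Nat.card (stabilizer G e)) :=
      Nat.mul_le_mul hgt (Nat.mul_le_mul_left _ ht)
    omega
  have h720 : (H.index).factorial ∣ 720 := by
    have := Nat.factorial_dvd_factorial hi6
    simpa [Nat.factorial] using this
  have := hd.trans h720
  omega

theorem card_dvd_of_trans {N : Type*} [Group N] [Finite N] [MulAction N α] [IsPretransitive N α]
    (a : α) : Fintype.card α ∣ Nat.card N := by
  classical
  have h1 := Subgroup.card_mul_index (stabilizer N a)
  have h5 : (stabilizer N a).index = Fintype.card α := by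
    rw [index_stabilizer, orbit_eq_univ, Set.ncard_univ, Nat.card_eq_fintype_card]
  rw [h5] at h1
  exact ⟨_, (by rw [← h1, mul_comm])⟩

/-- The case `(3,5)` on six points. -/
theorem six_case (G : Subgroup (Perm α)) (hG : IsPreprimitive G α) (hle : G ≤ alternatingGroup α)
    {y : Perm α} (hy : y ∈ G) (hc : y.IsCycle) (h5 : y.support.card = 5)
    (hn : Fintype.card α = 6) :
    G = alternatingGroup α ∨ Nonempty (G ≃* alternatingGroup (Fin 5)) := by
  classical
  have h2 : IsMultiplyPretransitive G α 2 := by
    have := multi_of_prime_cycle G hG hy hc (by rw [h5]; norm_num) (by omega)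
    rwa [hn, h5] at this
  have hne : Nonempty α := by
    rw [← Fintype.card_pos_iff]; omega
  obtain ⟨a⟩ := hne
  haveI : Nontrivial α := Fintype.one_lt_card_iff_nontrivial.1 (by omega)
  by_cases hs : ∀ e : Fin 2 ↪ α, stabilizer G e = ⊥
  · exfalso
    have hS : CfsgLib.H9.Sharp2.IsSharp2 G α := by
      refine ⟨?_, ?_⟩
      · intro a b c d hab hcd
        exact (is_two_pretransitive_iff.1 h2) hab hcd
      · intro g a b hab ha hb
        let e : Fin 2 ↪ α := ⟨![a, b], by
          intro i j hij
          fin_cases i <;> fin_cases j <;> first | rfl | (exfalso; simp_all)⟩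
        have hmem : g ∈ stabilizer G e := by
          rw [mem_stabilizer_iff]
          ext i
          fin_cases i
          · exact ha
          · exact hb
        rw [hs e] at hmem
        exact hmem
    obtain ⟨p, j, hp, hj, hpj, -⟩ := CfsgLib.H9.Sharp2.exists_card_eq_prime_pow hS
    have h6 : ¬ IsPrimePow 6 := by decide
    apply h6
    rw [Nat.card_eq_fintype_card, hn] at hpj
    rw [hpj]
    exact ⟨p, j, hp.prime, by omega, rfl⟩
  push Not at hs
  obtain ⟨e, he⟩ := hs
  have hcardG := card_of_multi G h2 e
  rw [hn] at hcardG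
  have h30 : (6 : ℕ).descFactorial 2 = 30 := by decide
  rw [h30] at hcardG
  have ht : 2 ≤ Nat.card (stabilizer G e) := by
    have : Nontrivial (stabilizer G e) := (Subgroup.nontrivial_iff_ne_bot _).2 he
    exact Finite.one_lt_card
  let A := alternatingGroup α
  haveI : IsSimpleGroup A := alternatingGroup.isSimpleGroup (by rw [Nat.card_eq_fintype_card]; omega)
  let H : Subgroup A := G.subgroupOf A
  by_cases hH : H = ⊤
  · left
    exact le_antisymm hle (Subgroup.subgroupOf_eq_top.1 hH)
  right
  have hcardH : Nat.card H = Nat.card G := by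
    exact Nat.card_congr (Subgroup.subgroupOfEquivOfLe hle).toEquiv
  have hcardA : Nat.card A = 360 := by
    have h1 := two_mul_card_alternatingGroup (α := α)
    rw [Fintype.card_perm, hn] at h1
    have h2 : Nat.factorial 6 = 720 := by decide
    rw [Nat.card_eq_fintype_card]
    show Fintype.card (alternatingGroup α) = 360
    omega
  have hi := H.index_mul_card
  have hd := card_dvd_factorial_index H hH
  rw [hcardA] at hd hi
  rw [hcardH, hcardG] at hi
  have hi6 : H.index ≤ 6 := by
    by_contra hgt
    push Not at hgt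
    have : 7 * (30 * 2) ≤ H.index * (30 * Nat.card (stabilizer G e)) :=
      Nat.mul_le_mul hgt (Nat.mul_le_mul_left _ ht)
    omega
  have hi6' : H.index = 6 := by
    by_contra hne
    have hi5 : H.index ≤ 5 := by omega
    have h120 : (H.index).factorial ∣ 120 := by
      have := Nat.factorial_dvd_factorial hi5
      simpa [Nat.factorial] using this
    have := hd.trans h120
    omega
  rw [hi6'] at hi
  have hG60 : Nat.card G = 60 := by
    rw [hcardG]
    omega
  haveI : IsSimpleGroup G := by
    apply simple_of_60 hG60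
    intro Q hQ hQc
    haveI := hQ
    have hQb : Q ≠ ⊥ := by
      intro h
      rw [h] at hQc
      simp at hQc
    haveI := trans_of_normal hG Q hQb
    have := card_dvd_of_trans (N := Q) a
    rw [hn, hQc] at this
    omega
  exact Cfsg.Agent.S0494.result hG60

/-- Sylow conjugacy for elements of order `p`, when `p ^ 2` does not divide the group order. -/
theorem sylow_conj_zpow {K : Type*} [Group K] [Finite K] {p : ℕ} [Fact p.Prime] {u u' : K}
    (hu : orderOf u = p) (hu' : orderOf u' = p) (h2 : ¬ p ^ 2 ∣ Nat.card K) :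
    ∃ h : K, ∃ j : ℤ, h * u' * h⁻¹ = u ^ j := by
  have hp : p.Prime := Fact.out
  have hKp : p ∣ Nat.card K := hu ▸ orderOf_dvd_natCard u
  have hfac : (Nat.card K).factorization p = 1 := by
    have hne : Nat.card K ≠ 0 := Nat.card_pos.ne'
    have h1 : 1 ≤ (Nat.card K).factorization p :=
      (hp.pow_dvd_iff_le_factorization hne (k := 1)).1 (by simpa using hKp)
    have h3 : ¬ 2 ≤ (Nat.card K).factorization p := fun h =>
      h2 ((hp.pow_dvd_iff_le_factorization hne).2 h)
    omega
  have hcard1 : Nat.card (Subgroup.zpowers u) = p ^ (Nat.card K).factorization p := by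
    rw [hfac, pow_one, Nat.card_zpowers, hu]
  have hcard2 : Nat.card (Subgroup.zpowers u') = p ^ (Nat.card K).factorization p := by
    rw [hfac, pow_one, Nat.card_zpowers, hu']
  let S1 : Sylow p K := Sylow.ofCard (Subgroup.zpowers u) hcard1
  let S2 : Sylow p K := Sylow.ofCard (Subgroup.zpowers u') hcard2
  obtain ⟨h, hh⟩ := MulAction.exists_smul_eq K S2 S1
  have hmem : h * u' * h⁻¹ ∈ Subgroup.zpowers u := by
    have h1 : u' ∈ (S2 : Subgroup K) := Subgroup.mem_zpowers u'
    have h2 : MulAut.conj h • u' ∈ MulAut.conj h • (S2 : Subgroup K) :=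
      Subgroup.smul_mem_pointwise_smul _ _ _ h1
    rw [← Sylow.pointwise_smul_def, ← Sylow.smul_def, hh] at h2
    have h3 : h * u' * h⁻¹ ∈ (S1 : Subgroup K) := by simpa [MulAut.smul_def] using h2
    exact h3
  obtain ⟨j, hj⟩ := hmem
  exact ⟨h, j, hj.symm⟩

/-- Conjugation by `n` sends `z` to `z ^ j`: powers. -/
theorem pow_conj_zpow {K : Type*} [Group K] {n z : K} {j : ℤ} (h : n * z * n⁻¹ = z ^ j) (i : ℕ) :
    n ^ i * z * (n ^ i)⁻¹ = z ^ (j ^ i) := by
  induction i with
  | zero => simp
  | succ i ih =>
    have h1 : n ^ (i + 1) * z * (n ^ (i + 1))⁻¹ = n * (n ^ i * z * (n ^ i)⁻¹) * n⁻¹ := by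
      rw [pow_succ']
      group
    rw [h1, ih, ← conj_zpow, h, ← zpow_mul, pow_succ, mul_comm]

theorem int_four (j : ℤ) (h : ¬ (5 : ℤ) ∣ j) : (5 : ℤ) ∣ j ^ 4 - 1 := by
  have h0 : ((j : ZMod 5)) ≠ 0 := by
    intro h1
    exact h ((ZMod.intCast_zmod_eq_zero_iff_dvd j 5).1 h1)
  have h1 : ∀ a : ZMod 5, a ≠ 0 → a ^ 4 = 1 := by decide
  have h2 := h1 _ h0
  apply (ZMod.intCast_zmod_eq_zero_iff_dvd _ 5).1
  push_cast
  rw [h2]
  ring

/-- The subgroup of `G` fixing three points. -/
def triFix (G : Subgroup (Perm α)) (a b c : α) : Subgroup (Perm α) where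
  carrier := {σ | σ ∈ G ∧ σ a = a ∧ σ b = b ∧ σ c = c}
  mul_mem' := by
    rintro u v ⟨hu, ha, hb, hc⟩ ⟨hv, ha', hb', hc'⟩
    refine ⟨G.mul_mem hu hv, ?_, ?_, ?_⟩ <;> simp [*]
  one_mem' := ⟨G.one_mem, rfl, rfl, rfl⟩
  inv_mem' := by
    rintro u ⟨hu, ha, hb, hc⟩
    refine ⟨G.inv_mem hu, ?_, ?_, ?_⟩ <;> rw [Perm.inv_eq_iff_eq] <;> simp [*]

theorem alt_of_five_cycle (G : Subgroup (Perm α)) (hG : IsPreprimitive G α)
    (hn : Fintype.card α = 13) {s : Perm α} (hs : s ∈ G) (ho : orderOf s = 5)
    (h5 : s.support.card = 5) : alternatingGroup α ≤ G := by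
  have hpr : (orderOf s).Prime := by rw [ho]; norm_num
  have hcy : s.IsCycle := isCycle_of_prime_order hpr (by rw [ho, h5]; norm_num)
  exact alt_le_of_prime_cycle G hG hs hcy (by rw [h5]; norm_num) (by rw [h5, hn]; norm_num)

/-- **Witt-type argument**: an element of order `5` fixing three points in a triply transitive group
of degree `13` forces the alternating group. -/
theorem witt5 (G : Subgroup (Perm α)) (hG : IsPreprimitive G α)
    (h3 : IsMultiplyPretransitive G α 3) (hn : Fintype.card α = 13) {a b c : α} (hab : a ≠ b)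
    (hac : a ≠ c) (hbc : b ≠ c) {z : Perm α} (hz : z ∈ G) (ho : orderOf z = 5)
    (hza : z a = a) (hzb : z b = b) (hzc : z c = c) : alternatingGroup α ≤ G := by
  classical
  haveI : Fact (Nat.Prime 5) := ⟨by norm_num⟩
  let T : Finset α := {a, b, c}
  have hT : T.card = 3 := by
    rw [Finset.card_eq_three]
    exact ⟨a, b, c, hab, hac, hbc, rfl⟩
  let D : Finset α := Finset.univ \ T
  have hD : D.card = 10 := by
    rw [Finset.card_sdiff_of_subset (Finset.subset_univ _), Finset.card_univ, hn, hT]
  have hmemD : ∀ v, v ∈ D ↔ v ≠ a ∧ v ≠ b ∧ v ≠ c := by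
    intro v
    simp [D, T]
  -- support bound
  have hsupp : ∀ s : Perm α, s a = a → s b = b → s c = c → s.support ⊆ D := by
    intro s h1 h2 h3 v hv
    rw [hmemD]
    rw [Perm.mem_support] at hv
    refine ⟨?_, ?_, ?_⟩ <;> rintro rfl <;> exact hv ‹_›
  obtain ⟨n₀, hn₀, hct⟩ := supp_of_order_prime (by norm_num : Nat.Prime 5) ho
  have hzsupp : z.support.card ≤ 10 := hD ▸ Finset.card_le_card (hsupp z hza hzb hzc)
  by_cases hn0 : n₀ = 0
  · subst hn0
    exact alt_of_five_cycle G hG hn hz ho (by simpa using hn₀)
  have hn1 : n₀ = 1 := by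
    have : 5 * (n₀ + 1) ≤ 10 := hn₀ ▸ hzsupp
    omega
  subst hn1
  have hzD : z.support = D := Finset.eq_of_subset_of_card_le (hsupp z hza hzb hzc) (by
    rw [hD, hn₀])
  let K := triFix G a b c
  have hzK : z ∈ K := ⟨hz, hza, hzb, hzc⟩
  by_cases h25 : 5 ^ 2 ∣ Nat.card K
  · -- an element with a further fixed point is a `5`-cycle
    obtain ⟨P, hP⟩ := Sylow.exists_subgroup_card_pow_prime 5 h25
    have hDne : D.Nonempty := by
      rw [← Finset.card_pos, hD]; norm_num
    obtain ⟨v, hv⟩ := hDne
    have hv' := (hmemD v).1 hv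
    have h1 := Subgroup.card_mul_index (stabilizer P v)
    rw [index_stabilizer, hP] at h1
    have hO : (orbit P v).ncard ≤ 10 := by
      have hsub : orbit P v ⊆ (D : Set α) := by
        rintro w ⟨p, rfl⟩
        have hpK := (p : K).2
        obtain ⟨-, h1, h2, h3⟩ := hpK
        have hw : ∀ u, ((p : K) : Perm α) u = u → v ≠ u → ((p : K) : Perm α) v ≠ u :=
          fun u hu hne h => hne (((p : K) : Perm α).injective (h.trans hu.symm))
        rw [Finset.mem_coe, hmemD]
        show ((p : K) : Perm α) v ≠ a ∧ ((p : K) : Perm α) v ≠ b ∧ ((p : K) : Perm α) v ≠ c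
        exact ⟨hw a h1 hv'.1, hw b h2 hv'.2.1, hw c h3 hv'.2.2⟩
      calc (orbit P v).ncard ≤ (D : Set α).ncard := Set.ncard_le_ncard hsub (Set.toFinite _)
        _ = 10 := by rw [Set.ncard_coe_finset, hD]
    have hdv : (orbit P v).ncard ∣ 5 ^ 2 := ⟨_, (by rw [← h1, mul_comm])⟩
    obtain ⟨k, hk, hk2⟩ := (Nat.dvd_prime_pow (by norm_num)).1 hdv
    have hstab5 : 5 ∣ Nat.card (stabilizer P v) := by
      have hk3 : k ≤ 1 := by
        by_contra hgt
        have : k = 2 := by omega
        subst this
        rw [hk2] at hO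
        norm_num at hO
      interval_cases k
      · rw [hk2] at h1
        exact ⟨5, by omega⟩
      · rw [hk2] at h1
        exact ⟨1, by omega⟩
    obtain ⟨s, hs⟩ := exists_prime_orderOf_dvd_card' 5 hstab5
    let s₀ : Perm α := (((s : P) : K) : Perm α)
    have hs₀ : orderOf s₀ = 5 := by
      rw [← hs]
      show orderOf (((s : P) : K) : Perm α) = _
      rw [Subgroup.orderOf_coe, Subgroup.orderOf_coe, Subgroup.orderOf_coe]
    have hs₀K := ((s : P) : K).2
    obtain ⟨hs₀G, hsa, hsb, hsc⟩ := hs₀K
    have hsv : s₀ v = v := (mem_stabilizer_iff.1 s.2)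
    obtain ⟨m, hm, -⟩ := supp_of_order_prime (by norm_num : Nat.Prime 5) hs₀
    have hle9 : s₀.support.card ≤ 9 := by
      have hsub : s₀.support ⊆ D.erase v := by
        intro w hw
        rw [Finset.mem_erase]
        refine ⟨?_, hsupp s₀ hsa hsb hsc hw⟩
        rintro rfl
        exact (Perm.mem_support.1 hw) hsv
      have := Finset.card_le_card hsub
      rw [Finset.card_erase_of_mem hv, hD] at this
      exact this
    have hm0 : m = 0 := by omega
    subst hm0
    exact alt_of_five_cycle G hG hn hs₀G hs₀ (by simpa using hm)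
  · -- Frattini
    obtain ⟨g, hg⟩ := h3.exists_smul_eq (CfsgLib.H9.Sharp3.emb3 hab hac hbc)
      (CfsgLib.H9.Sharp3.emb3 hbc hab.symm hac.symm)
    have hga : (g : Perm α) a = b := DFunLike.congr_fun hg 0
    have hgb : (g : Perm α) b = c := DFunLike.congr_fun hg 1
    have hgc : (g : Perm α) c = a := DFunLike.congr_fun hg 2
    have hgi : ∀ u v, (g : Perm α) u = v → (g : Perm α)⁻¹ v = u := by
      intro u v h
      rw [Perm.inv_eq_iff_eq, h]
    have hz'K : (g : Perm α) * z * (g : Perm α)⁻¹ ∈ K := by
      refine ⟨G.mul_mem (G.mul_mem g.2 hz) (G.inv_mem g.2), ?_, ?_, ?_⟩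
      · simp only [Perm.mul_apply]
        rw [hgi _ _ hgc, hzc, hgc]
      · simp only [Perm.mul_apply]
        rw [hgi _ _ hga, hza, hga]
      · simp only [Perm.mul_apply]
        rw [hgi _ _ hgb, hzb, hgb]
    have ho' : orderOf ((g : Perm α) * z * (g : Perm α)⁻¹) = 5 := by
      rw [← MulAut.conj_apply, MulEquiv.orderOf_eq, ho]
    obtain ⟨h, j, hj⟩ := sylow_conj_zpow (K := K) (p := 5) (u := ⟨z, hzK⟩)
      (u' := ⟨(g : Perm α) * z * (g : Perm α)⁻¹, hz'K⟩) (by rw [Subgroup.orderOf_mk, ho])
      (by rw [Subgroup.orderOf_mk, ho']) h25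
    let n : Perm α := (h : Perm α) * g
    have hnG : n ∈ G := G.mul_mem h.2.1 g.2
    have hnz : n * z * n⁻¹ = z ^ j := by
      have := congrArg Subtype.val hj
      simp only [Subgroup.coe_mul, Subgroup.coe_inv, Subgroup.coe_zpow] at this
      rw [← this]
      show (h : Perm α) * g * z * ((h : Perm α) * g)⁻¹ = _
      group
    obtain ⟨-, h_a, h_b, h_c⟩ := h.2
    have hna : n a = b := by
      show (h : Perm α) ((g : Perm α) a) = b
      rw [hga, h_b]
    have hnb : n b = c := by
      show (h : Perm α) ((g : Perm α) b) = c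
      rw [hgb, h_c]
    have hnc : n c = a := by
      show (h : Perm α) ((g : Perm α) c) = a
      rw [hgc, h_a]
    have hj5 : ¬ (5 : ℤ) ∣ j := by
      intro hd
      have h1 : z ^ j = 1 := by
        apply orderOf_dvd_iff_zpow_eq_one.1
        rw [ho]
        exact_mod_cast hd
      rw [h1] at hnz
      have h2 : z = 1 := by
        have : z = n⁻¹ * (n * z * n⁻¹) * n := by group
        rw [this, hnz]
        group
      rw [h2, orderOf_one] at ho
      omega
    have hcomm : Commute (n ^ 4) z := by
      have h1 := pow_conj_zpow hnz 4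
      have h2 : z ^ (j ^ 4) = z := by
        have h3 : z ^ (j ^ 4 - 1) = 1 := by
          apply orderOf_dvd_iff_zpow_eq_one.1
          rw [ho]
          exact_mod_cast int_four j hj5
        rw [zpow_sub, zpow_one] at h3
        exact (eq_of_mul_inv_eq_one h3)
      rw [h2] at h1
      show n ^ 4 * z = z * n ^ 4
      have : n ^ 4 * z = (n ^ 4 * z * (n ^ 4)⁻¹) * n ^ 4 := by group
      rw [this, h1]
    -- `n` preserves `D`
    have hnD : ∀ v, n v ∈ D ↔ v ∈ D := by
      intro v
      constructor
      · intro hv
        rw [hmemD] at hv ⊢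
        refine ⟨?_, ?_, ?_⟩ <;> rintro rfl
        · exact hv.2.1 hna
        · exact hv.2.2 hnb
        · exact hv.1 hnc
      · intro hv
        rw [hmemD] at hv ⊢
        refine ⟨?_, ?_, ?_⟩ <;> intro h0
        · exact hv.2.2 (n.injective (h0.trans hnc.symm))
        · exact hv.1 (n.injective (h0.trans hna.symm))
        · exact hv.2.1 (n.injective (h0.trans hnb.symm))
    have hn4D : ∀ v, (n ^ 4) v ∈ D ↔ v ∈ D := by
      intro v
      simp only [pow_succ, pow_zero, one_mul, Perm.mul_apply, hnD]
    have hzDD : ∀ v, z v ∈ D ↔ v ∈ D := by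
      intro v
      rw [← hzD, Perm.apply_mem_support]
    let P' : α → Prop := fun v => v ∈ D
    let z' : Perm (Subtype P') := z.subtypePerm hzDD
    let n' : Perm (Subtype P') := (n ^ 4).subtypePerm hn4D
    have hz'1 : Perm.ofSubtype z' = z := ofSubtype_subtypePerm _ (fun v hv => by
      show v ∈ D
      rw [← hzD]
      exact Perm.mem_support.2 hv)
    have hct' : z'.cycleType = Multiset.replicate 2 5 := by
      rw [← cycleType_ofSubtype, hz'1, hct]
    have hcardY : Fintype.card (Subtype P') = 10 := by
      rw [Fintype.card_subtype]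
      convert hD using 2
      ext v
      simp [P']
    have hcent : Nat.card (Subgroup.centralizer {z'}) = 50 := by
      rw [nat_card_centralizer, hct', hcardY]
      decide
    have hn'mem : n' ∈ Subgroup.centralizer {z'} := by
      rw [Subgroup.mem_centralizer_singleton_iff]
      ext v
      show (n ^ 4) (z v) = z ((n ^ 4) v)
      exact congrArg (fun f : Perm α => f (v : α)) hcomm.eq
    have hpow : n' ^ 50 = 1 := by
      have h1 := pow_card_eq_one' (x := (⟨n', hn'mem⟩ : Subgroup.centralizer {z'}))
      rw [hcent] at h1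
      have := congrArg Subtype.val h1
      simpa using this
    have hwD : ∀ v ∈ D, (n ^ 200) v = v := by
      intro v hv
      have h1 := congrArg (fun f : Perm (Subtype P') => ((f ⟨v, hv⟩ : Subtype P') : α)) hpow
      have h2 : ∀ (k : ℕ) (u : α) (hu : P' u), ((n' ^ k) ⟨u, hu⟩ : Subtype P').1 = ((n ^ 4) ^ k) u := by
        intro k
        induction k with
        | zero => intro u hu; rfl
        | succ k ih =>
          intro u hu
          rw [pow_succ, Perm.mul_apply, pow_succ, Perm.mul_apply]
          exact ih _ _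
      have h3 := h2 50 v hv
      have h1' : ((n' ^ 50) ⟨v, hv⟩ : Subtype P').1 = v := h1
      rw [h3, ← pow_mul] at h1'
      exact h1'
    have hn3a : (n ^ 3) a = a := by
      simp only [pow_succ, pow_zero, one_mul, Perm.mul_apply, hna, hnb, hnc]
    have hn3b : (n ^ 3) b = b := by
      simp only [pow_succ, pow_zero, one_mul, Perm.mul_apply, hna, hnb, hnc]
    have hn3c : (n ^ 3) c = c := by
      simp only [pow_succ, pow_zero, one_mul, Perm.mul_apply, hna, hnb, hnc]
    have hsplit : n ^ 200 = (n ^ 3) ^ 66 * n ^ 2 := by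
      rw [← pow_mul, ← pow_add]
    have hwa : (n ^ 200) a = c := by
      rw [hsplit, Perm.mul_apply, pow_two, Perm.mul_apply, hna, hnb]
      exact Perm.pow_apply_eq_self_of_apply_eq_self hn3c 66
    have hwb : (n ^ 200) b = a := by
      rw [hsplit, Perm.mul_apply, pow_two, Perm.mul_apply, hnb, hnc]
      exact Perm.pow_apply_eq_self_of_apply_eq_self hn3a 66
    have hwc : (n ^ 200) c = b := by
      rw [hsplit, Perm.mul_apply, pow_two, Perm.mul_apply, hnc, hna]
      exact Perm.pow_apply_eq_self_of_apply_eq_self hn3b 66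
    have hsuppw : (n ^ 200).support = T := by
      ext v
      rw [Perm.mem_support]
      constructor
      · intro hv
        by_contra hvT
        exact hv (hwD v (by simp [D, hvT]))
      · intro hv
        simp only [T, Finset.mem_insert, Finset.mem_singleton] at hv
        rcases hv with rfl | rfl | rfl
        · rw [hwa]; exact hac.symm
        · rw [hwb]; exact hab
        · rw [hwc]; exact hbc
    have h3c : (n ^ 200).IsThreeCycle := by
      rw [← card_support_eq_three_iff, hsuppw, hT]
    exact alternatingGroup_le_of_isPreprimitive_of_isThreeCycle_mem hG h3c (G.pow_mem hnG 200)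

/-- Burnside's dichotomy in a convenient form. -/
theorem burnside_dich {H Γ : Type*} [Group H] [Finite H] [Fintype Γ] [MulAction H Γ]
    [FaithfulSMul H Γ] [IsPretransitive H Γ] (p : ℕ) [Fact p.Prime] (hΓ : Fintype.card Γ = p) :
    (∃ c : Γ, (p - 1) ∣ Nat.card (stabilizer H c)) ∨
      ∃ e : ZMod p ≃ Γ, ∀ g : H, ∃ A B : ZMod p, ∀ j, g • e j = e (A * j + B) := by
  classical
  obtain ⟨e, u, hu⟩ := CfsgLib.H9.WPoly.exists_coord (G := H) (α := Γ) (p := p) hΓ
  letI act : MulAction H (ZMod p) := CfsgLib.H9.WPoly.coordAction H e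
  have hsm : ∀ (g : H) (j : ZMod p), e (g • j) = g • e j := fun g j => by
    show e (e.symm (g • e j)) = g • e j
    simp
  have hu' : ∀ j : ZMod p, u • j = j + 1 := by
    intro j
    apply e.injective
    rw [hsm, hu]
  by_cases hlink : ∃ d₀ d₁ : ZMod p, d₀ ≠ 0 ∧ d₁ ≠ 0 ∧ ¬ ∃ g : H, g • (0 : ZMod p) = 0 ∧ g • d₀ = d₁
  · right
    obtain ⟨d₀, d₁, h0, h1, hnot⟩ := hlink
    have haff := CfsgLib.H9.WPoly.affine_of_not_linked (ZMod p) hu' h0 h1 hnot
    refine ⟨e, fun g => ?_⟩
    obtain ⟨A, B, hAB⟩ := haff g
    exact ⟨A, B, fun j => by rw [← hsm, hAB]⟩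
  · left
    push Not at hlink
    refine ⟨e 0, ?_⟩
    let S := stabilizer H (e 0)
    have h1 := Subgroup.card_mul_index (stabilizer S (e 1))
    have h2 : (stabilizer S (e 1)).index = p - 1 := by
      rw [index_stabilizer]
      have h3 : orbit S (e 1) = (Finset.univ.erase (e 0) : Finset Γ) := by
        ext w
        simp only [Finset.coe_erase, Finset.coe_univ, Set.mem_diff, Set.mem_univ, Set.mem_singleton_iff,
          true_and]
        constructor
        · rintro ⟨g, rfl⟩
          intro h
          have hg : ((g : H)) • e 0 = e 0 := g.2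
          have h4 : (g : H) • e 1 = e 0 := h
          rw [← hg] at h4
          have h5 := MulAction.injective (g : H) h4
          have h6 := e.injective h5
          exact one_ne_zero h6
        · intro hw
          have hj : e.symm w ≠ 0 := by
            intro h
            apply hw
            rw [← h]
            simp
          obtain ⟨g, hg0, hg1⟩ := hlink 1 (e.symm w) one_ne_zero hj
          have hgS : g ∈ S := by
            show g • e 0 = e 0
            rw [← hsm, hg0]
          refine ⟨⟨g, hgS⟩, ?_⟩
          show g • e 1 = w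
          rw [← hsm, hg1]
          simp
      rw [h3, Set.ncard_coe_finset, Finset.card_erase_of_mem (Finset.mem_univ _), Finset.card_univ, hΓ]
    rw [h2] at h1
    exact ⟨_, (by rw [← h1, mul_comm])⟩

/-- The restriction to the support. -/
def suppHom (G : Subgroup (Perm α)) (x : Perm α)
    (key : ∀ σ : suppFix G x, ∀ v, (σ : Perm α) v ∈ x.support ↔ v ∈ x.support) :
    suppFix G x →* Perm x.support where
  toFun := fun σ => (σ : Perm α).subtypePerm (key σ)
  map_one' := by ext; simp
  map_mul' := by intro a b; ext v; rfl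

theorem suppFix_key (G : Subgroup (Perm α)) (x : Perm α) :
    ∀ σ : suppFix G x, ∀ v, (σ : Perm α) v ∈ x.support ↔ v ∈ x.support := by
  intro σ v
  have hσ := (mem_suppFix.1 σ.2).2
  simp only [Perm.mem_support]
  constructor
  · intro hv hv2
    rw [hσ v hv2] at hv
    exact hv hv2
  · intro hv hv2
    have := hσ _ hv2
    have h3 : (σ : Perm α) v = v := (σ : Perm α).injective this
    rw [h3] at hv2
    exact hv hv2

theorem two_ne_zero_z11 : (2 : ZMod 11) ≠ 0 := by decide

/-- The twin case `(11,13)`. -/
theorem twin11 (G : Subgroup (Perm α)) (hG : IsPreprimitive G α) (hle : G ≤ alternatingGroup α)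
    {x : Perm α} (hx : x ∈ G) (hc : x.IsCycle) (h11 : x.support.card = 11)
    (hn : Fintype.card α = 13) : alternatingGroup α ≤ G := by
  classical
  haveI : Fact (Nat.Prime 11) := ⟨by norm_num⟩
  have h3 : IsMultiplyPretransitive G α 3 := by
    have := multi_of_prime_cycle G hG hx hc (by rw [h11]; norm_num) (by omega)
    rwa [hn, h11] at this
  have hDcard : (Finset.univ \ x.support).card = 2 := by
    rw [Finset.card_sdiff_of_subset (Finset.subset_univ _), Finset.card_univ, hn, h11]
  obtain ⟨a, b, hab, hD⟩ := Finset.card_eq_two.1 hDcard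
  have hfix : ∀ v, x v = v ↔ v = a ∨ v = b := by
    intro v
    have : v ∈ Finset.univ \ x.support ↔ v = a ∨ v = b := by rw [hD]; simp
    rw [← this]
    simp [Perm.mem_support]
  have hxa : x a = a := (hfix a).2 (Or.inl rfl)
  have hxb : x b = b := (hfix b).2 (Or.inr rfl)
  let H := suppFix G x
  let φ : H →* Perm x.support := suppHom G x (suppFix_key G x)
  have hφ : Function.Injective φ := by
    intro u w huw
    apply Subtype.ext
    ext v
    by_cases hv : v ∈ x.support
    · exact congrArg (fun f : Perm x.support => ((f ⟨v, hv⟩ : x.support) : α)) huw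
    · have hv' : x v = v := by simpa [Perm.mem_support] using hv
      rw [(mem_suppFix.1 u.2).2 v hv', (mem_suppFix.1 w.2).2 v hv']
  letI act : MulAction H x.support := MulAction.compHom _ φ
  have hsmul : ∀ (g : H) (v : x.support), ((g • v : x.support) : α) = (g : Perm α) v := fun _ _ => rfl
  haveI : FaithfulSMul H x.support := ⟨fun {u w} h => by
    apply hφ
    ext v
    exact congrArg Subtype.val (h v)⟩
  let xH : H := ⟨x, hx, fun _ hv => hv⟩
  haveI : IsPretransitive H x.support := by
    constructor
    rintro ⟨v, hv⟩ ⟨w, hw⟩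
    have hv' : x v ≠ v := Perm.mem_support.1 hv
    have hw' : x w ≠ w := Perm.mem_support.1 hw
    obtain ⟨i, hi⟩ := hc.exists_pow_eq hv' hw'
    refine ⟨xH ^ i, Subtype.ext ?_⟩
    show (((xH ^ i : H)) : Perm α) v = w
    simpa [xH] using hi
  have hcard : Fintype.card x.support = 11 := by rw [Fintype.card_coe, h11]
  have hne : ∀ c : x.support, (a ≠ (c : α)) ∧ (b ≠ (c : α)) := by
    intro c
    have hc' : x (c : α) ≠ c := Perm.mem_support.1 c.2
    constructor
    · intro h; rw [← h] at hc'; exact hc' hxa
    · intro h; rw [← h] at hc'; exact hc' hxb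
  have hHab : ∀ g : H, (g : Perm α) a = a ∧ (g : Perm α) b = b := fun g =>
    ⟨(mem_suppFix.1 g.2).2 a hxa, (mem_suppFix.1 g.2).2 b hxb⟩
  rcases burnside_dich (H := H) (Γ := x.support) 11 hcard with ⟨c, hc10⟩ | ⟨e, he⟩
  · have h5 : 5 ∣ Nat.card (stabilizer H c) := (by norm_num : (5 : ℕ) ∣ 11 - 1).trans hc10
    haveI : Fact (Nat.Prime 5) := ⟨by norm_num⟩
    obtain ⟨s, hs⟩ := exists_prime_orderOf_dvd_card' 5 h5
    have hsG : ((s : H) : Perm α) ∈ G := (mem_suppFix.1 (s : H).2).1
    have hso : orderOf (((s : H)) : Perm α) = 5 := by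
      rw [← hs, Subgroup.orderOf_coe, Subgroup.orderOf_coe]
    have hsc : ((s : H) : Perm α) (c : α) = c := congrArg Subtype.val (mem_stabilizer_iff.1 s.2)
    exact witt5 G hG h3 hn hab (hne c).1 (hne c).2 hsG hso (hHab _).1 (hHab _).2 hsc
  · let c : x.support := e 0
    by_cases hz : ∃ z ∈ G, orderOf z = 5 ∧ z a = a ∧ z b = b ∧ z (c : α) = c
    · obtain ⟨z, hzG, hzo, hza, hzb, hzc⟩ := hz
      exact witt5 G hG h3 hn hab (hne c).1 (hne c).2 hzG hzo hza hzb hzc
    exfalso
    have htriv : ∀ t ∈ G, t a = a → t b = b → t (c : α) = c → t = 1 := by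
      intro t ht hta htb htc
      have htH : t ∈ H := ⟨ht, fun v hv => by
        rcases (hfix v).1 hv with rfl | rfl
        · exact hta
        · exact htb⟩
      let tH : H := ⟨t, htH⟩
      obtain ⟨A, B, hAB⟩ := he tH
      have hB : B = 0 := by
        have h1 := hAB 0
        have h2 : tH • e 0 = e 0 := Subtype.ext htc
        rw [h2] at h1
        have h3 := e.injective h1
        simpa using h3.symm
      subst hB
      have hA : ∀ j, tH • e j = e (A * j) := by
        intro j
        rw [hAB, add_zero]
      have hpow : ∀ (k : ℕ) (j : ZMod 11), (tH ^ k) • e j = e (A ^ k * j) := by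
        intro k
        induction k with
        | zero => intro j; simp
        | succ k ih =>
          intro j
          rw [pow_succ, mul_smul, hA, ih]
          congr 1
          ring
      -- an element of `H` acting trivially on the support is trivial
      have hone : ∀ g : H, (∀ j, g • e j = e j) → g = 1 := by
        intro g hg
        apply FaithfulSMul.eq_of_smul_eq_smul (α := x.support)
        intro v
        obtain ⟨j, rfl⟩ := e.surjective v
        rw [hg, one_smul]
      by_contra hne1
      have hA1 : A ≠ 1 := by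
        rintro rfl
        apply hne1
        have := hone tH (fun j => by rw [hA, one_mul])
        exact congrArg Subtype.val this
      have hA0 : A ≠ 0 := by
        rintro rfl
        have h1 := hA 1
        have h2 := hA 0
        rw [zero_mul] at h1 h2
        have h3 := MulAction.injective tH (h1.trans h2.symm)
        exact one_ne_zero (e.injective h3)
      have hA10 : A ^ 10 = 1 := ZMod.pow_card_sub_one_eq_one hA0
      by_cases hsq : A ^ 2 = 1
      · -- `A = -1`: an odd permutation
        have hAm : A = -1 := by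
          have h1 : (A - 1) * (A + 1) = 0 := by
            have : (A - 1) * (A + 1) = A ^ 2 - 1 := by ring
            rw [this, hsq, sub_self]
          rcases mul_eq_zero.1 h1 with h2 | h2
          · exact absurd (sub_eq_zero.1 h2) hA1
          · exact eq_neg_of_add_eq_zero_left h2
        have ht2 : t ^ 2 = 1 := by
          have := hone (tH ^ 2) (fun j => by rw [hpow, hsq, one_mul])
          have h2 := congrArg Subtype.val this
          simpa [tH] using h2
        have hord : orderOf t = 2 := orderOf_eq_prime ht2 hne1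
        have hsuppt : t.support = x.support.erase c := by
          ext v
          rw [Finset.mem_erase, Perm.mem_support]
          constructor
          · intro hv
            have hvx : v ∈ x.support := by
              rw [Perm.mem_support]
              intro hxv
              rcases (hfix v).1 hxv with rfl | rfl
              · exact hv hta
              · exact hv htb
            refine ⟨?_, hvx⟩
            rintro rfl
            exact hv htc
          · rintro ⟨hvc, hvx⟩ hv
            obtain ⟨j, hj⟩ := e.surjective ⟨v, hvx⟩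
            have h1 := hA j
            rw [hAm, neg_one_mul] at h1
            have h2 : tH • e j = e j := by
              apply Subtype.ext
              rw [hj]
              exact hv
            rw [h2] at h1
            have h3 := e.injective h1
            have h4 : j = 0 := by
              have h5 : (2 : ZMod 11) * j = 0 := by
                have : (2 : ZMod 11) * j = j + j := by ring
                rw [this]
                nth_rewrite 1 [h3]
                ring
              rcases mul_eq_zero.1 h5 with h6 | h6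
              · exact absurd h6 two_ne_zero_z11
              · exact h6
            apply hvc
            have : (⟨v, hvx⟩ : x.support) = c := by rw [← hj, h4]
            exact congrArg Subtype.val this
        have hcs : t.support.card = 10 := by
          rw [hsuppt, Finset.card_erase_of_mem c.2, h11]
        obtain ⟨n, hn1, hn2⟩ := supp_of_order_prime (by norm_num : Nat.Prime 2) hord
        have hn4 : n = 4 := by omega
        subst hn4
        have hsign := sign_of_cycleType t
        rw [hn2] at hsign
        have hs1 : sign t = 1 := Equiv.Perm.mem_alternatingGroup.1 (hle ht)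
        rw [hs1] at hsign
        simp at hsign
        revert hsign
        decide
      · -- `t ^ 2` has order five
        apply hz
        haveI : Fact (Nat.Prime 5) := ⟨by norm_num⟩
        have hs5 : (t ^ 2) ^ 5 = 1 := by
          have := hone (tH ^ 10) (fun j => by rw [hpow, hA10, one_mul])
          have h2 := congrArg Subtype.val this
          rw [← pow_mul]
          simpa [tH] using h2
        have hs1 : t ^ 2 ≠ 1 := by
          intro h
          apply hsq
          have h1 := hpow 2 1
          have h2 : tH ^ 2 = 1 := Subtype.ext (by simpa [tH] using h)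
          rw [h2, one_smul, mul_one] at h1
          exact (e.injective h1).symm
        refine ⟨t ^ 2, G.pow_mem ht 2, orderOf_eq_prime hs5 hs1, ?_, ?_, ?_⟩
        · exact Perm.pow_apply_eq_self_of_apply_eq_self hta 2
        · exact Perm.pow_apply_eq_self_of_apply_eq_self htb 2
        · exact Perm.pow_apply_eq_self_of_apply_eq_self htc 2
    have hs : ∀ e₃ : Fin 3 ↪ α, stabilizer G e₃ = ⊥ := by
      intro e₃
      by_contra hne3
      apply stab_ne_bot G h3 hne3 (CfsgLib.H9.Sharp3.emb3 hab (hne c).1 (hne c).2)
      rw [eq_bot_iff]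
      intro t ht
      have hk : ∀ i, t • (CfsgLib.H9.Sharp3.emb3 hab (hne c).1 (hne c).2) i =
          (CfsgLib.H9.Sharp3.emb3 hab (hne c).1 (hne c).2) i :=
        fun i => DFunLike.congr_fun (mem_stabilizer_iff.1 ht) i
      have h1 := htriv t t.2 (hk 0) (hk 1) (hk 2)
      rw [Subgroup.mem_bot]
      exact Subtype.ext h1
    refine sharp_false G h3 hs ?_ a (by omega)
    rw [hn]
    decide

end CfsgLib.Rec
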