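import Mathlib

set_option autoImplicit false

namespace CfsgLib.Rec

open Nat

/-- Erdős' bound for the central binomial coefficient when `(n, 2n]` has few primes. -/
theorem centralBinom_le_few (n : ℕ) (n_large : 2 < n) (S : Finset ℕ)
    (hS : ∀ p : ℕ, p.Prime → n < p → p ≤ 2 * n → p ∈ S) (hS2 : S.card ≤ 2) :
    centralBinom n ≤ (2 * n) ^ 2 * ((2 * n) ^ sqrt (2 * n) * 4 ^ (2 * n / 3)) := by
  have n_pos : 0 < n := (Nat.zero_le _).trans_lt n_large
  have n2_pos : 1 ≤ 2 * n := mul_pos (zero_lt_two' ℕ) n_pos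
  let f : ℕ → ℕ := fun x => x ^ n.centralBinom.factorization x
  let R := Finset.range (2 * n / 3 + 1)
  let C := Finset.range (2 * n + 1) \ R
  have hRsub : R ⊆ Finset.range (2 * n + 1) := by
    intro x hx
    simp only [R, Finset.mem_range] at hx ⊢
    have : 2 * n / 3 ≤ 2 * n := Nat.div_le_self _ _
    omega
  have hsplit : centralBinom n = (∏ x ∈ R, f x) * ∏ x ∈ C, f x := by
    rw [mul_comm, Finset.prod_sdiff hRsub]
    exact n.prod_pow_factorization_centralBinom.symm
  have hC : ∏ x ∈ C, f x ≤ (2 * n) ^ 2 := by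
    have h1 : ∏ x ∈ C, f x = ∏ x ∈ C ∩ S, f x := by
      symm
      apply Finset.prod_subset Finset.inter_subset_left
      intro x hx hxS
      have hxS' : x ∉ S := fun h => hxS (Finset.mem_inter.2 ⟨hx, h⟩)
      simp only [C, R, Finset.mem_sdiff, Finset.mem_range, not_lt] at hx
      obtain ⟨hx1, hx2⟩ := hx
      by_cases hp : x.Prime
      · by_cases hxn : n < x
        · exact absurd (hS x hp hxn (by omega)) hxS'
        · have h3 : 2 * n < 3 * x := by
            have := Nat.lt_mul_of_div_lt (a := 2 * n) (c := 3) (b := x) (by omega) (by norm_num)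
            omega
          show x ^ _ = 1
          rw [factorization_centralBinom_of_two_mul_self_lt_three_mul n_large (by omega) h3, Nat.pow_zero]
      · show x ^ _ = 1
        rw [factorization_eq_zero_of_not_prime n.centralBinom hp, Nat.pow_zero]
    rw [h1]
    have h2 : ∀ x ∈ C ∩ S, f x ≤ 2 * n := fun x _ => pow_factorization_choose_le (mul_pos two_pos n_pos)
    calc ∏ x ∈ C ∩ S, f x ≤ (2 * n) ^ (C ∩ S).card := Finset.prod_le_pow_card _ _ _ h2
      _ ≤ (2 * n) ^ 2 := Nat.pow_le_pow_right n2_pos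
          ((Finset.card_le_card Finset.inter_subset_right).trans hS2)
  have hR : ∏ x ∈ R, f x ≤ (2 * n) ^ sqrt (2 * n) * 4 ^ (2 * n / 3) := by
    let T := {p ∈ R | Nat.Prime p}
    have : ∏ x ∈ T, f x = ∏ x ∈ R, f x := by
      refine Finset.prod_filter_of_ne fun p _ h => ?_
      contrapose h; dsimp only [f]
      rw [factorization_eq_zero_of_not_prime n.centralBinom h, _root_.pow_zero]
    rw [← this, ← Finset.prod_filter_mul_prod_filter_not T (· ≤ sqrt (2 * n))]
    apply mul_le_mul'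
    · refine (Finset.prod_le_prod' fun p _ => (?_ : f p ≤ 2 * n)).trans ?_
      · exact pow_factorization_choose_le (mul_pos two_pos n_pos)
      have : (Finset.Icc 1 (sqrt (2 * n))).card = sqrt (2 * n) := by rw [card_Icc, Nat.add_sub_cancel]
      rw [Finset.prod_const]
      refine pow_right_mono₀ n2_pos ((Finset.card_le_card fun x hx => ?_).trans this.le)
      obtain ⟨h1, h2⟩ := Finset.mem_filter.1 hx
      exact Finset.mem_Icc.mpr ⟨(Finset.mem_filter.1 h1).2.one_lt.le, h2⟩
    · refine le_trans ?_ (primorial_le_four_pow (2 * n / 3))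
      refine (Finset.prod_le_prod' fun p hp => (?_ : f p ≤ p)).trans ?_
      · obtain ⟨h1, h2⟩ := Finset.mem_filter.1 hp
        refine (pow_right_mono₀ (Finset.mem_filter.1 h1).2.one_lt.le ?_).trans (pow_one p).le
        exact Nat.factorization_choose_le_one (sqrt_lt'.mp <| not_le.1 h2)
      refine Finset.prod_le_prod_of_subset_of_one_le' (Finset.filter_subset _ _) ?_
      exact fun p hp _ => (Finset.mem_filter.1 hp).2.one_lt.le
  rw [hsplit, mul_comm]
  exact Nat.mul_le_mul hC hR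

theorem log_aux (s : ℕ) (hs : 6 ≤ s) : 7 * (s + 1) ≤ 2 ^ s := by
  induction s, hs using Nat.le_induction with
  | base => norm_num
  | succ s hs ih =>
    rw [pow_succ]
    omega

theorem pow_aux (t : ℕ) (ht : 64 ≤ t) : (t + 1) ^ (6 * (t + 3)) ≤ 2 ^ (t * t) := by
  set s := Nat.log 2 t with hs
  have h1 : 2 ^ s ≤ t := Nat.pow_log_le_self 2 (by omega)
  have h2 : t < 2 ^ (s + 1) := Nat.lt_pow_succ_log_self (by norm_num) t
  have hs6 : 6 ≤ s := by
    rw [hs]
    apply Nat.le_log_of_pow_le (by norm_num)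
    norm_num
    omega
  have h3 := log_aux s hs6
  have h4 : (s + 1) * (6 * (t + 3)) ≤ t * t := by
    have h5 : 6 * (t + 3) ≤ 7 * t := by omega
    calc (s + 1) * (6 * (t + 3)) ≤ (s + 1) * (7 * t) := Nat.mul_le_mul_left _ h5
      _ = (7 * (s + 1)) * t := by ring
      _ ≤ t * t := Nat.mul_le_mul_right _ (h3.trans h1)
  calc (t + 1) ^ (6 * (t + 3)) ≤ (2 ^ (s + 1)) ^ (6 * (t + 3)) := Nat.pow_le_pow_left h2 _
    _ = 2 ^ ((s + 1) * (6 * (t + 3))) := by rw [← pow_mul]
    _ ≤ 2 ^ (t * t) := Nat.pow_le_pow_right (by norm_num) h4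

theorem main_ineq (n : ℕ) (hn : 2048 ≤ n) :
    n * ((2 * n) ^ 2 * ((2 * n) ^ sqrt (2 * n) * 4 ^ (2 * n / 3))) ≤ 4 ^ n := by
  set N := 2 * n with hN
  set t := sqrt N with ht
  have ht64 : 64 ≤ t := by
    rw [ht, Nat.le_sqrt]
    omega
  have hNlt : N < (t + 1) * (t + 1) := Nat.lt_succ_sqrt N
  have htle : t * t ≤ N := Nat.sqrt_le N
  have hNdiv : N / 3 ≤ n := by omega
  set M := n - N / 3 with hM
  have hM3 : n ≤ 3 * M := by omega
  have h4n : 4 ^ n = 4 ^ M * 4 ^ (N / 3) := by
    rw [← pow_add]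
    congr 1
    omega
  have hcube : (N ^ (t + 3)) ^ 3 ≤ (4 ^ M) ^ 3 := by
    calc (N ^ (t + 3)) ^ 3 ≤ (((t + 1) * (t + 1)) ^ (t + 3)) ^ 3 :=
          Nat.pow_le_pow_left (Nat.pow_le_pow_left hNlt.le _) _
      _ = (t + 1) ^ (6 * (t + 3)) := by
          rw [← pow_two, ← pow_mul, ← pow_mul]
          congr 1
          ring
      _ ≤ 2 ^ (t * t) := pow_aux t ht64
      _ ≤ 2 ^ N := Nat.pow_le_pow_right (by norm_num) htle
      _ = 4 ^ n := by
          rw [hN, pow_mul]
          norm_num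
      _ ≤ 4 ^ (3 * M) := Nat.pow_le_pow_right (by norm_num) hM3
      _ = (4 ^ M) ^ 3 := by rw [mul_comm, pow_mul]
  have hle : N ^ (t + 3) ≤ 4 ^ M := (Nat.pow_le_pow_iff_left (by norm_num)).1 hcube
  rw [h4n]
  calc n * (N ^ 2 * (N ^ t * 4 ^ (N / 3))) = (n * (N ^ 2 * N ^ t)) * 4 ^ (N / 3) := by ring
    _ ≤ N ^ (t + 3) * 4 ^ (N / 3) := by
        apply Nat.mul_le_mul_right
        calc n * (N ^ 2 * N ^ t) ≤ N * (N ^ 2 * N ^ t) := Nat.mul_le_mul_right _ (by omega)
          _ = N ^ (t + 3) := by ring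
    _ ≤ 4 ^ M * 4 ^ (N / 3) := Nat.mul_le_mul_right _ hle

/-- Three primes in `(n, 2n]`. -/
theorem three_primes (n : ℕ) (hn : 2048 ≤ n) :
    ∃ p q r : ℕ, p.Prime ∧ q.Prime ∧ r.Prime ∧ n < p ∧ p < q ∧ q < r ∧ r ≤ 2 * n := by
  classical
  by_contra hcon
  push Not at hcon
  let S : Finset ℕ := (Finset.Ioc n (2 * n)).filter Nat.Prime
  have hS : ∀ p : ℕ, p.Prime → n < p → p ≤ 2 * n → p ∈ S := by
    intro p hp h1 h2
    simp [S, hp, h1, h2]
  have hS2 : S.card ≤ 2 := by
    by_contra h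
    push Not at h
    have h3 : 3 ≤ S.card := h
    obtain ⟨T, hT, hT3⟩ := Finset.exists_subset_card_eq h3
    obtain ⟨a, b, c, hab, hac, hbc, rfl⟩ := Finset.card_eq_three.1 hT3
    have ha : a ∈ S := hT (by simp)
    have hb : b ∈ S := hT (by simp)
    have hc : c ∈ S := hT (by simp)
    simp only [S, Finset.mem_filter, Finset.mem_Ioc] at ha hb hc
    -- sort
    have key : ∀ x y z : ℕ, x ∈ S → y ∈ S → z ∈ S → x < y → y < z → False := by
      intro x y z hx hy hz h1 h2
      simp only [S, Finset.mem_filter, Finset.mem_Ioc] at hx hy hz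
      have := hcon x y z hx.2 hy.2 hz.2 hx.1.1 h1 h2
      omega
    have ha' : a ∈ S := hT (by simp)
    have hb' : b ∈ S := hT (by simp)
    have hc' : c ∈ S := hT (by simp)
    rcases lt_or_gt_of_ne hab with h1 | h1 <;> rcases lt_or_gt_of_ne hac with h2 | h2 <;>
      rcases lt_or_gt_of_ne hbc with h3 | h3
    · exact key a b c ha' hb' hc' h1 h3
    · exact key a c b ha' hc' hb' h2 h3
    · omega
    · exact key c a b hc' ha' hb' h2 h1
    · exact key b a c hb' ha' hc' h1 h2
    · omega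
    · exact key b c a hb' hc' ha' h3 h2
    · exact key c b a hc' hb' ha' h3 h1
  have h1 := centralBinom_le_few n (by omega) S hS hS2
  have h2 := main_ineq n hn
  have h3 : 4 ^ n < n * centralBinom n := Nat.four_pow_lt_mul_centralBinom n (by omega)
  have h4 : n * centralBinom n ≤ 4 ^ n := (Nat.mul_le_mul_left n h1).trans h2
  omega

/-- The pair of primes used for the degrees at least `17`. -/
theorem exists_pair (m : ℕ) (hm : 17 ≤ m) :
    ∃ p q : ℕ, p.Prime ∧ q.Prime ∧ m < 2 * p ∧ p + 3 ≤ q ∧ q ≤ m := by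
  by_cases h1 : m ≤ 25
  · exact ⟨13, 17, by norm_num, by norm_num, by omega, by norm_num, by omega⟩
  by_cases h2 : m ≤ 37
  · exact ⟨19, 23, by norm_num, by norm_num, by omega, by norm_num, by omega⟩
  by_cases h3 : m ≤ 61
  · exact ⟨31, 37, by norm_num, by norm_num, by omega, by norm_num, by omega⟩
  by_cases h4 : m ≤ 105
  · exact ⟨53, 59, by norm_num, by norm_num, by omega, by norm_num, by omega⟩
  by_cases h5 : m ≤ 193
  · exact ⟨97, 101, by norm_num, by norm_num, by omega, by norm_num, by omega⟩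
  by_cases h6 : m ≤ 361
  · exact ⟨181, 191, by norm_num, by norm_num, by omega, by norm_num, by omega⟩
  by_cases h7 : m ≤ 705
  · exact ⟨353, 359, by norm_num, by norm_num, by omega, by norm_num, by omega⟩
  by_cases h8 : m ≤ 1381
  · exact ⟨691, 701, by norm_num, by norm_num, by omega, by norm_num, by omega⟩
  by_cases h9 : m ≤ 2745
  · exact ⟨1373, 1381, by norm_num, by norm_num, by omega, by norm_num, by omega⟩
  by_cases h10 : m ≤ 5461
  · exact ⟨2731, 2741, by norm_num, by norm_num, by omega, by norm_num, by omega⟩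
  obtain ⟨p, q, r, hp, hq, hr, h11, h12, h13, h14⟩ := three_primes (m / 2) (by omega)
  have hp2 : p % 2 = 1 := (hp.eq_two_or_odd).resolve_left (by omega)
  have hq2 : q % 2 = 1 := (hq.eq_two_or_odd).resolve_left (by omega)
  have hr2 : r % 2 = 1 := (hr.eq_two_or_odd).resolve_left (by omega)
  exact ⟨p, r, hp, hr, by omega, by omega, by omega⟩

end CfsgLib.Rec
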