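import Mathlib
import Cfsg.Agent.Lib.Rec.AltTwin
import Cfsg.Agent.Lib.Rec.ThreePrimes

set_option autoImplicit false

namespace CfsgLib.Rec

open MulAction Equiv Equiv.Perm

variable {α : Type*} [Fintype α] [DecidableEq α]

theorem iso_of_eq_alt' {G : Subgroup (Perm α)} (h : G = alternatingGroup α) (h5 : 5 ≤ Fintype.card α) :
    ∃ d : ℕ, 5 ≤ d ∧ Nonempty (G ≃* alternatingGroup (Fin d)) :=
  ⟨_, h5, iso_of_eq_alt h⟩

theorem core_3_5 {x y : Perm α} (h : Gens x y 3 5) :
    ∃ d : ℕ, 5 ≤ d ∧ Nonempty (Subgroup.closure ({x, y} : Set (Perm α)) ≃* alternatingGroup (Fin d)) := by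
  rcases h.x_cycle_or with hc | hc
  · apply iso_of_eq_alt' _ h.q_le
    apply le_antisymm h.le_alt
    have h3 : x.IsThreeCycle := by
      rw [← card_support_eq_three_iff, ← hc.orderOf, h.ox]
    exact alternatingGroup_le_of_isPreprimitive_of_isThreeCycle_mem h.prim h3 h.memx
  · rcases six_case _ h.prim h.le_alt h.memy h.y_cycle h.y_supp (by omega) with h1 | h1
    · exact iso_of_eq_alt' h1 h.q_le
    · exact ⟨5, le_refl _, h1⟩

theorem core_5_7 {x y : Perm α} (h : Gens x y 5 7) :
    ∃ d : ℕ, 5 ≤ d ∧ Nonempty (Subgroup.closure ({x, y} : Set (Perm α)) ≃* alternatingGroup (Fin d)) := by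
  have hq := h.q_le
  apply iso_of_eq_alt' _ (by omega)
  apply le_antisymm h.le_alt
  rcases h.x_cycle_or with hc | hc
  · have h5 : x.support.card = 5 := by rw [← hc.orderOf, h.ox]
    by_cases hn : Fintype.card α = 7
    · exact twin5 _ h.prim h.le_alt h.memx hc h5 hn
    · exact alt_le_of_prime_cycle _ h.prim h.memx hc (by rw [h5]; norm_num) (by omega)
  · exact alt_le_of_prime_cycle _ h.prim h.memy h.y_cycle (by rw [h.y_supp]; norm_num)
      (by rw [h.y_supp]; omega)

theorem core_11_13 {x y : Perm α} (h : Gens x y 11 13) :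
    ∃ d : ℕ, 5 ≤ d ∧ Nonempty (Subgroup.closure ({x, y} : Set (Perm α)) ≃* alternatingGroup (Fin d)) := by
  have hq := h.q_le
  apply iso_of_eq_alt' _ (by omega)
  apply le_antisymm h.le_alt
  rcases h.x_cycle_or with hc | hc
  · have h5 : x.support.card = 11 := by rw [← hc.orderOf, h.ox]
    by_cases hn : Fintype.card α = 13
    · exact twin11 _ h.prim h.le_alt h.memx hc h5 hn
    · exact alt_le_of_prime_cycle _ h.prim h.memx hc (by rw [h5]; norm_num) (by omega)
  · exact alt_le_of_prime_cycle _ h.prim h.memy h.y_cycle (by rw [h.y_supp]; norm_num)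
      (by rw [h.y_supp]; omega)

/-- The statement. -/
theorem alt_gen (m : ℕ) (hm : 5 ≤ m) :
    ∃ p q : ℕ, p.Prime ∧ q.Prime ∧ m ≤ 2 * p ∧ p < q ∧ q ≤ m ∧
      ∀ x y : alternatingGroup (Fin m), orderOf x = p → orderOf y = q →
        ∃ d : ℕ, 5 ≤ d ∧ Nonempty (Subgroup.closure ({x, y} : Set (alternatingGroup (Fin m))) ≃*
          alternatingGroup (Fin d)) := by
  by_cases h1 : m ≤ 6
  · refine ⟨3, 5, by norm_num, by norm_num, by omega, by norm_num, by omega, fun x y hx hy => ?_⟩
    exact transfer x y 3 5 (by norm_num) (by norm_num) (by norm_num) (by omega) hx hy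
      (fun Ω _ _ X Y _ h => core_3_5 h)
  by_cases h2 : m ≤ 10
  · refine ⟨5, 7, by norm_num, by norm_num, by omega, by norm_num, by omega, fun x y hx hy => ?_⟩
    exact transfer x y 5 7 (by norm_num) (by norm_num) (by norm_num) (by omega) hx hy
      (fun Ω _ _ X Y _ h => core_5_7 h)
  by_cases h3 : m ≤ 14
  · refine ⟨7, 11, by norm_num, by norm_num, by omega, by norm_num, by omega, fun x y hx hy => ?_⟩
    exact transfer x y 7 11 (by norm_num) (by norm_num) (by norm_num) (by omega) hx hy
      (fun Ω _ _ X Y _ h => iso_of_eq_alt' (h.eq_alt_of_gap (by norm_num) (Or.inr (by norm_num)))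
        (by have := h.q_le; omega))
  by_cases h4 : m ≤ 16
  · refine ⟨11, 13, by norm_num, by norm_num, by omega, by norm_num, by omega, fun x y hx hy => ?_⟩
    exact transfer x y 11 13 (by norm_num) (by norm_num) (by norm_num) (by omega) hx hy
      (fun Ω _ _ X Y _ h => core_11_13 h)
  obtain ⟨p, q, hp, hq, hm2, hgap, hqm⟩ := exists_pair m (by omega)
  have hq5 : 5 ≤ q := by
    have := hp.two_le
    omega
  refine ⟨p, q, hp, hq, by omega, by omega, hqm, fun x y hx hy => ?_⟩
  exact transfer x y p q hp hq (by omega) (by omega) hx hy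
    (fun Ω _ _ X Y hΩ h => iso_of_eq_alt' (h.eq_alt_of_gap hgap (Or.inl (by omega)))
      (by have := h.q_le; omega))

end CfsgLib.Rec
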