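import Mathlib

/-! Groups whose nonidentity elements have prime order and in which equal order implies
automorphism-conjugacy: centralizers are Sylow subgroups, element counts. -/

set_option autoImplicit false
set_option linter.unusedVariables false
set_option linter.style.haveILetI false

namespace CfsgLib.Rec.AutOrb

open Subgroup

variable {G : Type*} [Group G]

/-- All nonidentity elements have prime order, equal order means automorphism conjugate. -/
structure Hyp (G : Type*) [Group G] : Prop where
  prime : ∀ g : G, g ≠ 1 → (orderOf g).Prime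
  aut : ∀ x y : G, orderOf x = orderOf y → ∃ φ : MulAut G, φ x = y

theorem comm_order (H : Hyp G) {x y : G} (hx : x ≠ 1) (hy : y ≠ 1) (hc : Commute x y) :
    orderOf x = orderOf y := by
  by_contra hne
  have hpx := H.prime x hx
  have hpy := H.prime y hy
  have hcop : (orderOf x).Coprime (orderOf y) := (Nat.coprime_primes hpx hpy).2 hne
  have h1 := hc.orderOf_mul_eq_mul_orderOf_of_coprime hcop
  have hxy : x * y ≠ 1 := by
    intro h
    rw [h, orderOf_one] at h1
    have := hpx.one_lt
    have h2 := hpy.one_lt
    nlinarith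
  have := H.prime _ hxy
  rw [h1] at this
  exact Nat.not_prime_mul hpx.ne_one hpy.ne_one this

theorem cent_order (H : Hyp G) {x y : G} (hx : x ≠ 1) (hy : y ∈ centralizer ({x} : Set G)) (hy1 : y ≠ 1) :
    orderOf y = orderOf x := by
  have hc : Commute y x := by
    have := mem_centralizer_iff.1 hy x (Set.mem_singleton x)
    exact this.symm
  exact comm_order H hy1 hx hc

theorem cent_pgroup (H : Hyp G) {x : G} {p : ℕ} (hxp : orderOf x = p) (hx : x ≠ 1) :
    IsPGroup p (centralizer ({x} : Set G)) := by
  intro y
  by_cases hy : (y : G) = 1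
  · refine ⟨0, ?_⟩
    apply Subtype.ext
    simpa using hy
  · refine ⟨1, ?_⟩
    apply Subtype.ext
    have := cent_order H hx y.2 hy
    simp only [pow_one, coe_pow, coe_one]
    rw [← hxp, ← this]
    exact pow_orderOf_eq_one _

theorem eq_of_pgroup_mem [Finite G] (H : Hyp G) {p : ℕ} [Fact p.Prime] {K : Subgroup G} (hK : IsPGroup p K)
    {x : G} (hx : x ∈ K) (hx1 : x ≠ 1) : orderOf x = p := by
  obtain ⟨k, hk⟩ := hK ⟨x, hx⟩
  have h2 : x ^ p ^ k = 1 := by
    have := congrArg (Subtype.val) hk
    simpa using this
  have hd : orderOf x ∣ p ^ k := orderOf_dvd_of_pow_eq_one h2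
  obtain ⟨j, hj, hj2⟩ := (Nat.dvd_prime_pow (Fact.out : p.Prime)).1 hd
  have hpr := H.prime x hx1
  rw [hj2] at hpr
  have : j = 1 := by
    by_contra h
    rcases Nat.lt_or_ge j 2 with h3 | h3
    · interval_cases j
      · simp [Nat.not_prime_one] at hpr
      · exact h rfl
    · exact (Nat.Prime.not_prime_pow h3) hpr
  rw [hj2, this, pow_one]

/-- Existence of a central element in a Sylow subgroup. -/
theorem exists_center [Finite G] (H : Hyp G) {p : ℕ} [Fact p.Prime] (P : Sylow p G)
    (hp : p ∣ Nat.card G) : ∃ z : G, z ∈ (P : Subgroup G) ∧ z ≠ 1 ∧ orderOf z = p ∧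
      ∀ y ∈ (P : Subgroup G), z * y = y * z := by
  have hcard : p ∣ Nat.card P := Sylow.dvd_card_of_dvd_card P hp
  haveI : Nontrivial (P : Subgroup G) := by
    apply Finite.one_lt_card_iff_nontrivial.mp
    have h1 : 0 < Nat.card P := Nat.card_pos
    have := Nat.le_of_dvd h1 hcard
    have := (Fact.out : p.Prime).one_lt
    show 1 < Nat.card P
    omega
  have hZ : Nontrivial (center (P : Subgroup G)) := (P.isPGroup').center_nontrivial
  obtain ⟨⟨z, hz⟩, hz1⟩ := exists_ne (1 : center (P : Subgroup G))
  have hz2 : ((z : (P : Subgroup G)) : G) ≠ 1 := by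
    intro h
    apply hz1
    apply Subtype.ext
    apply Subtype.ext
    simpa using h
  refine ⟨z, z.2, hz2, eq_of_pgroup_mem H P.isPGroup' z.2 hz2, ?_⟩
  intro y hy
  have := mem_center_iff.1 hz ⟨y, hy⟩
  have h3 := congrArg Subtype.val this
  simpa using h3.symm

/-- The centralizer of an element of order `p` is a Sylow `p`-subgroup. -/
theorem cent_sylow [Finite G] (H : Hyp G) {p : ℕ} [Fact p.Prime] {x : G} (hxp : orderOf x = p) :
    ∃ Q : Sylow p G, (Q : Subgroup G) = centralizer ({x} : Set G) := by
  have hx : x ≠ 1 := by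
    intro h
    rw [h, orderOf_one] at hxp
    exact (Fact.out : p.Prime).one_lt.ne hxp
  have hpd : p ∣ Nat.card G := by
    rw [← hxp]
    exact orderOf_dvd_natCard x
  obtain ⟨P⟩ : Nonempty (Sylow p G) := inferInstance
  obtain ⟨z, hzP, hz1, hzp, hzc⟩ := exists_center H P hpd
  have hle : (P : Subgroup G) ≤ centralizer ({z} : Set G) := by
    intro y hy
    rw [mem_centralizer_iff]
    intro w hw
    rw [Set.mem_singleton_iff] at hw
    rw [hw]
    exact hzc y hy
  have hPC : centralizer ({z} : Set G) = P := P.is_maximal' (cent_pgroup H hzp hz1) hle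
  obtain ⟨φ, hφ⟩ := H.aut z x (by rw [hzp, hxp])
  refine ⟨φ • P, ?_⟩
  rw [Sylow.pointwise_smul_def, ← hPC]
  ext y
  rw [Subgroup.mem_pointwise_smul_iff_inv_smul_mem, mem_centralizer_iff, mem_centralizer_iff]
  simp only [Set.mem_singleton_iff, forall_eq]
  constructor
  · intro h
    rw [← hφ]
    have h2 : φ⁻¹ • y = φ.symm y := rfl
    rw [h2] at h
    have := congrArg φ h
    simpa using this
  · intro h
    have h2 : φ⁻¹ • y = φ.symm y := rfl
    rw [h2]
    apply φ.injective
    rw [← hφ] at h
    simpa using h

/-- Sylow subgroup attached to an element of order `p`. -/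
noncomputable def sy [Finite G] (H : Hyp G) (p : ℕ) [Fact p.Prime] (x : G) (hxp : orderOf x = p) : Sylow p G :=
  Classical.choose (cent_sylow H hxp)

theorem coe_sy [Finite G] (H : Hyp G) (p : ℕ) [Fact p.Prime] (x : G) (hxp : orderOf x = p) :
    ((sy H p x hxp : Sylow p G) : Subgroup G) = centralizer ({x} : Set G) :=
  Classical.choose_spec (cent_sylow H hxp)

theorem ne_one_of_order {x : G} {p : ℕ} (hp : p.Prime) (hxp : orderOf x = p) : x ≠ 1 := by
  intro h
  rw [h, orderOf_one] at hxp
  exact hp.one_lt.ne hxp

/-- Elements of order `p` are counted by centers of Sylow subgroups. -/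
theorem card_order [Fintype G] [DecidableEq G] (H : Hyp G) {p : ℕ} [Fact p.Prime] (hpd : p ∣ Nat.card G) (P : Sylow p G) :
    (Finset.univ.filter (fun x : G => orderOf x = p)).card =
      Nat.card (Sylow p G) * (Nat.card (center (P : Subgroup G)) - 1) := by
  classical
  haveI : Fintype (Sylow p G) := Fintype.ofFinite _
  let s := Finset.univ.filter (fun x : G => orderOf x = p)
  let f : G → Sylow p G := fun x => if h : orderOf x = p then sy H p x h else P
  have hf : ∀ x ∈ s, f x ∈ (Finset.univ : Finset (Sylow p G)) := fun _ _ => Finset.mem_univ _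
  have h1 := Finset.card_eq_sum_card_fiberwise hf
  have hfib : ∀ Q : Sylow p G, (s.filter (fun x => f x = Q)).card = Nat.card (center (P : Subgroup G)) - 1 := by
    intro Q
    -- Center of `Q` has the same size.
    have hcQ : Nat.card (center (Q : Subgroup G)) = Nat.card (center (P : Subgroup G)) := by
      have e : (Q : Subgroup G) ≃* (P : Subgroup G) := Sylow.equiv Q P
      exact Nat.card_congr (Subgroup.centerCongr e).toEquiv
    rw [← hcQ]
    have hone : (1 : center (Q : Subgroup G)) ∈ (Finset.univ : Finset (center (Q : Subgroup G))) := Finset.mem_univ _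
    haveI : Fintype (center (Q : Subgroup G)) := Fintype.ofFinite _
    rw [Nat.card_eq_fintype_card, ← Finset.card_univ, ← Finset.card_erase_of_mem (Finset.mem_univ (1 : center (Q : Subgroup G)))]
    symm
    apply Finset.card_bij (fun (z : center (Q : Subgroup G)) _ => ((z : (Q : Subgroup G)) : G))
    · intro z hz
      have hz1 : ((z : (Q : Subgroup G)) : G) ≠ 1 := by
        intro h
        apply (Finset.mem_erase.1 hz).1
        apply Subtype.ext
        apply Subtype.ext
        simpa using h
      have hop := eq_of_pgroup_mem H Q.isPGroup' (z : (Q : Subgroup G)).2 hz1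
      simp only [Finset.mem_filter, s, Finset.mem_univ, true_and]
      refine ⟨hop, ?_⟩
      simp only [f, dif_pos hop]
      -- centralizer contains `Q`, hence equals.
      have hle : (Q : Subgroup G) ≤ ((sy H p _ hop : Sylow p G) : Subgroup G) := by
        rw [coe_sy]
        intro y hy
        rw [mem_centralizer_iff]
        intro w hw
        rw [Set.mem_singleton_iff] at hw
        rw [hw]
        have := mem_center_iff.1 z.2 ⟨y, hy⟩
        have h3 := congrArg Subtype.val this
        simpa using h3.symm
      exact Sylow.ext (Q.is_maximal' (sy H p _ hop).isPGroup' hle)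
    · intro a _ b _ h
      apply Subtype.ext
      apply Subtype.ext
      exact h
    · intro x hx
      simp only [Finset.mem_filter, s, Finset.mem_univ, true_and] at hx
      obtain ⟨hop, hQ⟩ := hx
      simp only [f, dif_pos hop] at hQ
      have hc := coe_sy H p x hop
      rw [hQ] at hc
      have hxne : x ≠ 1 := ne_one_of_order Fact.out hop
      have hxQ : x ∈ (Q : Subgroup G) := by
        rw [hc]
        rw [mem_centralizer_iff]
        intro w hw
        rw [Set.mem_singleton_iff] at hw
        rw [hw]
      have hcen : (⟨x, hxQ⟩ : (Q : Subgroup G)) ∈ center (Q : Subgroup G) := by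
        rw [mem_center_iff]
        intro g
        apply Subtype.ext
        have : (g : G) ∈ centralizer ({x} : Set G) := by rw [← hc]; exact g.2
        have h4 := mem_centralizer_iff.1 this x (Set.mem_singleton x)
        simpa using h4.symm
      refine ⟨⟨⟨x, hxQ⟩, hcen⟩, ?_, rfl⟩
      rw [Finset.mem_erase]
      refine ⟨?_, Finset.mem_univ _⟩
      intro h
      apply hxne
      have := congrArg (fun w : center (Q : Subgroup G) => ((w : (Q : Subgroup G)) : G)) h
      simpa using this
  rw [h1]
  simp only [hfib, Finset.sum_const, Finset.card_univ, smul_eq_mul]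
  rw [Nat.card_eq_fintype_card (α := Sylow p G)]

end CfsgLib.Rec.AutOrb
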