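import Mathlib
import Cfsg.Agent.Lib.Rec.AutOrb1

/-! Sylow structure, abelian case, involutions inverting elements. -/

set_option autoImplicit false
set_option linter.unusedVariables false
set_option linter.style.haveILetI false

namespace CfsgLib.Rec.AutOrb

open Subgroup

variable {G : Type*} [Group G]

/-- Normalizer of a subgroup. -/
abbrev nm (K : Subgroup G) : Subgroup G := normalizer (K : Set G)

/-- Abelian subgroup, elementwise. -/
def Ab (K : Subgroup G) : Prop := ∀ x ∈ K, ∀ y ∈ K, x * y = y * x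

theorem syl_mul [Finite G] {p : ℕ} [Fact p.Prime] (P : Sylow p G) :
    Nat.card (Sylow p G) * Nat.card (nm (P : Subgroup G)) = Nat.card G := by
  rw [Sylow.card_eq_index_normalizer P]
  exact Subgroup.index_mul_card _

theorem exists_d [Finite G] {p : ℕ} [Fact p.Prime] (P : Sylow p G) :
    ∃ d, Nat.card (nm (P : Subgroup G)) = Nat.card (P : Subgroup G) * d :=
  card_dvd_of_le (Subgroup.le_normalizer)

theorem center_card_of_ab [Finite G] {K : Subgroup G} (h : Ab K) :
    Nat.card (center K) = Nat.card K := by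
  have : center K = ⊤ := by
    rw [eq_top_iff]
    intro x _
    rw [mem_center_iff]
    intro g
    apply Subtype.ext
    exact h _ g.2 _ x.2
  rw [this]
  exact Nat.card_congr (Subgroup.topEquiv).toEquiv

theorem center_bound [Finite G] {p : ℕ} [Fact p.Prime] (P : Sylow p G) (hna : ¬ Ab (P : Subgroup G)) :
    Nat.card (center (P : Subgroup G)) * p ^ 2 ≤ Nat.card (P : Subgroup G) := by
  have hPg : IsPGroup p (P : Subgroup G) := P.isPGroup'
  have hZ := Subgroup.card_mul_index (center (P : Subgroup G))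
  obtain ⟨k, hk⟩ := (IsPGroup.iff_card.1 hPg)
  have hdvd : (center (P : Subgroup G)).index ∣ p ^ k := by
    rw [← hk]
    exact Subgroup.index_dvd_card _
  obtain ⟨j, _, hj⟩ := (Nat.dvd_prime_pow (Fact.out : p.Prime)).1 hdvd
  rcases j with _ | _ | j
  · -- index one
    exfalso
    apply hna
    have h1 : center (P : Subgroup G) = ⊤ := by
      rw [← Subgroup.index_eq_one]
      simpa using hj
    intro x hx y hy
    have hm : (⟨x, hx⟩ : (P : Subgroup G)) ∈ center (P : Subgroup G) := by rw [h1]; trivial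
    have := mem_center_iff.1 hm ⟨y, hy⟩
    have h3 := congrArg Subtype.val this
    simpa using h3.symm
  · -- index p
    exfalso
    apply hna
    have hcard : Nat.card ((P : Subgroup G) ⧸ center (P : Subgroup G)) = p := by
      rw [← Subgroup.index_eq_card, hj, pow_one]
    haveI : IsCyclic ((P : Subgroup G) ⧸ center (P : Subgroup G)) := isCyclic_of_prime_card hcard
    have hc := MonoidHom.isMulCommutative_of_isCyclic_of_ker_le_center
      (QuotientGroup.mk' (center (P : Subgroup G))) (by simp)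
    intro x hx y hy
    have := hc.is_comm.comm ⟨x, hx⟩ ⟨y, hy⟩
    exact congrArg Subtype.val this
  · rw [← hZ, hj]
    have hpos : 0 < Nat.card (center (P : Subgroup G)) := Nat.card_pos
    have h1 : p ^ 2 ≤ p ^ (j + 1 + 1) := Nat.pow_le_pow_right (Fact.out : p.Prime).pos (by omega)
    exact Nat.mul_le_mul_left _ h1

theorem two_ab [Finite G] (H : Hyp G) [Fact (Nat.Prime 2)] (P : Sylow 2 G) : Ab (P : Subgroup G) := by
  have hsq : ∀ x ∈ (P : Subgroup G), x * x = 1 := by
    intro x hx
    by_cases hx1 : x = 1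
    · simp [hx1]
    · have h := eq_of_pgroup_mem H P.isPGroup' hx hx1
      have := pow_orderOf_eq_one x
      rw [h, pow_two] at this
      exact this
  intro x hx y hy
  have h1 := hsq _ (mul_mem hx hy)
  have h2 := hsq _ hx
  have h3 := hsq _ hy
  calc x * y = x * (x * y * (x * y)) * y := by rw [h1]; simp
    _ = (x * x) * y * x * (y * y) := by group
    _ = y * x := by rw [h2, h3]; simp

/-- In an abelian Sylow subgroup the centralizer of any nonidentity element is the subgroup. -/
theorem cent_eq [Finite G] (H : Hyp G) {p : ℕ} [Fact p.Prime] (P : Sylow p G) (hab : Ab (P : Subgroup G))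
    {g : G} (hg : g ∈ (P : Subgroup G)) (hg1 : g ≠ 1) : centralizer ({g} : Set G) = P := by
  have hop := eq_of_pgroup_mem H P.isPGroup' hg hg1
  have hle : (P : Subgroup G) ≤ centralizer ({g} : Set G) := by
    intro y hy
    rw [mem_centralizer_iff]
    intro w hw
    rw [Set.mem_singleton_iff] at hw
    rw [hw]
    exact hab _ hg _ hy
  exact P.is_maximal' (cent_pgroup H hop hg1) hle

/-- Sylow subgroups with a common nonidentity element coincide in the abelian case. -/
theorem ti [Finite G] (H : Hyp G) {p : ℕ} [Fact p.Prime] (P Q : Sylow p G) (hP : Ab (P : Subgroup G))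
    (hQ : Ab (Q : Subgroup G)) {g : G} (hg : g ∈ (P : Subgroup G)) (hg2 : g ∈ (Q : Subgroup G)) (hg1 : g ≠ 1) : P = Q :=
  Sylow.ext (by rw [← cent_eq H P hP hg hg1, cent_eq H Q hQ hg2 hg1])

/-- An involution normalizing an abelian Sylow subgroup of odd order inverts it. -/
theorem inverts [Finite G] (H : Hyp G) {p : ℕ} [Fact p.Prime] (hp2 : p ≠ 2) (P : Sylow p G) (hab : Ab (P : Subgroup G))
    {t : G} (ht : orderOf t = 2) (htN : t ∈ nm (P : Subgroup G)) {x : G} (hx : x ∈ (P : Subgroup G)) :
    t * x * t⁻¹ = x⁻¹ := by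
  have ht2 : t * t = 1 := by
    have := pow_orderOf_eq_one t
    rw [ht, pow_two] at this
    exact this
  have htinv : t⁻¹ = t := inv_eq_of_mul_eq_one_left ht2
  have hc : t * x * t⁻¹ ∈ (P : Subgroup G) := (mem_normalizer_iff.1 htN x).1 hx
  set y := x * (t * x * t⁻¹) with hy
  have hyP : y ∈ (P : Subgroup G) := mul_mem hx hc
  have hcomm : Commute y t := by
    show y * t = t * y
    have hy' : y = x * (t * x * t) := by rw [hy, htinv]
    have hc' : t * x * t ∈ (P : Subgroup G) := by rwa [htinv] at hc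
    rw [hy']
    calc x * (t * x * t) * t = (t * x * t) * x * t := by rw [hab _ hx _ hc']
      _ = t * (x * (t * x * t)) := by simp only [mul_assoc]
  by_cases hy1 : y = 1
  · rw [hy] at hy1
    exact (mul_eq_one_iff_inv_eq.1 hy1).symm ▸ (by
      have h3 : x⁻¹ = t * x * t⁻¹ := mul_eq_one_iff_inv_eq.1 hy1
      exact h3.symm ▸ rfl)
  · exfalso
    have ht1 : t ≠ 1 := ne_one_of_order Nat.prime_two ht
    have h1 := comm_order H hy1 ht1 hcomm
    have h2 := eq_of_pgroup_mem H P.isPGroup' hyP hy1
    rw [h2, ht] at h1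
    exact hp2 h1

/-- Involutions inverting `g`. -/
noncomputable def invS [Fintype G] (g : G) : Finset G := by
  classical
  exact Finset.univ.filter (fun t : G => orderOf t = 2 ∧ t * g * t⁻¹ = g⁻¹)

theorem mem_invS [Fintype G] {g t : G} : t ∈ invS g ↔ orderOf t = 2 ∧ t * g * t⁻¹ = g⁻¹ := by
  classical
  simp [invS]

theorem invS_normalizer [Fintype G] (H : Hyp G) {p : ℕ} [Fact p.Prime] (P : Sylow p G) (hab : Ab (P : Subgroup G))
    {g : G} (hg : g ∈ (P : Subgroup G)) (hg1 : g ≠ 1) {t : G} (ht : t ∈ invS g) : t ∈ nm (P : Subgroup G) := by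
  obtain ⟨ht2, htg⟩ := mem_invS.1 ht
  have hc := cent_eq H P hab hg hg1
  have ht3 : t * t = 1 := by
    have := pow_orderOf_eq_one t
    rw [ht2, pow_two] at this
    exact this
  have htinv : t⁻¹ = t := inv_eq_of_mul_eq_one_left ht3
  have key : ∀ y ∈ (P : Subgroup G), t * y * t⁻¹ ∈ (P : Subgroup G) := by
    intro y hy
    rw [← hc] at hy ⊢
    rw [mem_centralizer_iff] at hy ⊢
    intro w hw
    rw [Set.mem_singleton_iff] at hw
    rw [hw]
    have h1 := hy g (Set.mem_singleton g)
    have htg2 : t * g = g⁻¹ * t := by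
      calc t * g = t * g * t⁻¹ * t := by group
        _ = g⁻¹ * t := by rw [htg]
    have htg3 : g * t = t * g⁻¹ := by
      have : t * g⁻¹ * t⁻¹ = g := by
        have h5 : t * g⁻¹ * t⁻¹ = (t * g * t⁻¹)⁻¹ := by group
        rw [h5, htg, inv_inv]
      calc g * t = t * g⁻¹ * t⁻¹ * t := by rw [this]
        _ = t * g⁻¹ := by group
    have h6 : y * g⁻¹ = g⁻¹ * y := by
      have : g⁻¹ * (g * y) * g⁻¹ = g⁻¹ * (y * g) * g⁻¹ := by rw [h1]
      simpa [mul_assoc] using this
    rw [htinv]
    calc g * (t * y * t) = (g * t) * y * t := by group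
      _ = t * g⁻¹ * y * t := by rw [htg3]
      _ = t * (g⁻¹ * y) * t := by group
      _ = t * (y * g⁻¹) * t := by rw [h6]
      _ = t * y * (g⁻¹ * t) := by group
      _ = t * y * (t * g) := by rw [htg2]
      _ = t * y * t * g := by group
  rw [mem_normalizer_iff]
  intro y
  constructor
  · exact key y
  · intro h
    have := key _ h
    have h2 : t * (t * y * t⁻¹) * t⁻¹ = y := by
      rw [htinv]
      calc t * (t * y * t) * t = (t * t) * y * (t * t) := by group
        _ = y := by rw [ht3]; simp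
    rwa [h2] at this

/-- The number of involutions inverting a nonidentity element of an abelian Sylow subgroup: even normalizer. -/
theorem invS_card_even [Fintype G] (H : Hyp G) {p : ℕ} [Fact p.Prime] (hp2 : p ≠ 2) (P : Sylow p G)
    (hab : Ab (P : Subgroup G)) {g : G} (hg : g ∈ (P : Subgroup G)) (hg1 : g ≠ 1)
    (h2 : 2 ∣ Nat.card (nm (P : Subgroup G))) :
    (invS g).card = Nat.card (P : Subgroup G) := by
  classical
  haveI : Fact (Nat.Prime 2) := ⟨Nat.prime_two⟩
  obtain ⟨t₀', ht₀'⟩ := exists_prime_orderOf_dvd_card' 2 h2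
  let t₀ : G := t₀'
  have ht₀ : orderOf t₀ = 2 := by
    rw [← ht₀']
    exact Subgroup.orderOf_coe t₀'
  have ht₀N : t₀ ∈ nm (P : Subgroup G) := t₀'.2
  have ht3 : t₀ * t₀ = 1 := by
    have := pow_orderOf_eq_one t₀
    rw [ht₀, pow_two] at this
    exact this
  have htinv : t₀⁻¹ = t₀ := inv_eq_of_mul_eq_one_left ht3
  have hinv : ∀ x ∈ (P : Subgroup G), t₀ * x * t₀ = x⁻¹ := by
    intro x hx
    have := inverts H hp2 P hab ht₀ ht₀N hx
    rwa [htinv] at this
  have hne : t₀ ∉ (P : Subgroup G) := by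
    intro h
    have := eq_of_pgroup_mem H P.isPGroup' h (ne_one_of_order Nat.prime_two ht₀)
    rw [ht₀] at this
    exact hp2 this.symm
  haveI : Fintype (P : Subgroup G) := Fintype.ofFinite _
  rw [Nat.card_eq_fintype_card, ← Finset.card_univ]
  symm
  apply Finset.card_bij (fun (x : (P : Subgroup G)) _ => t₀ * x)
  · intro x _
    rw [mem_invS]
    have hx := x.2
    have hnot : t₀ * x ≠ 1 := by
      intro h
      apply hne
      have : t₀ = (x : G)⁻¹ := eq_inv_of_mul_eq_one_left h
      rw [this]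
      exact inv_mem hx
    have hsq : (t₀ * x) * (t₀ * x) = 1 := by
      calc (t₀ * x) * (t₀ * x) = (t₀ * x * t₀) * x := by group
        _ = 1 := by rw [hinv _ hx]; simp
    refine ⟨?_, ?_⟩
    · apply orderOf_eq_prime (by rw [pow_two]; exact hsq) hnot
    · have hcomm : (x : G) * g = g * x := hab _ hx _ hg
      have hinv2 : (t₀ * x)⁻¹ = (t₀ * x) := inv_eq_of_mul_eq_one_left hsq
      rw [mul_inv_rev, htinv]
      calc t₀ * x * g * ((x : G)⁻¹ * t₀) = t₀ * (x * g * (x : G)⁻¹) * t₀ := by group
        _ = t₀ * g * t₀ := by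
            rw [hcomm]
            group
        _ = g⁻¹ := hinv g hg
  · intro a _ b _ h
    exact Subtype.ext (mul_left_cancel h)
  · intro t ht
    obtain ⟨ht2, htg⟩ := mem_invS.1 ht
    have hcent : t₀ * t ∈ centralizer ({g} : Set G) := by
      rw [mem_centralizer_iff]
      intro w hw
      rw [Set.mem_singleton_iff] at hw
      rw [hw]
      have h1 : t * g = g⁻¹ * t := by
        calc t * g = t * g * t⁻¹ * t := by group
          _ = g⁻¹ * t := by rw [htg]
      have h3 : t₀ * g⁻¹ = g * t₀ := by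
        have := hinv g hg
        calc t₀ * g⁻¹ = t₀ * (t₀ * g * t₀) := by rw [this]
          _ = (t₀ * t₀) * g * t₀ := by group
          _ = g * t₀ := by rw [ht3]; simp
      calc g * (t₀ * t) = (g * t₀) * t := by group
        _ = t₀ * g⁻¹ * t := by rw [h3]
        _ = t₀ * (g⁻¹ * t) := by group
        _ = t₀ * (t * g) := by rw [h1]
        _ = t₀ * t * g := by group
    rw [cent_eq H P hab hg hg1] at hcent
    refine ⟨⟨t₀ * t, hcent⟩, Finset.mem_univ _, ?_⟩
    show t₀ * (t₀ * t) = t
    rw [← mul_assoc, ht3, one_mul]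

theorem invS_card_odd [Fintype G] (H : Hyp G) {p : ℕ} [Fact p.Prime] (P : Sylow p G)
    (hab : Ab (P : Subgroup G)) {g : G} (hg : g ∈ (P : Subgroup G)) (hg1 : g ≠ 1)
    (h2 : ¬ 2 ∣ Nat.card (nm (P : Subgroup G))) :
    (invS g).card = 0 := by
  rw [Finset.card_eq_zero, Finset.eq_empty_iff_forall_notMem]
  intro t ht
  apply h2
  have htN := invS_normalizer H P hab hg hg1 ht
  have hd : orderOf (⟨t, htN⟩ : nm (P : Subgroup G)) ∣ Nat.card (nm (P : Subgroup G)) :=
    orderOf_dvd_natCard _
  have h3 : orderOf (⟨t, htN⟩ : nm (P : Subgroup G)) = orderOf t := Subgroup.orderOf_mk t htN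
  rw [h3, (mem_invS.1 ht).1] at hd
  exact hd

/-- Even index in the normalizer is exactly `2`. -/
theorem index_two [Finite G] (H : Hyp G) {p : ℕ} [Fact p.Prime] (hp2 : p ≠ 2) (P : Sylow p G)
    (hab : Ab (P : Subgroup G)) (hP1 : ∃ g ∈ (P : Subgroup G), g ≠ 1) {d : ℕ}
    (hd : Nat.card (nm (P : Subgroup G)) = Nat.card (P : Subgroup G) * d) (h2 : 2 ∣ d) : d = 2 := by
  classical
  haveI : Fact (Nat.Prime 2) := ⟨Nat.prime_two⟩
  obtain ⟨g, hg, hg1⟩ := hP1
  let N := nm (P : Subgroup G)
  let S : Subgroup N := (P : Subgroup G).subgroupOf N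
  haveI : S.Normal := Subgroup.normal_subgroupOf_of_le_normalizer (le_refl _)
  have hcardS : Nat.card S = Nat.card (P : Subgroup G) :=
    Nat.card_congr (Subgroup.subgroupOfEquivOfLe (Subgroup.le_normalizer)).toEquiv
  have hidx : S.index = d := by
    have h1 := Subgroup.card_mul_index S
    rw [hcardS] at h1
    have h3 : Nat.card N = Nat.card (P : Subgroup G) * d := hd
    rw [h3] at h1
    exact Nat.eq_of_mul_eq_mul_left Nat.card_pos h1
  have h2N : 2 ∣ Nat.card N := by
    rw [show Nat.card N = Nat.card (P : Subgroup G) * d from hd]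
    exact Dvd.dvd.mul_left h2 _
  obtain ⟨t, ht⟩ := exists_prime_orderOf_dvd_card' 2 h2N
  have ht' : orderOf (t : G) = 2 := by rw [← ht]; exact Subgroup.orderOf_coe t
  have htnot : (t : G) ∉ (P : Subgroup G) := by
    intro h
    have := eq_of_pgroup_mem H P.isPGroup' h (ne_one_of_order Nat.prime_two ht')
    rw [ht'] at this
    exact hp2 this.symm
  let π := QuotientGroup.mk' S
  have hker : ∀ w : N, π w = 1 ↔ (w : G) ∈ (P : Subgroup G) := by
    intro w
    show (w : N⧸S) = 1 ↔ _
    rw [QuotientGroup.eq_one_iff]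
    exact Subgroup.mem_subgroupOf
  have hinv1 : ∀ s : N, orderOf (s : G) = 2 → ∀ x ∈ (P : Subgroup G), (s : G) * x * (s : G)⁻¹ = x⁻¹ :=
    fun s hs x hx => inverts H hp2 P hab hs s.2 hx
  have hcent : ∀ s₁ s₂ : N, orderOf (s₁ : G) = 2 → orderOf (s₂ : G) = 2 → π s₁ = π s₂ := by
    intro s₁ s₂ h₁ h₂
    have h3 : π (s₁⁻¹ * s₂) = 1 := by
      rw [(hker _)]
      have hm : ((s₁⁻¹ * s₂ : N) : G) ∈ centralizer ({g} : Set G) := by
        rw [mem_centralizer_iff]
        intro w hw
        rw [Set.mem_singleton_iff] at hw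
        rw [hw]
        have e₁ := hinv1 s₁ h₁ g hg
        have e₂ := hinv1 s₂ h₂ g hg
        have ss₁ : (s₁ : G) * s₁ = 1 := by
          have := pow_orderOf_eq_one (s₁ : G)
          rw [h₁, pow_two] at this
          exact this
        show g * ((s₁ : G)⁻¹ * s₂) = (s₁ : G)⁻¹ * s₂ * g
        have e₃ : (s₂ : G) * g = g⁻¹ * s₂ := by
          calc (s₂ : G) * g = (s₂ : G) * g * (s₂ : G)⁻¹ * s₂ := by group
            _ = g⁻¹ * s₂ := by rw [e₂]
        have e₄ : (s₁ : G)⁻¹ * g⁻¹ = g * (s₁ : G)⁻¹ := by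
          have h7 : (s₁ : G) * g * (s₁ : G)⁻¹ = g⁻¹ := e₁
          calc (s₁ : G)⁻¹ * g⁻¹ = (s₁ : G)⁻¹ * ((s₁ : G) * g * (s₁ : G)⁻¹) := by rw [h7]
            _ = g * (s₁ : G)⁻¹ := by group
        calc g * ((s₁ : G)⁻¹ * s₂) = (g * (s₁ : G)⁻¹) * s₂ := by group
          _ = (s₁ : G)⁻¹ * g⁻¹ * s₂ := by rw [e₄]
          _ = (s₁ : G)⁻¹ * (g⁻¹ * s₂) := by group
          _ = (s₁ : G)⁻¹ * ((s₂ : G) * g) := by rw [e₃]
          _ = (s₁ : G)⁻¹ * s₂ * g := by group
      rw [cent_eq H P hab hg hg1] at hm
      exact hm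
    rw [map_mul, map_inv] at h3
    exact (inv_mul_eq_one.1 h3)
  -- central image
  have hcentral : ∀ w : N, Commute (π w) (π t) := by
    intro w
    have hw : orderOf ((w * t * w⁻¹ : N) : G) = 2 := by
      have : ((w * t * w⁻¹ : N) : G) = (w : G) * t * (w : G)⁻¹ := rfl
      rw [this, ← ht']
      exact orderOf_injective (MulAut.conj (w : G)).toMonoidHom (MulAut.conj (w : G)).injective _
    have := hcent _ _ hw ht'
    show π w * π t = π t * π w
    have h4 : π (w * t * w⁻¹) = π w * π t * (π w)⁻¹ := by simp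
    rw [h4] at this
    calc π w * π t = π w * π t * (π w)⁻¹ * π w := by group
      _ = π t * π w := by rw [this]
  have hall : ∀ w : N, π w = 1 ∨ π w = π t := by
    intro w
    by_cases hw : (w : G) ∈ (P : Subgroup G)
    · exact Or.inl ((hker w).2 hw)
    right
    have hw1 : (w : G) ≠ 1 := by
      intro h
      apply hw
      rw [h]
      exact one_mem _
    have hpr := H.prime _ hw1
    set r := orderOf (w : G) with hr
    by_cases hr2 : r = 2
    · exact hcent w t (by rw [← hr]; exact hr2) ht'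
    exfalso
    -- order of images
    have h5 : (π w) ^ r = 1 := by
      rw [← map_pow]
      have : w ^ r = 1 := by
        apply Subtype.ext
        simp [hr, pow_orderOf_eq_one]
      rw [this, map_one]
    have hne : π w ≠ 1 := fun h => hw ((hker w).1 h)
    haveI : Fact r.Prime := ⟨hpr⟩
    have h6 : orderOf (π w) = r := orderOf_eq_prime h5 hne
    have h7 : (π t) ^ 2 = 1 := by
      rw [← map_pow]
      have : t ^ 2 = 1 := by
        rw [← ht]
        exact pow_orderOf_eq_one t
      rw [this, map_one]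
    have hne2 : π t ≠ 1 := fun h => htnot ((hker t).1 h)
    have h8 : orderOf (π t) = 2 := orderOf_eq_prime h7 hne2
    have hcop : (orderOf (π w)).Coprime (orderOf (π t)) := by
      rw [h6, h8]
      exact (Nat.coprime_primes hpr Nat.prime_two).2 hr2
    have h9 := (hcentral w).orderOf_mul_eq_mul_orderOf_of_coprime hcop
    rw [h6, h8, ← map_mul] at h9
    have h10 : orderOf (π (w * t)) ∣ orderOf (w * t) := orderOf_map_dvd _ _
    rw [h9] at h10
    have hwt : ((w * t : N) : G) ≠ 1 := by
      intro h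
      have : w * t = 1 := Subtype.ext h
      rw [this, orderOf_one] at h10
      have := Nat.le_of_dvd Nat.one_pos h10
      have := hpr.two_le
      omega
    have hpr2 := H.prime _ hwt
    have h11 : orderOf ((w * t : N) : G) = orderOf (w * t) := Subgroup.orderOf_coe _
    rw [h11] at hpr2
    have h12 := (Nat.dvd_prime hpr2).1 h10
    rcases h12 with h12 | h12
    · have := hpr.two_le
      nlinarith
    · rw [← h12] at hpr2
      exact Nat.not_prime_mul hpr.ne_one (by norm_num) hpr2
  -- so the quotient has at most two elements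
  have hle : S.index ≤ 2 := by
    haveI : Finite (N ⧸ S) := inferInstance
    have hsub : (Set.univ : Set (N ⧸ S)) ⊆ {1, π t} := by
      intro q _
      obtain ⟨w, rfl⟩ := QuotientGroup.mk_surjective q
      rcases hall w with h | h
      · left; exact h
      · right; exact h
    have hc := Nat.card_mono (Set.toFinite _) hsub
    rw [Subgroup.index]
    rw [Nat.card_coe_set_eq] at hc
    simp only [Set.ncard_univ] at hc
    have hne3 : π t ≠ 1 := fun h => htnot ((hker t).1 h)
    have h13 : ({1, π t} : Set (N ⧸ S)).ncard ≤ 2 := (Set.ncard_pair hne3.symm).le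
    rw [Nat.card_coe_set_eq] at hc
    omega
  rw [hidx] at hle
  have hdpos : 0 < d := by
    rcases Nat.eq_zero_or_pos d with h | h
    · rw [h, mul_zero] at hd
      have : 0 < Nat.card (nm (P : Subgroup G)) := Nat.card_pos
      omega
    · exact h
  have := Nat.le_of_dvd hdpos h2
  omega

end CfsgLib.Rec.AutOrb
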