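import Mathlib
import Cfsg.Agent.Lib.Rec.AutOrb2
import Cfsg.Agent.Lib.Rec.Fib

/-! Arithmetic, Frobenius groups do not act freely, exclusion of order 504. -/

set_option autoImplicit false
set_option linter.unusedVariables false
set_option linter.style.haveILetI false

namespace CfsgLib.Rec.AutOrb

open Subgroup

/-- final arithmetic step -/
theorem arith_final {h d u v : ℕ} (hh : 2 ≤ h) (hd : d + 1 = 2 * h) (hdu : d ∣ u) (hu : 3 ≤ u) (hv : 3 ≤ v)
    (heq : h * (u + v) = u * v + 1) : u = d ∧ v = d + 2 := by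
  obtain ⟨w, rfl⟩ := hdu
  have hdpos : 0 < d := by omega
  have hw : 1 ≤ w := by
    rcases Nat.eq_zero_or_pos w with h0 | h0
    · subst h0; simp at hu
    · exact h0
  -- `d ∣ v - 2`
  have h2 : (d : ℤ) ∣ (v : ℤ) - 2 := by
    refine ⟨2 * w * v - d * w - v - w, ?_⟩
    have e1 : ((d : ℤ) + 1) = 2 * h := by exact_mod_cast hd
    have e2 : (h : ℤ) * (d * w + v) = d * w * v + 1 := by exact_mod_cast heq
    have e3 : ((d : ℤ) + 1) * (d * w + v) = 2 * (d * w * v + 1) := by
      rw [e1, mul_assoc, e2]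
    linear_combination e3
  have h3 : d ∣ v - 2 := by
    have : ((v - 2 : ℕ) : ℤ) = (v : ℤ) - 2 := by omega
    rw [← this] at h2
    exact_mod_cast h2
  have h4 : d ≤ v - 2 := Nat.le_of_dvd (by omega) h3
  have hvd : 2 * h + 1 ≤ v := by omega
  -- `w = 1`
  have hw1 : w = 1 := by
    by_contra hne
    have hw2 : 2 ≤ w := by omega
    have h5 : 2 * d ≤ d * w := by nlinarith
    have h6 : 2 * h ≤ d * w := by omega
    -- `h (u + v) = u v + 1`, with `u ≥ 2h` and `v ≥ 2h+1`.
    have h7 : h * (d * w + v) < d * w * v + 1 := by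
      nlinarith
    omega
  subst hw1
  refine ⟨by simp, ?_⟩
  have h8 : h * (d * 1 + v) = d * 1 * v + 1 := heq
  simp only [mul_one] at h8
  have hh1 : (h : ℤ) - 1 ≠ 0 := by
    have : (2 : ℤ) ≤ h := by exact_mod_cast hh
    omega
  have h9 : ((h : ℤ) - 1) * ((v : ℤ) - (d + 2)) = 0 := by
    have e1 : ((d : ℤ) + 1) = 2 * h := by exact_mod_cast hd
    have e2 : (h : ℤ) * (d + v) = d * v + 1 := by exact_mod_cast h8
    have e3 : (d : ℤ) = 2 * h - 1 := by linarith
    rw [e3] at e2 ⊢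
    linear_combination -e2
  have h10 := (mul_eq_zero.1 h9).resolve_left hh1
  have : (v : ℤ) = d + 2 := by linarith
  exact_mod_cast this

/-- Powers of 3 next to powers of 2. -/
theorem three_two {i a : ℕ} (ha : 2 ≤ a) (h : 3 ^ i + 1 = 2 ^ a ∨ 3 ^ i = 2 ^ a + 1) : 2 ^ a = 4 ∨ 2 ^ a = 8 := by
  have hmod : ∀ k : ℕ, 3 ^ k % 8 = 1 ∨ 3 ^ k % 8 = 3 := by
    intro k
    induction k with
    | zero => simp
    | succ k ih =>
      rw [pow_succ]
      omega
  rcases h with h | h
  · left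
    by_contra hne
    have ha3 : 3 ≤ a := by
      by_contra h3
      have : a = 2 := by omega
      subst this
      exact hne (by norm_num)
    obtain ⟨b, rfl⟩ : ∃ b, a = 3 + b := ⟨a - 3, by omega⟩
    have h8 : 8 ∣ 2 ^ (3 + b) := ⟨2 ^ b, by rw [pow_add]; norm_num⟩
    rw [← h] at h8
    have := hmod i
    omega
  · -- `i` even
    have hev : ∀ k : ℕ, 3 ^ (2 * k + 1) % 4 = 3 := by
      intro k
      rw [pow_succ, pow_mul]
      have : (3 ^ 2) ^ k % 4 = 1 := by
        rw [Nat.pow_mod]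
        simp
      omega
    obtain ⟨b, rfl⟩ : ∃ b, a = 2 + b := ⟨a - 2, by omega⟩
    have h4 : 4 ∣ 2 ^ (2 + b) := ⟨2 ^ b, by rw [pow_add]; norm_num⟩
    rcases Nat.even_or_odd' i with ⟨m, rfl | rfl⟩
    · -- `3^(2m) - 1 = (3^m-1)(3^m+1)`
      obtain ⟨x, hx⟩ : ∃ x, x = 3 ^ m := ⟨_, rfl⟩
      have hx1 : 1 ≤ x := by rw [hx]; exact Nat.one_le_pow _ _ (by norm_num)
      have e : 3 ^ (2 * m) = x * x := by rw [hx, two_mul, pow_add]
      rw [e] at h
      have hfac : (x - 1) * (x + 1) = 2 ^ (2 + b) := by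
        obtain ⟨y, rfl⟩ : ∃ y, x = y + 1 := ⟨x - 1, by omega⟩
        simp only [Nat.add_sub_cancel]
        nlinarith
      have hd1 : x - 1 ∣ 2 ^ (2 + b) := ⟨_, hfac.symm⟩
      have hd2 : x + 1 ∣ 2 ^ (2 + b) := ⟨x - 1, by rw [← hfac]; ring⟩
      obtain ⟨k₁, _, hk₁⟩ := (Nat.dvd_prime_pow Nat.prime_two).1 hd1
      obtain ⟨k₂, _, hk₂⟩ := (Nat.dvd_prime_pow Nat.prime_two).1 hd2
      have hdiff : 2 ^ k₂ = 2 ^ k₁ + 2 := by omega
      have hk : k₁ ≤ 1 := by
        by_contra hc
        obtain ⟨c, rfl⟩ : ∃ c, k₁ = 2 + c := ⟨k₁ - 2, by omega⟩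
        have hk2 : 2 ≤ k₂ := by
          by_contra hc2
          have : k₂ ≤ 1 := by omega
          have h5 : 2 ^ k₂ ≤ 2 ^ 1 := Nat.pow_le_pow_right (by norm_num) this
          have h6 : 2 ^ (2 + c) ≥ 1 := Nat.one_le_pow _ _ (by norm_num)
          omega
        obtain ⟨c', rfl⟩ : ∃ c', k₂ = 2 + c' := ⟨k₂ - 2, by omega⟩
        rw [pow_add, pow_add] at hdiff
        omega
      interval_cases k₁
      · -- `x = 2`
        simp only [pow_zero] at hk₁
        have hx2 : x = 2 := by omega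
        have : 3 ^ m % 2 = 1 := by
          rw [Nat.pow_mod]; simp
        rw [← hx] at this
        omega
      · simp only [pow_one] at hk₁
        have hx3 : x = 3 := by omega
        rw [hx3] at hfac
        right
        have : 2 ^ (2 + b) = 8 := by rw [← hfac]
        exact this
    · exfalso
      have := hev m
      omega

/-- Arithmetic of the case of two involution-inverted Sylow subgroups. -/
theorem arith_two {h d s u v : ℕ} (hh : 2 ≤ h) (hs : 1 < s) (hsd : s * d = u * v)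
    (hpart : 2 * h * u * v = s * (2 * h - 1) + h * v * (u - 1) + h * u * (v - 1) + 1)
    (hpair : s * (2 * h - 1) * (s * (2 * h - 1) - (2 * h - 1)) =
      h * v * (u - 1) * u + h * u * (v - 1) * v) (hu : 1 ≤ u) (hv : 1 ≤ v) (hd : 1 ≤ d) :
    d = 2 * h - 1 ∧ h * (u + v) = u * v + 1 := by
  have hsz : (s : ℤ) * d = u * v := by exact_mod_cast hsd
  have hcast : ((2 * h - 1 : ℕ) : ℤ) = 2 * (h : ℤ) - 1 := by omega
  have hu' : ((u - 1 : ℕ) : ℤ) = (u : ℤ) - 1 := by omega
  have hv' : ((v - 1 : ℕ) : ℤ) = (v : ℤ) - 1 := by omega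
  have hq : ((s * (2 * h - 1) - (2 * h - 1) : ℕ) : ℤ) = (s : ℤ) * (2 * h - 1) - (2 * h - 1) := by
    rw [Nat.cast_sub (by nlinarith [Nat.le_mul_of_pos_left (2 * h - 1) (by omega : 0 < s)])]
    push_cast
    rw [hcast]
  have e1 : 2 * (h : ℤ) * u * v = s * (2 * h - 1) + h * v * (u - 1) + h * u * (v - 1) + 1 := by
    have := congrArg (Nat.cast (R := ℤ)) hpart
    push_cast at this
    rw [hcast, hu', hv'] at this
    exact this
  have e2 : (s : ℤ) * (2 * h - 1) * (s * (2 * h - 1) - (2 * h - 1)) =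
      h * v * (u - 1) * u + h * u * (v - 1) * v := by
    have := congrArg (Nat.cast (R := ℤ)) hpair
    push_cast at this
    rw [hcast, hq, hu', hv'] at this
    exact this
  have e3 : (h : ℤ) * (u + v) = s * (2 * h - 1) + 1 := by linear_combination e1
  have e4 : (h : ℤ) * u * v * (u + v - 2) = (s : ℤ) * (2 * h - 1) * (s * (2 * h - 1) - (2 * h - 1)) := by
    rw [e2]; ring
  have hspos : (s : ℤ) ≠ 0 := by
    have : (1 : ℤ) < s := by exact_mod_cast hs
    omega
  have hs1 : (s : ℤ) - 1 ≠ 0 := by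
    have : (1 : ℤ) < s := by exact_mod_cast hs
    omega
  have hx : (2 * (h : ℤ) - 1) ≠ 0 := by
    have : (2 : ℤ) ≤ h := by exact_mod_cast hh
    omega
  have e5 : (s : ℤ) * (((s : ℤ) - 1) * (2 * h - 1) * ((2 * h - 1) - d)) = 0 := by
    have e6 : (h : ℤ) * (u + v - 2) = (s - 1) * (2 * h - 1) := by linear_combination e3
    have e7 : (h : ℤ) * u * v * (u + v - 2) = (u * v) * ((s - 1) * (2 * h - 1)) := by
      rw [← e6]; ring
    have e8 : (s : ℤ) * (2 * h - 1) * (s * (2 * h - 1) - (2 * h - 1)) =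
        (u * v) * ((s - 1) * (2 * h - 1)) := by rw [← e4, e7]
    rw [← hsz] at e8
    linear_combination e8
  have e9 := (mul_eq_zero.1 e5).resolve_left hspos
  have e10 := (mul_eq_zero.1 e9).resolve_left (mul_ne_zero hs1 hx)
  have hd' : (d : ℤ) = 2 * h - 1 := by linarith
  refine ⟨by
    have : (d : ℤ) = ((2 * h - 1 : ℕ) : ℤ) := by rw [hcast, hd']
    exact_mod_cast this, ?_⟩
  have : (h : ℤ) * (u + v) = u * v + 1 := by
    rw [e3, ← hd', ← hsz]
  exact_mod_cast this

/-- Arithmetic contradiction when only one odd Sylow subgroup is inverted. -/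
theorem arith_one {h d s u v : ℕ} (hh : 2 ≤ h) (hs : 1 ≤ s) (hsd : s * d = u * v) (hd3 : 3 ≤ d) (hdo : Odd d)
    (hu : 3 ≤ u) (hv : 3 ≤ v)
    (hbound : 3 * (2 * h * u * v) ≤ 3 * (s * (2 * h - 1)) + 3 * (h * v * (u - 1)) + 2 * (h * u * (v - 1)) + 3)
    (hpair : s * (2 * h - 1) * (s * (2 * h - 1) - (2 * h - 1)) = h * v * (u - 1) * u) : False := by
  obtain ⟨x, hx⟩ : ∃ x, x = 2 * h - 1 := ⟨_, rfl⟩
  rw [← hx] at hbound hpair
  have hxh : x + 1 = 2 * h := by omega
  have hd6 : d < 6 := by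
    by_contra hc
    have hc' : 6 ≤ d := by omega
    obtain ⟨a, rfl⟩ : ∃ a, u = a + 1 := ⟨u - 1, by omega⟩
    obtain ⟨b, rfl⟩ : ∃ b, v = b + 1 := ⟨v - 1, by omega⟩
    simp only [Nat.add_sub_cancel] at hbound
    have huv : (a + 1) * (b + 1) = s * d := hsd.symm
    have h1 : 6 * s ≤ s * d := by nlinarith
    have hx2 : x < 2 * h := by omega
    have h2 : 3 * (s * x) ≤ 3 * (s * (2 * h)) := by
      have := Nat.mul_le_mul_left s hx2.le
      omega
    nlinarith [Nat.zero_le (h * (b + 1) * a), Nat.zero_le (h * (a + 1) * b), mul_pos (by omega : 0 < h) (by omega : 0 < b + 1),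
      mul_pos (by omega : 0 < h) (by omega : 0 < a + 1), Nat.mul_le_mul_left h h1]
  have hxpos : 1 ≤ x := by omega
  -- simplify the pair equation by `s`
  have hpair2 : (s - 1) * x * x * d = h * (u - 1) * d * d := by
    obtain ⟨r, rfl⟩ : ∃ r, s = r + 1 := ⟨s - 1, by omega⟩
    have e1 : (r + 1) * x - x = r * x := by
      have : (r + 1) * x = r * x + x := by ring
      omega
    rw [e1] at hpair
    simp only [Nat.add_sub_cancel]
    have hu1 : u - 1 + 1 = u := by omega
    have hrpos : 0 < r + 1 := by omega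
    have h3 : (r + 1) * (r * x * x * d) = (r + 1) * (h * (u - 1) * d * d) := by
      have h4 : u * v = (r + 1) * d := hsd.symm
      calc (r + 1) * (r * x * x * d) = ((r + 1) * x * (r * x)) * d := by ring
        _ = h * v * (u - 1) * u * d := by rw [hpair]
        _ = h * (u - 1) * (u * v) * d := by ring
        _ = (r + 1) * (h * (u - 1) * d * d) := by rw [h4]; ring
    exact Nat.eq_of_mul_eq_mul_left hrpos h3
  have hdd : d = 3 ∨ d = 5 := by
    obtain ⟨k, rfl⟩ := hdo
    omega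
  rcases hdd with rfl | rfl
  · -- `d = 3`
    have e : (s - 1) * x * x = h * (u - 1) * 3 := by
      have : (s - 1) * x * x * 3 = h * (u - 1) * 3 * 3 := hpair2
      omega
    obtain ⟨r, rfl⟩ : ∃ r, s = r + 1 := ⟨s - 1, by omega⟩
    simp only [Nat.add_sub_cancel] at e
    have h5 : u ≤ r + 1 := by
      have : 3 * u ≤ u * v := by nlinarith
      omega
    have h6 : u - 1 ≤ r := by omega
    have h7 : (u - 1) * (x * x) ≤ (u - 1) * (h * 3) := by
      calc (u - 1) * (x * x) ≤ r * (x * x) := Nat.mul_le_mul_right _ h6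
        _ = h * (u - 1) * 3 := by rw [← e]; ring
        _ = (u - 1) * (h * 3) := by ring
    have h8 : x * x ≤ h * 3 := Nat.le_of_mul_le_mul_left h7 (by omega)
    have h9 : 2 * h = x + 1 := by omega
    nlinarith
  · -- `d = 5`
    obtain ⟨r, rfl⟩ : ∃ r, s = r + 1 := ⟨s - 1, by omega⟩
    have e : r * x * x = h * (u - 1) * 5 := by
      have : (r + 1 - 1) * x * x * 5 = h * (u - 1) * 5 * 5 := hpair2
      simp only [Nat.add_sub_cancel] at this
      omega
    have h1 : 5 * (r + 1) = u * v := by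
      have := hsd
      linarith
    -- `2 (u - 1) ≤ 5 r`
    have h3u : 3 * u ≤ u * v := by nlinarith
    have h5 : 2 * (u - 1) ≤ 5 * r := by omega
    have h6 : 2 * (u - 1) * (x * x) ≤ 5 * r * (x * x) := Nat.mul_le_mul_right _ h5
    have h7 : 5 * r * (x * x) = (u - 1) * (25 * h) := by
      calc 5 * r * (x * x) = 5 * (r * x * x) := by ring
        _ = 5 * (h * (u - 1) * 5) := by rw [e]
        _ = (u - 1) * (25 * h) := by ring
    rw [h7] at h6
    have h8 : (u - 1) * (2 * (x * x)) ≤ (u - 1) * (25 * h) := by nlinarith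
    have h9 : 2 * (x * x) ≤ 25 * h := Nat.le_of_mul_le_mul_left h8 (by omega)
    have h10 : 2 * h = x + 1 := by omega
    have hh4 : h ≤ 4 := by nlinarith
    interval_cases h
    · -- `h = 2`, `x = 3`
      have hx3 : x = 3 := by omega
      subst hx3
      have e2 : 9 * r = 10 * (u - 1) := by omega
      obtain ⟨a, rfl⟩ : ∃ a, u = a + 1 := ⟨u - 1, by omega⟩
      simp only [Nat.add_sub_cancel] at e2
      have hv6 : v ≤ 5 := by
        by_contra hc
        have : 6 ≤ v := by omega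
        have h11 : 6 * (a + 1) ≤ (a + 1) * v := by nlinarith
        omega
      interval_cases v <;> omega
    · have hx5 : x = 5 := by omega
      subst hx5
      have e2 : 5 * r = 3 * (u - 1) := by omega
      obtain ⟨a, rfl⟩ : ∃ a, u = a + 1 := ⟨u - 1, by omega⟩
      simp only [Nat.add_sub_cancel] at e2
      have hv4 : v ≤ 3 := by
        by_contra hc
        have : 4 ≤ v := by omega
        have h11 : 4 * (a + 1) ≤ (a + 1) * v := by nlinarith
        omega
      interval_cases v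
      omega
    · have hx7 : x = 7 := by omega
      subst hx7
      have e2 : 49 * r = 20 * (u - 1) := by omega
      obtain ⟨a, rfl⟩ : ∃ a, u = a + 1 := ⟨u - 1, by omega⟩
      simp only [Nat.add_sub_cancel] at e2
      have ha : a ≤ 2 := by omega
      omega

end CfsgLib.Rec.AutOrb
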