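import Mathlib
import Cfsg.Agent.Lib.Rec.AutOrb3
import Cfsg.Agent.Lib.Char.Burnside

/-! Frobenius complements cannot have two prime divisors when all elements have prime order. -/

set_option autoImplicit false
set_option linter.unusedVariables false
set_option linter.style.haveILetI false

namespace CfsgLib.Rec.AutOrb

open Subgroup

theorem frob_free {W V : Type*} [Group W] [Finite W] [CommGroup V] [Finite V] [Nontrivial V]
    (ρ : W →* MulAut V)
    (hfree : ∀ w : W, w ≠ 1 → ∀ v, ρ w v = v → v = 1)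
    (hpr : ∀ w : W, w ≠ 1 → (orderOf w).Prime)
    (hs : Group.IsSolvable W) (hc : Nat.Coprime (Nat.card V) (Nat.card W))
    {r₁ r₂ : ℕ} (hr₁ : r₁.Prime) (hr₂ : r₂.Prime) (hne : r₁ ≠ r₂)
    (h₁ : r₁ ∣ Nat.card W) (h₂ : r₂ ∣ Nat.card W) : False := by
  classical
  letI : Fintype W := Fintype.ofFinite W
  letI : Fintype V := Fintype.ofFinite V
  have hcomm : ∀ x y : W, x ≠ 1 → y ≠ 1 → Commute x y → orderOf x = orderOf y := by
    intro x y hx hy hcm
    by_contra hne'
    have hpx := hpr x hx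
    have hpy := hpr y hy
    have hcop : (orderOf x).Coprime (orderOf y) := (Nat.coprime_primes hpx hpy).2 hne'
    have h1 := hcm.orderOf_mul_eq_mul_orderOf_of_coprime hcop
    have hxy : x * y ≠ 1 := by
      intro h
      rw [h, orderOf_one] at h1
      have : orderOf x ∣ 1 := ⟨orderOf y, h1⟩
      exact hpx.one_lt.ne' (Nat.dvd_one.1 this)
    have := hpr _ hxy
    rw [h1] at this
    exact Nat.not_prime_mul hpx.ne_one hpy.ne_one this
  have htrace : ∀ (S : Subgroup W), S ≠ ⊥ → ∀ v : V, ∏ s : S, ρ (s : W) v = 1 := by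
    intro S hS v
    obtain ⟨s₀, hs₀, hs₀1⟩ := (Subgroup.ne_bot_iff_exists_ne_one).1 hS |>.elim
      (fun x hx => (⟨(x : W), x.2, by simpa using hx⟩ : ∃ s₀ : W, s₀ ∈ S ∧ s₀ ≠ 1))
    apply hfree s₀ hs₀1
    rw [map_prod]
    refine Fintype.prod_equiv (Equiv.mulLeft (⟨s₀, hs₀⟩ : S)) _ _ ?_
    intro s
    simp [map_mul, MulAut.mul_apply]
  haveI : Nontrivial W := by
    rw [← Finite.one_lt_card_iff_nontrivial]
    have := Nat.le_of_dvd Nat.card_pos h₁
    have := hr₁.two_le
    omega
  haveI : Group.IsSolvable W := hs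
  obtain ⟨A, hAn, hA1, hAc⟩ := CfsgLib.Rec.exists_abelian_normal (⊤ : Subgroup W) (by simp) inferInstance
  obtain ⟨a₀, ha₀, ha₀1⟩ := (Subgroup.ne_bot_iff_exists_ne_one).1 hA1 |>.elim
      (fun x hx => (⟨(x : W), x.2, by simpa using hx⟩ : ∃ s₀ : W, s₀ ∈ A ∧ s₀ ≠ 1))
  have hAord : ∀ c ∈ A, c ≠ 1 → orderOf c = orderOf a₀ := by
    intro c hc hc1
    exact hcomm c a₀ hc1 ha₀1 (hAc c hc a₀ ha₀)
  obtain ⟨r', hr', hr'd, hr'ne⟩ : ∃ r' : ℕ, r'.Prime ∧ r' ∣ Nat.card W ∧ r' ≠ orderOf a₀ := by
    by_cases h : r₁ = orderOf a₀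
    · exact ⟨r₂, hr₂, h₂, fun h' => hne (h.trans h'.symm)⟩
    · exact ⟨r₁, hr₁, h₁, h⟩
  haveI : Fact r'.Prime := ⟨hr'⟩
  obtain ⟨y, hy⟩ := exists_prime_orderOf_dvd_card' r' hr'd
  have hy1 : y ≠ 1 := by
    intro h
    rw [h, orderOf_one] at hy
    exact hr'.one_lt.ne hy
  let Y : Subgroup W := Subgroup.zpowers y
  have hYbot : Y ≠ ⊥ := by
    intro h
    apply hy1
    have : y ∈ Y := Subgroup.mem_zpowers y
    rw [h] at this
    simpa using this
  have hYord : ∀ t ∈ Y, t ≠ 1 → orderOf t = r' := by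
    intro t ht ht1
    have h1 : orderOf t ∣ orderOf y := orderOf_dvd_of_mem_zpowers ht
    rw [hy] at h1
    rcases (Nat.dvd_prime hr').1 h1 with h2 | h2
    · exact absurd (orderOf_eq_one_iff.1 h2) ht1
    · exact h2
  have hkey : ∀ v : V, v ^ Nat.card A = 1 := by
    intro v
    have h1 : ∏ a : A, ∏ t : Y, ρ ((a : W) * (t : W) * (a : W)⁻¹) v = 1 := by
      apply Finset.prod_eq_one
      intro a _
      have h2 := htrace Y hYbot (ρ (a : W)⁻¹ v)
      have h3 : ρ (a : W) (∏ t : Y, ρ (t : W) (ρ (a : W)⁻¹ v)) = 1 := by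
        rw [h2, map_one]
      rw [← h3, map_prod]
      refine Finset.prod_congr rfl ?_
      intro t _
      simp [map_mul, MulAut.mul_apply]
    rw [Finset.prod_comm] at h1
    rw [Finset.prod_eq_single (1 : Y)] at h1
    · simp only [OneMemClass.coe_one, mul_one, mul_inv_cancel, map_one, MulAut.one_apply,
        Finset.prod_const, Finset.card_univ] at h1
      rwa [Nat.card_eq_fintype_card]
    · intro t _ ht
      have ht1 : (t : W) ≠ 1 := by simpa using ht
      have hmem : ∀ a : A, (a : W) * (t : W) * (a : W)⁻¹ * (t : W)⁻¹ ∈ A := by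
        intro a
        have h3 : (t : W) * (a : W)⁻¹ * (t : W)⁻¹ ∈ A := hAn.conj_mem _ (A.inv_mem a.2) _
        have : (a : W) * (t : W) * (a : W)⁻¹ * (t : W)⁻¹ = (a : W) * ((t : W) * (a : W)⁻¹ * (t : W)⁻¹) := by group
        rw [this]
        exact A.mul_mem a.2 h3
      let f : A → A := fun a => ⟨(a : W) * (t : W) * (a : W)⁻¹ * (t : W)⁻¹, hmem a⟩
      have hf : Function.Injective f := by
        intro a b hab
        have h3 : (a : W) * (t : W) * (a : W)⁻¹ * (t : W)⁻¹ = (b : W) * (t : W) * (b : W)⁻¹ * (t : W)⁻¹ :=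
          congrArg Subtype.val hab
        have h4 : (a : W) * (t : W) * (a : W)⁻¹ = (b : W) * (t : W) * (b : W)⁻¹ := mul_right_cancel h3
        by_contra hne'
        have hc1 : (b : W)⁻¹ * (a : W) ≠ 1 := by
          intro h5
          apply hne'
          apply Subtype.ext
          rw [inv_mul_eq_one] at h5
          exact h5.symm
        have hc2 : (b : W)⁻¹ * (a : W) ∈ A := A.mul_mem (A.inv_mem b.2) a.2
        have hcm : Commute ((b : W)⁻¹ * (a : W)) (t : W) := by
          show (b : W)⁻¹ * (a : W) * (t : W) = (t : W) * ((b : W)⁻¹ * (a : W))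
          have h5 : (a : W) * (t : W) = (b : W) * (t : W) * (b : W)⁻¹ * (a : W) := by
            rw [← h4]; group
          rw [mul_assoc, h5]; group
        have h6 := hcomm _ _ hc1 ht1 hcm
        rw [hAord _ hc2 hc1, hYord _ t.2 ht1] at h6
        exact hr'ne h6.symm
      have hfb : Function.Bijective f := Finite.injective_iff_bijective.1 hf
      have h2 := htrace A hA1 (ρ (t : W) v)
      rw [← h2]
      refine Function.Bijective.prod_comp hfb (fun c : A => ρ (c : W) (ρ (t : W) v)) |>.symm.trans ?_ |>.symm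
      refine Finset.prod_congr rfl ?_
      intro a _
      show ρ ((a : W) * (t : W) * (a : W)⁻¹ * (t : W)⁻¹) (ρ (t : W) v) = _
      rw [← MulAut.mul_apply, ← map_mul]
      simp
    · intro h
      exact absurd (Finset.mem_univ _) h
  obtain ⟨v, hv⟩ := exists_ne (1 : V)
  apply hv
  have h1 := hkey v
  have h2 : orderOf v ∣ Nat.card A := orderOf_dvd_of_pow_eq_one h1
  have h3 : Nat.card A ∣ Nat.card W := Subgroup.card_subgroup_dvd_card A
  have h4 : orderOf v ∣ Nat.card V := orderOf_dvd_natCard v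
  have h5 : orderOf v ∣ 1 := by
    have := Nat.dvd_gcd h4 (h2.trans h3)
    rwa [hc] at this
  exact orderOf_eq_one_iff.1 (Nat.dvd_one.1 h5)

variable {G : Type*} [Group G]

/-- The complement in the normalizer of a Sylow 2-subgroup has prime power order. -/
theorem frob_w [Finite G] (H : Hyp G) [Fact (Nat.Prime 2)] (E : Sylow 2 G) {p q α β d : ℕ} (hp : p.Prime) (hq : q.Prime)
    (hne : p ≠ q) (hdc : Nat.card (nm (E : Subgroup G)) = Nat.card (E : Subgroup G) * d)
    (hd : d ∣ p ^ α * q ^ β) (hE1 : 1 < Nat.card (E : Subgroup G)) (hodd : ¬ 2 ∣ d) : ¬ (p ∣ d ∧ q ∣ d) := by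
  classical
  rintro ⟨hpd, hqd⟩
  have hab := two_ab H E
  haveI hEn : ((E : Subgroup G).subgroupOf (nm (E : Subgroup G))).Normal :=
    Subgroup.normal_subgroupOf_of_le_normalizer le_rfl
  have hcE' : Nat.card ((E : Subgroup G).subgroupOf (nm (E : Subgroup G))) = Nat.card (E : Subgroup G) :=
    Nat.card_congr (Subgroup.subgroupOfEquivOfLe Subgroup.le_normalizer).toEquiv
  have hEpos : 0 < Nat.card (E : Subgroup G) := Nat.card_pos
  have hidx : ((E : Subgroup G).subgroupOf (nm (E : Subgroup G))).index = d := by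
    have h1 := Subgroup.card_mul_index ((E : Subgroup G).subgroupOf (nm (E : Subgroup G)))
    rw [hcE', hdc] at h1
    exact Nat.eq_of_mul_eq_mul_left hEpos h1
  obtain ⟨k, hk⟩ := (IsPGroup.iff_card.1 E.isPGroup')
  have hcop : Nat.Coprime (Nat.card (E : Subgroup G)) d := by
    rw [hk]
    exact Nat.Coprime.pow_left _ ((Nat.Prime.coprime_iff_not_dvd Nat.prime_two).2 hodd)
  obtain ⟨W, hW⟩ := Subgroup.exists_right_complement'_of_coprime
    (N := (E : Subgroup G).subgroupOf (nm (E : Subgroup G))) (by rw [hcE', hidx]; exact hcop)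
  have hWc : Nat.card W = d := by
    have h1 := hW.card_mul_card
    rw [hcE', hdc] at h1
    exact Nat.eq_of_mul_eq_mul_left hEpos h1
  letI cg : CommGroup (E : Subgroup G) := { (inferInstance : Group (E : Subgroup G)) with
    mul_comm := fun a b => Subtype.ext (hab a a.2 b b.2) }
  haveI : Nontrivial (E : Subgroup G) := Finite.one_lt_card_iff_nontrivial.1 hE1
  let ρ : W →* MulAut (E : Subgroup G) := (normalizerMonoidHom (E : Subgroup G)).comp W.subtype
  refine frob_free (W := W) (V := (E : Subgroup G)) ρ ?_ ?_ ?_ ?_ hp hq hne ?_ ?_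
  · intro w hw v hv
    by_contra hv1
    have hv1' : (v : G) ≠ 1 := by simpa using hv1
    have h1 : ((w : nm (E : Subgroup G)) : G) * (v : G) * ((w : nm (E : Subgroup G)) : G)⁻¹ = v := by
      have := congrArg Subtype.val hv
      exact this
    have h2 : ((w : nm (E : Subgroup G)) : G) ∈ centralizer ({(v : G)} : Set G) := by
      rw [mem_centralizer_iff]
      intro x hx
      rw [Set.mem_singleton_iff] at hx
      subst hx
      rw [mul_inv_eq_iff_eq_mul] at h1
      exact h1.symm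
    rw [cent_eq H E hab v.2 hv1'] at h2
    have h3 : (w : nm (E : Subgroup G)) ∈ (E : Subgroup G).subgroupOf (nm (E : Subgroup G)) := by
      rw [Subgroup.mem_subgroupOf]; exact h2
    have h4 : (w : nm (E : Subgroup G)) = 1 := (Subgroup.disjoint_def.1 hW.disjoint) h3 w.2
    apply hw
    exact Subtype.ext h4
  · intro w hw
    have h1 : ((w : nm (E : Subgroup G)) : G) ≠ 1 := by
      intro h
      apply hw
      exact Subtype.ext (Subtype.ext h)
    have h2 := H.prime _ h1
    rwa [Subgroup.orderOf_coe, Subgroup.orderOf_coe] at h2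
  · obtain ⟨a, b, hab'⟩ := CfsgLib.Char.exists_pow_mul_pow_of_dvd hp hq hd
    exact CfsgLib.Char.solvable_of_card_eq hp hq d W hWc ⟨a, b, hab'⟩
  · rw [hWc]; exact hcop
  · rw [hWc]; exact hpd
  · rw [hWc]; exact hqd

end CfsgLib.Rec.AutOrb
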