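import Mathlib
import Cfsg.Agent.Lib.Rec.AutOrb4

/-! Exclusion of order 504, counting pairs of involutions. -/

set_option autoImplicit false
set_option linter.unusedVariables false
set_option linter.style.haveILetI false

namespace CfsgLib.Rec.AutOrb

open Subgroup

variable {G : Type*} [Group G]

theorem ab_of_sylow [Finite G] {p : ℕ} [Fact p.Prime] (P Q : Sylow p G) (hP : Ab (P : Subgroup G)) :
    Ab (Q : Subgroup G) := by
  intro x hx y hy
  let e : (Q : Subgroup G) ≃* (P : Subgroup G) := Sylow.equiv Q P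
  have h1 : ((e ⟨x, hx⟩ : (P : Subgroup G)) : G) * ((e ⟨y, hy⟩ : (P : Subgroup G)) : G) =
      ((e ⟨y, hy⟩ : (P : Subgroup G)) : G) * ((e ⟨x, hx⟩ : (P : Subgroup G)) : G) := hP _ (e _).2 _ (e _).2
  have h2 : e ⟨x, hx⟩ * e ⟨y, hy⟩ = e ⟨y, hy⟩ * e ⟨x, hx⟩ := Subtype.ext h1
  rw [← map_mul, ← map_mul] at h2
  have h3 := e.injective h2
  exact congrArg Subtype.val h3

theorem card_nm_sylow [Finite G] {p : ℕ} [Fact p.Prime] (P Q : Sylow p G) :
    Nat.card (nm (P : Subgroup G)) = Nat.card (nm (Q : Subgroup G)) := by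
  have h1 := syl_mul P
  have h2 := syl_mul Q
  have h3 : 0 < Nat.card (Sylow p G) := Nat.card_pos
  exact Nat.eq_of_mul_eq_mul_left h3 (h1.trans h2.symm)

theorem card_sylow_eq [Finite G] {p : ℕ} [Fact p.Prime] (P Q : Sylow p G) :
    Nat.card (P : Subgroup G) = Nat.card (Q : Subgroup G) :=
  Nat.card_congr (Sylow.equiv P Q).toEquiv

/-- A 2-element normalizing a Sylow 2-subgroup lies in it -/
theorem mem_of_norm [Finite G] [Fact (Nat.Prime 2)] (E : Sylow 2 G) {k : G} (hk : orderOf k = 2)
    (hkN : k ∈ nm (E : Subgroup G)) : k ∈ (E : Subgroup G) := by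
  have hP : IsPGroup 2 (zpowers k) := by
    rw [IsPGroup.iff_card]
    exact ⟨1, by rw [Nat.card_zpowers, hk]; rfl⟩
  have hle : zpowers k ≤ nm (E : Subgroup G) := by
    rw [zpowers_le]; exact hkN
  have hfix : E ∈ MulAction.fixedPoints (zpowers k) (Sylow 2 G) := by
    rintro ⟨x, hx⟩
    exact Sylow.smul_eq_iff_mem_normalizer.2 (hle hx)
  exact (IsPGroup.sylow_mem_fixedPoints_iff hP).1 hfix (mem_zpowers k)

/-- An element of order 7 fixing three points on 9 Sylow 2-subgroups fixes all of them. -/
theorem fix7 [Finite G] [Fact (Nat.Prime 2)] (h9 : Nat.card (Sylow 2 G) = 9) {k : G} (hk : orderOf k = 7)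
    {a b c : Sylow 2 G} (hab : a ≠ b) (hac : a ≠ c) (hbc : b ≠ c)
    (ha : k ∈ nm (a : Subgroup G)) (hb : k ∈ nm (b : Subgroup G)) (hc : k ∈ nm (c : Subgroup G))
    (E : Sylow 2 G) : k ∈ nm (E : Subgroup G) := by
  classical
  haveI : Fact (Nat.Prime 7) := ⟨by norm_num⟩
  have hP : IsPGroup 7 (zpowers k) := by
    rw [IsPGroup.iff_card]
    exact ⟨1, by rw [Nat.card_zpowers, hk]; rfl⟩
  have hmod := hP.card_modEq_card_fixedPoints (Sylow 2 G)
  have hfixmem : ∀ x : Sylow 2 G, k ∈ nm (x : Subgroup G) → x ∈ MulAction.fixedPoints (zpowers k) (Sylow 2 G) := by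
    intro x hx
    rintro ⟨y, hy⟩
    have hle : zpowers k ≤ nm (x : Subgroup G) := by
      rw [zpowers_le]; exact hx
    exact Sylow.smul_eq_iff_mem_normalizer.2 (hle hy)
  have h3 : ({a, b, c} : Set (Sylow 2 G)).ncard = 3 := by
    rw [Set.ncard_eq_three]
    exact ⟨a, b, c, hab, hac, hbc, rfl⟩
  have hle : ({a, b, c} : Set (Sylow 2 G)) ⊆ MulAction.fixedPoints (zpowers k) (Sylow 2 G) := by
    intro x hx
    rcases hx with rfl | rfl | rfl
    · exact hfixmem _ ha
    · exact hfixmem _ hb
    · exact hfixmem _ hc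
  have hf3 : 3 ≤ (MulAction.fixedPoints (zpowers k) (Sylow 2 G)).ncard := by
    rw [← h3]
    exact Set.ncard_le_ncard hle (Set.toFinite _)
  have hf9 : (MulAction.fixedPoints (zpowers k) (Sylow 2 G)).ncard ≤ 9 := by
    rw [← h9, ← Set.ncard_univ]
    exact Set.ncard_le_ncard (Set.subset_univ _) (Set.toFinite _)
  have hcard : Nat.card (MulAction.fixedPoints (zpowers k) (Sylow 2 G)) =
      (MulAction.fixedPoints (zpowers k) (Sylow 2 G)).ncard := Nat.card_coe_set_eq _
  rw [hcard, h9] at hmod
  have hf : (MulAction.fixedPoints (zpowers k) (Sylow 2 G)).ncard = 9 := by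
    unfold Nat.ModEq at hmod
    omega
  have huniv : MulAction.fixedPoints (zpowers k) (Sylow 2 G) = Set.univ := by
    apply Set.eq_of_subset_of_ncard_le (Set.subset_univ _) _ (Set.toFinite _)
    rw [Set.ncard_univ, h9, hf]
  have hE : E ∈ MulAction.fixedPoints (zpowers k) (Sylow 2 G) := by
    rw [huniv]; trivial
  have := hE ⟨k, mem_zpowers k⟩
  exact Sylow.smul_eq_iff_mem_normalizer.1 this

/-- All conjugates under automorphisms share that property. -/
theorem all7 [Finite G] [Fact (Nat.Prime 2)] (H : Hyp G) {k x : G} (hxk : orderOf k = orderOf x)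
    (hall : ∀ E : Sylow 2 G, k ∈ nm (E : Subgroup G)) (E : Sylow 2 G) : x ∈ nm (E : Subgroup G) := by
  obtain ⟨φ, rfl⟩ := H.aut k x hxk
  have hk := hall (φ⁻¹ • E)
  rw [Subgroup.mem_normalizer_iff] at hk ⊢
  intro y
  have hmem : ∀ w : G, w ∈ (((φ⁻¹ • E : Sylow 2 G)) : Subgroup G) ↔ φ w ∈ (E : Subgroup G) := by
    intro w
    rw [Sylow.pointwise_smul_def, Subgroup.mem_inv_pointwise_smul_iff]
    rfl
  have h1 := hk (φ.symm y)
  rw [hmem, hmem] at h1
  simpa [map_mul, map_inv] using h1

theorem no504 [Fintype G] [DecidableEq G] [Fact (Nat.Prime 2)] (H : Hyp G) (h9 : Nat.card (Sylow 2 G) = 9)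
    (h56 : ∀ E : Sylow 2 G, Nat.card (nm (E : Subgroup G)) = 56)
    (h7 : 56 < (Finset.univ.filter (fun x : G => orderOf x = 7)).card)
    (h3 : 81 < (Finset.univ.filter (fun x : G => orderOf x = 3)).card) : False := by
  classical
  letI : Fintype (Sylow 2 G) := Fintype.ofFinite _
  have hnonemp : Nonempty (Sylow 2 G) := inferInstance
  obtain ⟨a⟩ := hnonemp
  have hab2 := two_ab H a
  have hord3 : ∀ g : G, orderOf g = 3 → g ∉ nm (a : Subgroup G) := by
    intro g hg hgN
    have h1 : orderOf (⟨g, hgN⟩ : nm (a : Subgroup G)) ∣ Nat.card (nm (a : Subgroup G)) := orderOf_dvd_natCard _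
    rw [Subgroup.orderOf_mk, hg, h56 a] at h1
    omega
  -- no element of order 7 fixes 3 points
  have hno7 : ∀ k : G, orderOf k = 7 → ∀ b c : Sylow 2 G, a ≠ b → a ≠ c → b ≠ c → k ∈ nm (a : Subgroup G) →
      k ∈ nm (b : Subgroup G) → k ∈ nm (c : Subgroup G) → False := by
    intro k hk b c hab hac hbc ha hb hc
    have hall := fix7 h9 hk hab hac hbc ha hb hc
    have hsub : ((Finset.univ.filter (fun x : G => orderOf x = 7) : Finset G) : Set G) ⊆
        ((nm (a : Subgroup G) : Subgroup G) : Set G) := by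
      intro x hx
      have hx7 : orderOf x = 7 := by simpa using hx
      exact all7 H (hk.trans hx7.symm) hall a
    have hle := Set.ncard_le_ncard hsub (Set.toFinite _)
    rw [Set.ncard_coe_finset, ← Nat.card_coe_set_eq] at hle
    have h6 := h56 a
    have : Nat.card (((nm (a : Subgroup G) : Subgroup G) : Set G)) = Nat.card (nm (a : Subgroup G)) := rfl
    omega
  let f : G → Sylow 2 G × Sylow 2 G := fun g => (g • a, (g * g) • a)
  have hinj : Set.InjOn f (Finset.univ.filter (fun x : G => orderOf x = 3) : Finset G) := by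
    intro g hg g' hg' hfg
    have hg3 : orderOf g = 3 := by simpa using hg
    have hg3' : orderOf g' = 3 := by simpa using hg'
    have h1 : g • a = g' • a := congrArg Prod.fst hfg
    have h2 : (g * g) • a = (g' * g') • a := congrArg Prod.snd hfg
    have hcube : g * g * g = 1 := by
      have := pow_orderOf_eq_one g
      rw [hg3, pow_succ, pow_two] at this
      exact this
    have hcube' : g' * g' * g' = 1 := by
      have := pow_orderOf_eq_one g'
      rw [hg3', pow_succ, pow_two] at this
      exact this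
    by_contra hne
    let k := g⁻¹ * g'
    have hk1 : k ≠ 1 := by
      intro h
      apply hne
      have : g⁻¹ * g' = 1 := h
      rw [inv_mul_eq_one] at this
      exact this
    have hka : k • a = a := by
      show (g⁻¹ * g') • a = a
      rw [mul_smul, ← h1, inv_smul_smul]
    have hkb : k • (g • a) = g • a := by
      calc (g⁻¹ * g') • (g • a) = g⁻¹ • (g' • (g • a)) := mul_smul _ _ _
        _ = g⁻¹ • (g' • (g' • a)) := by rw [h1]
        _ = g⁻¹ • ((g' * g') • a) := by rw [mul_smul]
        _ = g⁻¹ • ((g * g) • a) := by rw [h2]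
        _ = g • a := by rw [mul_smul, inv_smul_smul]
    have hginv : g⁻¹ = g * g := (eq_inv_of_mul_eq_one_left hcube).symm
    have hkc : k • ((g * g) • a) = (g * g) • a := by
      calc (g⁻¹ * g') • ((g * g) • a) = g⁻¹ • (g' • ((g' * g') • a)) := by rw [h2, mul_smul]
        _ = g⁻¹ • ((g' * (g' * g')) • a) := by rw [← mul_smul g']
        _ = g⁻¹ • a := by rw [← mul_assoc, hcube', one_smul]
        _ = (g * g) • a := by rw [hginv]
    have hne1 : a ≠ g • a := by
      intro h
      exact hord3 g hg3 (Sylow.smul_eq_iff_mem_normalizer.1 h.symm)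
    have hne2 : a ≠ (g * g) • a := by
      intro h
      have h5 : (g * g) ∈ nm (a : Subgroup G) := Sylow.smul_eq_iff_mem_normalizer.1 h.symm
      have h6 : (g * g) * (g * g) ∈ nm (a : Subgroup G) := (nm (a : Subgroup G)).mul_mem h5 h5
      have h7 : (g * g) * (g * g) = g := by
        calc (g * g) * (g * g) = (g * g * g) * g := by group
          _ = g := by rw [hcube, one_mul]
      rw [h7] at h6
      exact hord3 g hg3 h6
    have hne3 : g • a ≠ (g * g) • a := by
      intro h
      rw [mul_smul] at h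
      exact hne1 (smul_left_cancel g h)
    have hkaN : k ∈ nm (a : Subgroup G) := Sylow.smul_eq_iff_mem_normalizer.1 hka
    have hkbN : k ∈ nm ((g • a : Sylow 2 G) : Subgroup G) := Sylow.smul_eq_iff_mem_normalizer.1 hkb
    have hkcN : k ∈ nm (((g * g) • a : Sylow 2 G) : Subgroup G) := Sylow.smul_eq_iff_mem_normalizer.1 hkc
    have hkp := H.prime k hk1
    have hkd : orderOf k ∣ 2 ^ 3 * 7 := by
      have h1 : orderOf (⟨k, hkaN⟩ : nm (a : Subgroup G)) ∣ Nat.card (nm (a : Subgroup G)) := orderOf_dvd_natCard _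
      rw [Subgroup.orderOf_mk, h56 a] at h1
      exact h1
    rcases (Nat.Prime.dvd_mul hkp).1 hkd with h5 | h5
    · have h6 : orderOf k = 2 := (Nat.prime_dvd_prime_iff_eq hkp Nat.prime_two).1 (hkp.dvd_of_dvd_pow h5)
      have h7 := mem_of_norm a h6 hkaN
      have h8 := mem_of_norm _ h6 hkbN
      exact hne1 (ti H a _ hab2 (two_ab H _) h7 h8 hk1)
    · have h6 : orderOf k = 7 := (Nat.prime_dvd_prime_iff_eq hkp (by norm_num)).1 h5
      exact hno7 k h6 _ _ hne1 hne2 hne3 hkaN hkbN hkcN
  have hle := Finset.card_le_card_of_injOn f (t := Finset.univ) (fun _ _ => Finset.mem_coe.2 (Finset.mem_univ _)) hinj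
  rw [Finset.card_univ, Fintype.card_prod, ← Nat.card_eq_fintype_card, h9] at hle
  omega

/-- Counting commuting involutions. -/
theorem card_comm_inv [Fintype G] [DecidableEq G] [Fact (Nat.Prime 2)] (H : Hyp G) (E : Sylow 2 G) {t : G}
    (ht : orderOf t = 2) :
    ((Finset.univ.filter (fun s : G => orderOf s = 2)).filter (fun s => s * t = t * s)).card + 1 =
      Nat.card (E : Subgroup G) := by
  classical
  have ht1 : t ≠ 1 := ne_one_of_order Nat.prime_two ht
  have hQ := coe_sy H 2 t ht
  have hc1 : Nat.card (E : Subgroup G) = Nat.card (centralizer ({t} : Set G)) := by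
    rw [← hQ]; exact card_sylow_eq _ _
  have hc2 : Nat.card (centralizer ({t} : Set G)) =
      (Finset.univ.filter (fun s : G => s ∈ centralizer ({t} : Set G))).card := by
    rw [Nat.card_eq_fintype_card]
    exact Fintype.card_of_subtype _ (by simp)
  have hs : (Finset.univ.filter (fun s : G => s ∈ centralizer ({t} : Set G))) =
      insert 1 ((Finset.univ.filter (fun s : G => orderOf s = 2)).filter (fun s => s * t = t * s)) := by
    ext s
    simp only [Finset.mem_filter, Finset.mem_univ, true_and, Finset.mem_insert]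
    constructor
    · intro hs
      by_cases h1 : s = 1
      · exact Or.inl h1
      · right
        refine ⟨(cent_order H ht1 hs h1).trans ht, ?_⟩
        have := mem_centralizer_iff.1 hs t (Set.mem_singleton t)
        exact this.symm
    · rintro (rfl | ⟨_, h2⟩)
      · exact one_mem _
      · rw [mem_centralizer_iff]
        intro x hx
        rw [Set.mem_singleton_iff] at hx
        subst hx
        exact h2.symm
  rw [hc1, hc2, hs, Finset.card_insert_of_notMem]
  simp only [Finset.mem_filter, Finset.mem_univ, true_and, orderOf_one]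
  omega

theorem card_noncomm_inv [Fintype G] [DecidableEq G] {t : G} (ht : orderOf t = 2) :
    ((Finset.univ.filter (fun g : G => g ≠ 1 ∧ orderOf g ≠ 2)).filter (fun g => t * g * t⁻¹ = g⁻¹)).card =
      ((Finset.univ.filter (fun s : G => orderOf s = 2)).filter (fun s => ¬ s * t = t * s)).card := by
  classical
  have htt : t * t = 1 := by
    have := pow_orderOf_eq_one t
    rwa [ht, pow_two] at this
  have hti : t⁻¹ = t := inv_eq_of_mul_eq_one_left htt
  have ht1 : t ≠ 1 := ne_one_of_order Nat.prime_two ht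
  symm
  refine Finset.card_nbij' (fun s => s * t) (fun g => g * t) ?_ ?_ ?_ ?_
  · intro s hs
    have hs' : orderOf s = 2 ∧ ¬ s * t = t * s := by simpa using hs
    obtain ⟨hs2, hnc⟩ := hs'
    have hss : s * s = 1 := by
      have := pow_orderOf_eq_one s
      rwa [hs2, pow_two] at this
    have hsi : s⁻¹ = s := inv_eq_of_mul_eq_one_left hss
    have hne1 : s * t ≠ 1 := by
      intro h
      have : s = t := by
        have h2 := eq_inv_of_mul_eq_one_left h
        rwa [hti] at h2
      rw [this] at hnc
      exact hnc rfl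
    have hinv : (s * t)⁻¹ = t * s := by
      rw [mul_inv_rev, hti, hsi]
    have hne2 : orderOf (s * t) ≠ 2 := by
      intro h
      have h3 : (s * t) * (s * t) = 1 := by
        have := pow_orderOf_eq_one (s * t)
        rwa [h, pow_two] at this
      have h4 := inv_eq_of_mul_eq_one_left h3
      rw [hinv] at h4
      exact hnc h4.symm
    simp only [Finset.coe_filter, Finset.mem_filter, Finset.mem_univ, true_and, Set.mem_setOf_eq]
    refine ⟨⟨hne1, hne2⟩, ?_⟩
    rw [hinv, hti]
    calc t * (s * t) * t = t * s * (t * t) := by group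
      _ = t * s := by rw [htt, mul_one]
  · intro g hg
    have hg' : (g ≠ 1 ∧ orderOf g ≠ 2) ∧ t * g * t⁻¹ = g⁻¹ := by simpa using hg
    obtain ⟨⟨hg1, hg2⟩, hinv⟩ := hg'
    rw [hti] at hinv
    have hsq : (g * t) * (g * t) = 1 := by
      calc (g * t) * (g * t) = g * (t * g * t) := by group
        _ = 1 := by rw [hinv]; group
    have hne : g * t ≠ 1 := by
      intro h
      have h2 := eq_inv_of_mul_eq_one_left h
      rw [hti] at h2
      rw [h2] at hg2
      exact hg2 ht
    have hord : orderOf (g * t) = 2 := by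
      apply orderOf_eq_prime
      · rw [pow_two]; exact hsq
      · exact hne
    simp only [Finset.coe_filter, Finset.mem_filter, Finset.mem_univ, true_and, Set.mem_setOf_eq]
    refine ⟨hord, ?_⟩
    intro hc
    -- `g = t g t = g⁻¹`
    have h3 : g = g⁻¹ := by
      rw [← hinv]
      calc g = g * t * t := by rw [mul_assoc, htt, mul_one]
        _ = t * (g * t) := hc
        _ = t * g * t := by group
    apply hg2
    apply orderOf_eq_prime
    · rw [pow_two]
      nth_rewrite 2 [h3]
      group
    · exact hg1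
  · intro s _
    show s * t * t = s
    rw [mul_assoc, htt, mul_one]
  · intro g _
    show g * t * t = g
    rw [mul_assoc, htt, mul_one]

/-- Counting pairs of involutions by their products. -/
theorem pair_count [Fintype G] [DecidableEq G] [Fact (Nat.Prime 2)] (H : Hyp G) (E : Sylow 2 G) :
    ∑ g ∈ Finset.univ.filter (fun g : G => g ≠ 1 ∧ orderOf g ≠ 2), (invS g).card +
      (Finset.univ.filter (fun s : G => orderOf s = 2)).card * (Nat.card (E : Subgroup G) - 1) =
    (Finset.univ.filter (fun s : G => orderOf s = 2)).card * (Finset.univ.filter (fun s : G => orderOf s = 2)).card := by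
  classical
  let T := Finset.univ.filter (fun s : G => orderOf s = 2)
  let A := Finset.univ.filter (fun g : G => g ≠ 1 ∧ orderOf g ≠ 2)
  have h1 : ∑ g ∈ A, (invS g).card = ∑ t ∈ T, (A.filter (fun g => t * g * t⁻¹ = g⁻¹)).card := by
    have := Finset.sum_card_bipartiteAbove_eq_sum_card_bipartiteBelow (s := A) (t := T) (fun g t => t * g * t⁻¹ = g⁻¹)
    simp only [Finset.bipartiteAbove, Finset.bipartiteBelow] at this
    rw [← this]
    refine Finset.sum_congr rfl ?_
    intro g _
    congr 1
    ext t
    simp [mem_invS, T]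
  show ∑ g ∈ A, (invS g).card + T.card * (Nat.card (E : Subgroup G) - 1) = T.card * T.card
  rw [h1]
  have h2 : ∀ t ∈ T, (A.filter (fun g => t * g * t⁻¹ = g⁻¹)).card + (Nat.card (E : Subgroup G) - 1) = T.card := by
    intro t ht
    have ht2 : orderOf t = 2 := by simpa [T] using ht
    have h3 := card_noncomm_inv ht2
    have h4 := card_comm_inv H E ht2
    have h5 := Finset.card_filter_add_card_filter_not (s := T) (fun s => s * t = t * s)
    show (Finset.filter _ A).card + _ = _
    have h6 : (Finset.filter (fun g => t * g * t⁻¹ = g⁻¹) A).card =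
        (Finset.filter (fun s => ¬ s * t = t * s) T).card := h3
    have h7 : (Finset.filter (fun s => s * t = t * s) T).card + 1 = Nat.card (E : Subgroup G) := h4
    omega
  calc ∑ t ∈ T, (A.filter (fun g => t * g * t⁻¹ = g⁻¹)).card + T.card * (Nat.card (E : Subgroup G) - 1)
      = ∑ t ∈ T, ((A.filter (fun g => t * g * t⁻¹ = g⁻¹)).card + (Nat.card (E : Subgroup G) - 1)) := by
        rw [Finset.sum_add_distrib, Finset.sum_const, smul_eq_mul]
    _ = ∑ t ∈ T, T.card := Finset.sum_congr rfl h2
    _ = T.card * T.card := by rw [Finset.sum_const, smul_eq_mul]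

theorem sum_inv_even [Fintype G] [DecidableEq G] (H : Hyp G) {p : ℕ} [Fact p.Prime] (hp2 : p ≠ 2) (P : Sylow p G)
    (hab : Ab (P : Subgroup G)) (h2 : 2 ∣ Nat.card (nm (P : Subgroup G))) :
    ∑ g ∈ Finset.univ.filter (fun g : G => orderOf g = p), (invS g).card =
      (Finset.univ.filter (fun g : G => orderOf g = p)).card * Nat.card (P : Subgroup G) := by
  classical
  apply Finset.sum_const_nat
  intro g hg
  have hg' : orderOf g = p := by simpa using hg
  have hg1 : g ≠ 1 := ne_one_of_order Fact.out hg'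
  have hQ := coe_sy H p g hg'
  have hgQ : g ∈ ((sy H p g hg' : Sylow p G) : Subgroup G) := by
    rw [hQ, mem_centralizer_iff]
    intro x hx
    rw [Set.mem_singleton_iff] at hx
    subst hx
    rfl
  rw [invS_card_even H hp2 (sy H p g hg') (ab_of_sylow P _ hab) hgQ hg1 (by rw [← card_nm_sylow P]; exact h2)]
  exact card_sylow_eq _ _

theorem sum_inv_odd [Fintype G] [DecidableEq G] (H : Hyp G) {p : ℕ} [Fact p.Prime] (P : Sylow p G)
    (hab : Ab (P : Subgroup G)) (h2 : ¬ 2 ∣ Nat.card (nm (P : Subgroup G))) :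
    ∑ g ∈ Finset.univ.filter (fun g : G => orderOf g = p), (invS g).card = 0 := by
  classical
  apply Finset.sum_eq_zero
  intro g hg
  have hg' : orderOf g = p := by simpa using hg
  have hg1 : g ≠ 1 := ne_one_of_order Fact.out hg'
  have hQ := coe_sy H p g hg'
  have hgQ : g ∈ ((sy H p g hg' : Sylow p G) : Subgroup G) := by
    rw [hQ, mem_centralizer_iff]
    intro x hx
    rw [Set.mem_singleton_iff] at hx
    subst hx
    rfl
  exact invS_card_odd H (sy H p g hg') (ab_of_sylow P _ hab) hgQ hg1 (by rw [← card_nm_sylow P]; exact h2)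

/-- Partition of the group by element orders. -/
theorem partition [Fintype G] [DecidableEq G] (H : Hyp G) :
    Nat.card G = 1 + ∑ r ∈ (Nat.card G).primeFactors, (Finset.univ.filter (fun x : G => orderOf x = r)).card := by
  classical
  have hmaps : ∀ x ∈ (Finset.univ : Finset G), orderOf x ∈ insert 1 (Nat.card G).primeFactors := by
    intro x _
    by_cases hx : x = 1
    · simp [hx]
    · rw [Finset.mem_insert]
      right
      rw [Nat.mem_primeFactors]
      exact ⟨H.prime x hx, orderOf_dvd_natCard x, Nat.card_pos.ne'⟩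
  have h1 := Finset.card_eq_sum_card_fiberwise hmaps
  rw [Finset.sum_insert (by simp [Nat.mem_primeFactors, Nat.not_prime_one])] at h1
  have h2 : (Finset.univ.filter (fun x : G => orderOf x = 1)).card = 1 := by
    rw [Finset.card_eq_one]
    refine ⟨1, ?_⟩
    ext x
    simp [orderOf_eq_one_iff]
  rw [h2] at h1
  have h3 : Nat.card G = (Finset.univ : Finset G).card := by rw [Nat.card_eq_fintype_card, Finset.card_univ]
  exact h3.trans h1

end CfsgLib.Rec.AutOrb
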