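import Mathlib
import Cfsg.Agent.Lib.Rec.AutOrb5

/-! Orders of Sylow subgroups; dichotomy. -/

set_option autoImplicit false
set_option linter.unusedVariables false
set_option linter.style.haveILetI false

namespace CfsgLib.Rec.AutOrb

open Subgroup

variable {G : Type*} [Group G]

theorem card_of_pf {n : ℕ} {s : Finset ℕ} (hn : n ≠ 0) (hs : n.primeFactors ⊆ s) :
    n = ∏ r ∈ s, r ^ n.factorization r := by
  conv_lhs => rw [← Nat.factorization_prod_pow_eq_self hn]
  rw [Finsupp.prod, Nat.support_factorization]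
  refine Finset.prod_subset hs ?_
  intro r _ hr
  have : n.factorization r = 0 := by
    rw [← Finsupp.notMem_support_iff, Nat.support_factorization]
    exact hr
  rw [this, pow_zero]

theorem solv_sub {K : Type*} [Group K] [Finite K] {b c : ℕ} (hb : b.Prime) (hc : c.Prime) (hne : b ≠ c)
    (h : (Nat.card K).primeFactors ⊆ {b, c}) : Group.IsSolvable K := by
  have h1 := card_of_pf (Nat.card_pos (α := K)).ne' h
  rw [Finset.prod_pair hne] at h1
  exact CfsgLib.Char.solvable_of_card_eq hb hc _ K rfl ⟨_, _, h1⟩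

theorem no_d1 [Finite G] (hns : ¬ Group.IsSolvable G) (hpf : (Nat.card G).primeFactors.card = 3) {p : ℕ} [Fact p.Prime]
    (P : Sylow p G) (hpd : p ∣ Nat.card G) (hab : Ab (P : Subgroup G))
    (hd : Nat.card (nm (P : Subgroup G)) = Nat.card (P : Subgroup G)) : False := by
  classical
  have hle : (P : Subgroup G) ≤ nm (P : Subgroup G) := le_normalizer
  have heq : (P : Subgroup G) = nm (P : Subgroup G) := Subgroup.eq_of_le_of_card_ge hle hd.le
  have hP : normalizer (P : Set G) ≤ centralizer (P : Set G) := by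
    intro x hx
    have hx' : x ∈ (P : Subgroup G) := by rw [heq]; exact hx
    rw [mem_centralizer_iff]
    intro y hy
    exact hab y hy x hx'
  have hnd : ¬ p ∣ Nat.card (MonoidHom.transferSylow P hP).ker := MonoidHom.not_dvd_card_ker_transferSylow P hP
  have hpmem : p ∈ (Nat.card G).primeFactors := Nat.mem_primeFactors.2 ⟨Fact.out, hpd, Nat.card_pos.ne'⟩
  have hc2 : ((Nat.card G).primeFactors.erase p).card = 2 := by
    rw [Finset.card_erase_of_mem hpmem, hpf]
  obtain ⟨b, c, hbc, hEq⟩ := Finset.card_eq_two.1 hc2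
  have hbm : b ∈ (Nat.card G).primeFactors.erase p := by rw [hEq]; simp
  have hcm : c ∈ (Nat.card G).primeFactors.erase p := by rw [hEq]; simp
  have hb : b.Prime := Nat.prime_of_mem_primeFactors (Finset.mem_of_mem_erase hbm)
  have hc : c.Prime := Nat.prime_of_mem_primeFactors (Finset.mem_of_mem_erase hcm)
  have hsK : Group.IsSolvable (MonoidHom.transferSylow P hP).ker := by
    apply solv_sub hb hc hbc
    intro r hr
    rw [← hEq, Finset.mem_erase]
    have hrp := Nat.prime_of_mem_primeFactors hr
    have hrd := Nat.dvd_of_mem_primeFactors hr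
    refine ⟨?_, Nat.mem_primeFactors.2 ⟨hrp, hrd.trans (Subgroup.card_subgroup_dvd_card _), Nat.card_pos.ne'⟩⟩
    rintro rfl
    exact hnd hrd
  haveI : Group.IsSolvable (MonoidHom.transferSylow P hP).ker := hsK
  haveI : Group.IsSolvable (P : Subgroup G) := by
    letI : CommGroup (P : Subgroup G) := { (inferInstance : Group (P : Subgroup G)) with
      mul_comm := fun a b => Subtype.ext (hab a a.2 b b.2) }
    infer_instance
  exact hns (Group.isSolvable_of_ker_le_range (MonoidHom.transferSylow P hP).ker.subtype (MonoidHom.transferSylow P hP)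
    (by simp))

/-- Basic numbers attached to a prime. -/
theorem index_eq [Finite G] {p : ℕ} [Fact p.Prime] (P : Sylow p G) {d : ℕ}
    (hd : Nat.card (nm (P : Subgroup G)) = Nat.card (P : Subgroup G) * d) {m : ℕ}
    (hm : Nat.card (P : Subgroup G) * m = Nat.card G) :
    Nat.card (Sylow p G) * d = m ∧ ¬ p ∣ d := by
  have h1 := syl_mul P
  rw [hd] at h1
  have hupos : 0 < Nat.card (P : Subgroup G) := Nat.card_pos
  have h2 : Nat.card (Sylow p G) * d = m := by
    apply Nat.eq_of_mul_eq_mul_left hupos
    rw [hm, ← h1]; ring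
  have hidx : (P : Subgroup G).index = m := by
    apply Nat.eq_of_mul_eq_mul_left hupos
    rw [hm]; exact Subgroup.card_mul_index _
  have hnd : ¬ p ∣ m := by rw [← hidx]; exact P.not_dvd_index
  refine ⟨h2, fun h => hnd ?_⟩
  rw [← h2]
  exact h.trans (Dvd.intro_left _ rfl)

theorem dich [Fintype G] [DecidableEq G] (H : Hyp G) (hns : ¬ Group.IsSolvable G)
    (hpf : (Nat.card G).primeFactors.card = 3) {p : ℕ} [Fact p.Prime] (P : Sylow p G) (hpd : p ∣ Nat.card G) {m : ℕ}
    (hm : Nat.card (P : Subgroup G) * m = Nat.card G) :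
    (p ≠ 2 ∧ Ab (P : Subgroup G) ∧ Nat.card (nm (P : Subgroup G)) = Nat.card (P : Subgroup G) * 2) ∨
      3 * (Finset.univ.filter (fun x : G => orderOf x = p)).card + m ≤ Nat.card G := by
  classical
  haveI : Fact (Nat.Prime 2) := ⟨Nat.prime_two⟩
  have hp : p.Prime := Fact.out
  obtain ⟨d, hd⟩ := exists_d P
  obtain ⟨hsd, hndv⟩ := index_eq P hd hm
  have hcnt := card_order H hpd P
  have hupos : 0 < Nat.card (P : Subgroup G) := Nat.card_pos
  have hspos : 0 < Nat.card (Sylow p G) := Nat.card_pos
  have hmpos : 0 < m := by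
    rcases Nat.eq_zero_or_pos m with h0 | h0
    · rw [h0, mul_zero] at hm
      exact absurd hm.symm Nat.card_pos.ne'
    · exact h0
  have hdpos : 0 < d := by
    rcases Nat.eq_zero_or_pos d with h0 | h0
    · rw [h0, mul_zero] at hsd
      omega
    · exact h0
  by_cases hab : Ab (P : Subgroup G)
  · rw [center_card_of_ab hab] at hcnt
    have hd1 : d ≠ 1 := by
      rintro rfl
      exact no_d1 hns hpf P hpd hab (by rw [hd, mul_one])
    by_cases h2 : p ≠ 2 ∧ 2 ∣ d
    · left
      refine ⟨h2.1, hab, ?_⟩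
      obtain ⟨g, hg, hg1, _⟩ := exists_center H P hpd
      rw [hd, index_two H h2.1 P hab ⟨g, hg, hg1⟩ hd h2.2]
    · right
      have hd2 : d ≠ 2 := by
        rintro rfl
        by_cases hp2 : p = 2
        · subst hp2
          exact hndv (dvd_refl _)
        · exact h2 ⟨hp2, dvd_refl _⟩
      have hd3 : 3 ≤ d := by omega
      rw [hcnt, ← hm, ← hsd]
      obtain ⟨a, ha⟩ : ∃ a, Nat.card (P : Subgroup G) = a + 1 := ⟨Nat.card (P : Subgroup G) - 1, by omega⟩
      rw [ha]
      simp only [Nat.add_sub_cancel]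
      generalize Nat.card (Sylow p G) = s at *
      nlinarith [Nat.mul_le_mul_left (s * a) hd3]
  · have hp2 : p ≠ 2 := by
      rintro rfl
      exact hab (two_ab H P)
    right
    have hcb := center_bound P hab
    have hp3 : 3 ≤ p := by
      have := hp.two_le
      omega
    have h9 : 9 ≤ p ^ 2 := by nlinarith
    have hz : 9 * Nat.card (center (P : Subgroup G)) ≤ Nat.card (P : Subgroup G) := by
      have := Nat.mul_le_mul_left (Nat.card (center (P : Subgroup G))) h9
      nlinarith
    have hzpos : 0 < Nat.card (center (P : Subgroup G)) := Nat.card_pos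
    rw [hcnt, ← hm, ← hsd]
    obtain ⟨z, hz'⟩ : ∃ z, Nat.card (center (P : Subgroup G)) = z + 1 := ⟨Nat.card (center (P : Subgroup G)) - 1, by omega⟩
    rw [hz'] at hz ⊢
    simp only [Nat.add_sub_cancel]
    generalize Nat.card (Sylow p G) = s at *
    generalize Nat.card (P : Subgroup G) = u at *
    -- `3 s z + s d ≤ u (s d)`
    have h1 : 3 * z + d ≤ u * d := by nlinarith
    calc 3 * (s * z) + s * d = s * (3 * z + d) := by ring
      _ ≤ s * (u * d) := Nat.mul_le_mul_left s h1
      _ = u * (s * d) := by ring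

end CfsgLib.Rec.AutOrb
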