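import Mathlib
import Cfsg.Agent.Lib.Rec.AutOrb6
import Cfsg.Agent.Lib.Rec.Order60
import Cfsg.Agent.S0494

/-! Main argument: four orbits of automorphisms. -/

set_option autoImplicit false
set_option linter.unusedVariables false
set_option linter.style.haveILetI false

namespace CfsgLib.Rec.AutOrb

open Subgroup

variable {G : Type*} [Group G]

theorem three_card [Finite G] {a b c : ℕ} [Fact a.Prime] [Fact b.Prime] [Fact c.Prime] (hab : a ≠ b) (hac : a ≠ c)
    (hbc : b ≠ c) (hpf : (Nat.card G).primeFactors = {a, b, c}) (A : Sylow a G) (B : Sylow b G) (C : Sylow c G) :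
    Nat.card (A : Subgroup G) * Nat.card (B : Subgroup G) * Nat.card (C : Subgroup G) = Nat.card G := by
  have h1 := card_of_pf (Nat.card_pos (α := G)).ne' (hpf.le)
  rw [Finset.prod_insert (by simp [hab, hac]), Finset.prod_pair hbc] at h1
  have ha : Nat.card (A : Subgroup G) = _ := Sylow.card_eq_multiplicity A
  have hb : Nat.card (B : Subgroup G) = _ := Sylow.card_eq_multiplicity B
  have hc : Nat.card (C : Subgroup G) = _ := Sylow.card_eq_multiplicity C
  rw [ha, hb, hc, mul_assoc]
  exact h1.symm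

theorem exists_t1 [Fintype G] [DecidableEq G] (H : Hyp G) (hns : ¬ Group.IsSolvable G)
    (hpf : (Nat.card G).primeFactors.card = 3) :
    ∃ (p : ℕ) (_ : Fact p.Prime) (P : Sylow p G), p ∣ Nat.card G ∧ p ≠ 2 ∧ Ab (P : Subgroup G) ∧
      Nat.card (nm (P : Subgroup G)) = Nat.card (P : Subgroup G) * 2 := by
  classical
  obtain ⟨a, b, c, hab, hac, hbc, hS⟩ := Finset.card_eq_three.1 hpf
  have hma : a ∈ (Nat.card G).primeFactors := by rw [hS]; simp
  have hmb : b ∈ (Nat.card G).primeFactors := by rw [hS]; simp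
  have hmc : c ∈ (Nat.card G).primeFactors := by rw [hS]; simp
  haveI : Fact a.Prime := ⟨Nat.prime_of_mem_primeFactors hma⟩
  haveI : Fact b.Prime := ⟨Nat.prime_of_mem_primeFactors hmb⟩
  haveI : Fact c.Prime := ⟨Nat.prime_of_mem_primeFactors hmc⟩
  have hda := Nat.dvd_of_mem_primeFactors hma
  have hdb := Nat.dvd_of_mem_primeFactors hmb
  have hdc := Nat.dvd_of_mem_primeFactors hmc
  obtain ⟨A⟩ : Nonempty (Sylow a G) := inferInstance
  obtain ⟨B⟩ : Nonempty (Sylow b G) := inferInstance
  obtain ⟨C⟩ : Nonempty (Sylow c G) := inferInstance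
  have hN := three_card hab hac hbc hS A B C
  have hua : 2 ≤ Nat.card (A : Subgroup G) :=
    (Fact.out : a.Prime).two_le.trans (Nat.le_of_dvd Nat.card_pos (Sylow.dvd_card_of_dvd_card A hda))
  have hub : 2 ≤ Nat.card (B : Subgroup G) :=
    (Fact.out : b.Prime).two_le.trans (Nat.le_of_dvd Nat.card_pos (Sylow.dvd_card_of_dvd_card B hdb))
  have huc : 2 ≤ Nat.card (C : Subgroup G) :=
    (Fact.out : c.Prime).two_le.trans (Nat.le_of_dvd Nat.card_pos (Sylow.dvd_card_of_dvd_card C hdc))
  by_contra hno
  push_neg at hno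
  have h1 := (dich H hns hpf A hda (m := Nat.card (B : Subgroup G) * Nat.card (C : Subgroup G))
    (by rw [← hN]; ring)).resolve_left (fun h => hno a inferInstance A hda h.1 h.2.1 h.2.2)
  have h2 := (dich H hns hpf B hdb (m := Nat.card (A : Subgroup G) * Nat.card (C : Subgroup G))
    (by rw [← hN]; ring)).resolve_left (fun h => hno b inferInstance B hdb h.1 h.2.1 h.2.2)
  have h3 := (dich H hns hpf C hdc (m := Nat.card (A : Subgroup G) * Nat.card (B : Subgroup G))
    (by rw [← hN]; ring)).resolve_left (fun h => hno c inferInstance C hdc h.1 h.2.1 h.2.2)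
  have hpart := partition H
  rw [hS, Finset.sum_insert (by simp [hab, hac]), Finset.sum_pair hbc] at hpart
  have h4 : 4 ≤ Nat.card (B : Subgroup G) * Nat.card (C : Subgroup G) := by nlinarith
  have h5 : 4 ≤ Nat.card (A : Subgroup G) * Nat.card (C : Subgroup G) := by nlinarith
  have h6 : 4 ≤ Nat.card (A : Subgroup G) * Nat.card (B : Subgroup G) := by nlinarith
  omega

theorem t1_cnt [Fintype G] [DecidableEq G] (H : Hyp G) {p : ℕ} [Fact p.Prime] (P : Sylow p G)
    (hab : Ab (P : Subgroup G)) (hP2 : Nat.card (nm (P : Subgroup G)) = Nat.card (P : Subgroup G) * 2)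
    (hpd : p ∣ Nat.card G) {m : ℕ} (hm : Nat.card (P : Subgroup G) * m = Nat.card G) :
    2 * (Finset.univ.filter (fun x : G => orderOf x = p)).card = m * (Nat.card (P : Subgroup G) - 1) := by
  classical
  have hcnt := card_order H hpd P
  rw [center_card_of_ab hab] at hcnt
  have hs := (index_eq P hP2 hm).1
  rw [hcnt, ← hs]
  ring

theorem nonab_bound [Fintype G] [DecidableEq G] (H : Hyp G) {q : ℕ} [Fact q.Prime] (hq2 : q ≠ 2) (Q : Sylow q G)
    (hna : ¬ Ab (Q : Subgroup G)) (hqd : q ∣ Nat.card G) :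
    9 * (Finset.univ.filter (fun x : G => orderOf x = q)).card ≤ Nat.card G := by
  classical
  have hq : q.Prime := Fact.out
  have hcnt := card_order H hqd Q
  have hcb := center_bound Q hna
  have hp3 : 3 ≤ q := by
    have := hq.two_le
    omega
  have h9 : 9 ≤ q ^ 2 := by nlinarith
  have hz : 9 * Nat.card (center (Q : Subgroup G)) ≤ Nat.card (Q : Subgroup G) := by
    have := Nat.mul_le_mul_left (Nat.card (center (Q : Subgroup G))) h9
    nlinarith
  obtain ⟨d, hd⟩ := exists_d Q
  have h1 := syl_mul Q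
  rw [hd] at h1
  have hdpos : 0 < d := by
    rcases Nat.eq_zero_or_pos d with h0 | h0
    · rw [h0] at hd
      have : 0 < Nat.card (nm (Q : Subgroup G)) := Nat.card_pos
      simp only [mul_zero] at hd
      omega
    · exact h0
  rw [hcnt, ← h1]
  have h2 : 9 * (Nat.card (center (Q : Subgroup G)) - 1) ≤ Nat.card (Q : Subgroup G) * d := by
    have : Nat.card (Q : Subgroup G) ≤ Nat.card (Q : Subgroup G) * d := Nat.le_mul_of_pos_right _ hdpos
    omega
  calc 9 * (Nat.card (Sylow q G) * (Nat.card (center (Q : Subgroup G)) - 1))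
      = Nat.card (Sylow q G) * (9 * (Nat.card (center (Q : Subgroup G)) - 1)) := by ring
    _ ≤ _ := Nat.mul_le_mul_left _ h2

theorem sum_A [Fintype G] [DecidableEq G] {p q : ℕ} (hp2 : p ≠ 2) (hq2 : q ≠ 2) (hpq : p ≠ q) (hpp : p.Prime) (hqp : q.Prime) (H : Hyp G)
    (hpf : (Nat.card G).primeFactors = {2, p, q}) (f : G → ℕ) :
    ∑ g ∈ Finset.univ.filter (fun g : G => g ≠ 1 ∧ orderOf g ≠ 2), f g =
      ∑ g ∈ Finset.univ.filter (fun g : G => orderOf g = p), f g +
        ∑ g ∈ Finset.univ.filter (fun g : G => orderOf g = q), f g := by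
  classical
  rw [← Finset.sum_union]
  · refine Finset.sum_congr ?_ (fun _ _ => rfl)
    ext g
    simp only [Finset.mem_filter, Finset.mem_univ, true_and, Finset.mem_union]
    constructor
    · rintro ⟨h1, h2⟩
      have h3 : orderOf g ∈ (Nat.card G).primeFactors :=
        Nat.mem_primeFactors.2 ⟨H.prime g h1, orderOf_dvd_natCard g, Nat.card_pos.ne'⟩
      rw [hpf] at h3
      simp only [Finset.mem_insert, Finset.mem_singleton] at h3
      rcases h3 with h3 | h3 | h3
      · exact absurd h3 h2
      · exact Or.inl h3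
      · exact Or.inr h3
    · rintro (h | h)
      · exact ⟨ne_one_of_order hpp h, by rw [h]; exact hp2⟩
      · exact ⟨ne_one_of_order hqp h, by rw [h]; exact hq2⟩
  · rw [Finset.disjoint_left]
    intro g hg hg'
    have h1 : orderOf g = p := by simpa using hg
    have h2 : orderOf g = q := by simpa using hg'
    exact hpq (h1.symm.trans h2)

theorem final60 [Finite G] (hG : Nat.card G = 60) {r : ℕ} [Fact r.Prime] (R : Sylow r G)
    (hR : Nat.card (R : Subgroup G) = 5) (hR2 : Nat.card (nm (R : Subgroup G)) = 10) :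
    Nonempty (G ≃* alternatingGroup (Fin 5)) := by
  have hs : IsSimpleGroup G := by
    apply CfsgLib.Rec.simple_of_60 hG
    intro K hK hc
    have hcard : Nat.card K = r ^ (Nat.card G).factorization r := by
      rw [hc, ← hR]; exact Sylow.card_eq_multiplicity R
    let K' : Sylow r G := Sylow.ofCard K hcard
    have hcoe : (K' : Subgroup G) = K := Sylow.coe_ofCard K hcard
    have hn : nm (K' : Subgroup G) = ⊤ := by
      rw [hcoe]
      exact normalizer_eq_top_iff.2 hK
    have h1 := card_nm_sylow K' R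
    rw [hn, hR2, Subgroup.card_top, hG] at h1
    omega
  exact Cfsg.Agent.S0494.result hG

/-- `e ≠ 2`. -/
theorem e_ne_two [Finite G] [Fact (Nat.Prime 2)] (H : Hyp G) (E : Sylow 2 G) (he : Nat.card (E : Subgroup G) = 2)
    {d : ℕ} (hd : Nat.card (nm (E : Subgroup G)) = Nat.card (E : Subgroup G) * d) : d ≤ 1 := by
  classical
  have hab := two_ab H E
  obtain ⟨x, hx⟩ := (Nat.card_eq_two_iff' (1 : (E : Subgroup G))).1 he
  have hxne : (x : G) ≠ 1 := by
    have := hx.1
    simpa using this
  have hle : nm (E : Subgroup G) ≤ (E : Subgroup G) := by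
    intro g hg
    rw [← cent_eq H E hab x.2 hxne, mem_centralizer_iff]
    intro y hy
    rw [Set.mem_singleton_iff] at hy
    subst hy
    have hmem : g * (x : G) * g⁻¹ ∈ (E : Subgroup G) := (Subgroup.mem_normalizer_iff.1 hg _).1 x.2
    have hne : g * (x : G) * g⁻¹ ≠ 1 := by
      intro h
      apply hxne
      have := (mul_inv_eq_one.1 h)
      exact mul_left_cancel (this.trans (mul_one g).symm)
    have h2 : (⟨g * (x : G) * g⁻¹, hmem⟩ : (E : Subgroup G)) = x := by
      apply hx.2
      intro h
      exact hne (congrArg Subtype.val h)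
    have h3 : g * (x : G) * g⁻¹ = x := congrArg Subtype.val h2
    rw [mul_inv_eq_iff_eq_mul] at h3
    exact h3.symm
  have h1 : Nat.card (nm (E : Subgroup G)) ≤ Nat.card (E : Subgroup G) := Subgroup.card_le_of_le hle
  rw [hd, he] at h1
  omega

end CfsgLib.Rec.AutOrb
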