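import Mathlib
import Cfsg.Agent.Lib.Rec.AutOrb7

/-! Main argument: four orbits of automorphisms, continued. -/

set_option autoImplicit false
set_option linter.unusedVariables false
set_option linter.style.haveILetI false

namespace CfsgLib.Rec.AutOrb

open Subgroup

variable {G : Type*} [Group G]

theorem ar_pair {I x s c : ℕ} (hI : I = s * x) (h : c + I * x = I * I) : s * x * (s * x - x) = c := by
  subst hI
  rw [Nat.mul_sub]
  omega

theorem ar_s {s x c : ℕ} (hs0 : 0 < s) (hc : 0 < c) (h : s * x * (s * x - x) = c) : 1 < s := by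
  by_contra hn
  have : s = 1 := by omega
  subst this
  simp at h
  omega

theorem final_aux [Fintype G] [DecidableEq G] [Fact (Nat.Prime 2)] (H : Hyp G) {p q : ℕ} [Fact p.Prime] [Fact q.Prime]
    (E : Sylow 2 G) (P : Sylow p G) (Q : Sylow q G)
    (hQ2 : Nat.card (nm (Q : Subgroup G)) = Nat.card (Q : Subgroup G) * 2) {h d : ℕ}
    (hpu : p ∣ Nat.card (P : Subgroup G)) (hqv : q ∣ Nat.card (Q : Subgroup G))
    (hN : Nat.card (E : Subgroup G) * Nat.card (P : Subgroup G) * Nat.card (Q : Subgroup G) = Nat.card G)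
    (he : Nat.card (E : Subgroup G) = 2 * h)
    (hd : Nat.card (nm (E : Subgroup G)) = Nat.card (E : Subgroup G) * d)
    (hsd : Nat.card (Sylow 2 G) * d = Nat.card (P : Subgroup G) * Nat.card (Q : Subgroup G))
    (hdh : d + 1 = 2 * h) (hh : 2 ≤ h)
    (hu : Nat.card (P : Subgroup G) = d) (hv : Nat.card (Q : Subgroup G) = d + 2)
    (hcp : (Finset.univ.filter (fun x : G => orderOf x = p)).card =
      h * Nat.card (Q : Subgroup G) * (Nat.card (P : Subgroup G) - 1))
    (hcq : (Finset.univ.filter (fun x : G => orderOf x = q)).card =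
      h * Nat.card (P : Subgroup G) * (Nat.card (Q : Subgroup G) - 1)) :
    Nonempty (G ≃* alternatingGroup (Fin 5)) := by
  classical
  have hpp : p.Prime := Fact.out
  have hqp : q.Prime := Fact.out
  obtain ⟨k, hk⟩ := IsPGroup.iff_card.1 E.isPGroup'
  obtain ⟨α, hα⟩ := IsPGroup.iff_card.1 P.isPGroup'
  obtain ⟨β, hβ⟩ := IsPGroup.iff_card.1 Q.isPGroup'
  have hα' : Nat.card (P : Subgroup G) = p ^ α := hα
  have hβ' : Nat.card (Q : Subgroup G) = q ^ β := hβ
  have hk' : Nat.card (E : Subgroup G) = 2 ^ k := hk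
  have h3e : ¬ 3 ∣ Nat.card (E : Subgroup G) := by
    rw [hk']
    intro h3
    have := Nat.prime_three.dvd_of_dvd_pow h3
    omega
  have hk2 : 2 ≤ k := by
    by_contra hc
    have h1 : k ≤ 1 := by omega
    have h2 : 2 ^ k ≤ 2 ^ 1 := Nat.pow_le_pow_right (by norm_num) h1
    omega
  have h3 : 3 ∣ d ∨ 3 ∣ d + 2 := by
    have hE : ¬ 3 ∣ d + 1 := by rw [hdh, ← he]; exact h3e
    have hcases : d % 3 = 0 ∨ d % 3 = 1 ∨ d % 3 = 2 := by omega
    rcases hcases with h' | h' | h' <;> omega
  have hthree : 2 ^ k = 4 ∨ 2 ^ k = 8 := by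
    rcases h3 with h3 | h3
    · rw [← hu, hα'] at h3
      have h4 := Nat.prime_three.dvd_of_dvd_pow h3
      have h5 : 3 = p := (Nat.prime_dvd_prime_iff_eq Nat.prime_three hpp).1 h4
      subst h5
      refine three_two (i := α) hk2 (Or.inl ?_)
      rw [← hα', hu, ← hk']
      omega
    · rw [← hv, hβ'] at h3
      have h4 := Nat.prime_three.dvd_of_dvd_pow h3
      have h5 : 3 = q := (Nat.prime_dvd_prime_iff_eq Nat.prime_three hqp).1 h4
      subst h5
      refine three_two (i := β) hk2 (Or.inr ?_)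
      rw [← hβ', hv, ← hk']
      omega
  rcases hthree with h4 | h8
  · -- order 60
    have he4 : Nat.card (E : Subgroup G) = 4 := by rw [hk']; exact h4
    have hd3 : d = 3 := by omega
    subst hd3
    have hG : Nat.card G = 60 := by
      rw [← hN, he4, hu, hv]
    exact final60 hG Q hv (by rw [hQ2, hv])
  · -- order 504
    exfalso
    have he8 : Nat.card (E : Subgroup G) = 8 := by rw [hk']; exact h8
    have hd7 : d = 7 := by omega
    have hh4 : h = 4 := by omega
    subst hd7
    subst hh4
    have hp7 : p = 7 := (Nat.prime_dvd_prime_iff_eq hpp (by norm_num)).1 (by rw [hu] at hpu; exact hpu)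
    have hq3 : q = 3 := by
      rw [hv] at hqv
      have : q ∣ 3 ^ 2 := hqv
      exact (Nat.prime_dvd_prime_iff_eq hqp Nat.prime_three).1 (hqp.dvd_of_dvd_pow this)
    subst hp7
    subst hq3
    rw [hu, hv] at hsd hcp hcq
    refine no504 H (by omega) ?_ ?_ ?_
    · intro E'
      rw [card_nm_sylow E' E, hd, he8]
    · rw [hcp]; norm_num
    · rw [hcq]; norm_num

theorem main_aux [Fintype G] [DecidableEq G] [Fact (Nat.Prime 2)] (H : Hyp G) (hns : ¬ Group.IsSolvable G)
    (hpfc : (Nat.card G).primeFactors.card = 3) {p q : ℕ} [Fact p.Prime] [Fact q.Prime]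
    (hp2 : p ≠ 2) (hq2 : q ≠ 2) (hpq : p ≠ q) (hpf : (Nat.card G).primeFactors = {2, p, q})
    (E : Sylow 2 G) (P : Sylow p G) (Q : Sylow q G) (hPab : Ab (P : Subgroup G))
    (hP2 : Nat.card (nm (P : Subgroup G)) = Nat.card (P : Subgroup G) * 2) :
    Nonempty (G ≃* alternatingGroup (Fin 5)) := by
  classical
  have hpp : p.Prime := Fact.out
  have hqp : q.Prime := Fact.out
  have hN := three_card (Ne.symm hp2) (Ne.symm hq2) hpq hpf E P Q
  have hdvd2 : 2 ∣ Nat.card G := Nat.dvd_of_mem_primeFactors (by rw [hpf]; simp)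
  have hdvdp : p ∣ Nat.card G := Nat.dvd_of_mem_primeFactors (by rw [hpf]; simp)
  have hdvdq : q ∣ Nat.card G := Nat.dvd_of_mem_primeFactors (by rw [hpf]; simp)
  have he2 : 2 ∣ Nat.card (E : Subgroup G) := Sylow.dvd_card_of_dvd_card E hdvd2
  have hpu : p ∣ Nat.card (P : Subgroup G) := Sylow.dvd_card_of_dvd_card P hdvdp
  have hqv : q ∣ Nat.card (Q : Subgroup G) := Sylow.dvd_card_of_dvd_card Q hdvdq
  have hp3 : 3 ≤ p := by
    have := hpp.two_le
    omega
  have hq3 : 3 ≤ q := by
    have := hqp.two_le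
    omega
  have hu3 : 3 ≤ Nat.card (P : Subgroup G) := hp3.trans (Nat.le_of_dvd Nat.card_pos hpu)
  have hv3 : 3 ≤ Nat.card (Q : Subgroup G) := hq3.trans (Nat.le_of_dvd Nat.card_pos hqv)
  obtain ⟨h, hh⟩ := he2
  obtain ⟨d, hd⟩ := exists_d E
  have hm2 : Nat.card (E : Subgroup G) * (Nat.card (P : Subgroup G) * Nat.card (Q : Subgroup G)) = Nat.card G := by
    rw [← hN]; ring
  obtain ⟨hsd, hnd⟩ := index_eq E hd hm2
  have hcnt2 := card_order H hdvd2 E
  rw [center_card_of_ab (two_ab H E)] at hcnt2
  have hT2E := (dich H hns hpfc E hdvd2 hm2).resolve_left (fun h => h.1 rfl)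
  have hd1 : d ≠ 1 := by
    rintro rfl
    exact no_d1 hns hpfc E hdvd2 (two_ab H E) (by rw [hd, mul_one])
  have huvpos : 0 < Nat.card (P : Subgroup G) * Nat.card (Q : Subgroup G) := Nat.mul_pos Nat.card_pos Nat.card_pos
  have hdpos : 0 < d := by
    rcases Nat.eq_zero_or_pos d with h0 | h0
    · rw [h0, mul_zero] at hsd
      omega
    · exact h0
  have hd3 : 3 ≤ d := by omega
  have hdo : Odd d := Nat.odd_iff.2 (by omega)
  have hepos : 0 < Nat.card (E : Subgroup G) := Nat.card_pos
  have hh2 : 2 ≤ h := by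
    by_contra hc
    have h1 : h = 1 := by omega
    subst h1
    have := e_ne_two H E hh hd
    omega
  have hcntp : (Finset.univ.filter (fun x : G => orderOf x = p)).card =
      h * Nat.card (Q : Subgroup G) * (Nat.card (P : Subgroup G) - 1) := by
    have h1 := t1_cnt H P hPab hP2 hdvdp (m := Nat.card (E : Subgroup G) * Nat.card (Q : Subgroup G))
      (by rw [← hN]; ring)
    rw [hh] at h1
    have h2 : 2 * (Finset.univ.filter (fun x : G => orderOf x = p)).card =
        2 * (h * Nat.card (Q : Subgroup G) * (Nat.card (P : Subgroup G) - 1)) := by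
      rw [h1]; ring
    exact Nat.eq_of_mul_eq_mul_left (by norm_num) h2
  have hpart := partition H
  rw [hpf, Finset.sum_insert (by simp [Ne.symm hp2, Ne.symm hq2]), Finset.sum_pair hpq] at hpart
  have hpc := pair_count H E
  rw [sum_A hp2 hq2 hpq hpp hqp H hpf, sum_inv_even H hp2 P hPab (by rw [hP2]; exact Dvd.intro_left _ rfl)] at hpc
  have hspos : 0 < Nat.card (Sylow 2 G) := Nat.card_pos
  have hx : Nat.card (E : Subgroup G) - 1 = 2 * h - 1 := by rw [hh]
  rw [hx] at hcnt2 hpc
  by_cases hQab : Ab (Q : Subgroup G)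
  · by_cases hQ2 : 2 ∣ Nat.card (nm (Q : Subgroup G))
    · -- both odd primes are of the first type
      obtain ⟨dq, hdq⟩ := exists_d Q
      obtain ⟨β, hβ⟩ := IsPGroup.iff_card.1 Q.isPGroup'
      obtain ⟨α, hα⟩ := IsPGroup.iff_card.1 P.isPGroup'
      have hα' : Nat.card (P : Subgroup G) = p ^ α := hα
      have hβ' : Nat.card (Q : Subgroup G) = q ^ β := hβ
      have hvo : ¬ 2 ∣ Nat.card (Q : Subgroup G) := by
        rw [hβ']
        intro h2
        have h3 := Nat.prime_two.dvd_of_dvd_pow h2
        have h4 := (Nat.prime_dvd_prime_iff_eq Nat.prime_two hqp).1 h3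
        exact hq2 h4.symm
      have h2dq : 2 ∣ dq := by
        rw [hdq] at hQ2
        exact ((Nat.Prime.dvd_mul Nat.prime_two).1 hQ2).resolve_left hvo
      obtain ⟨gz, hgz, hgz1, _⟩ := exists_center H Q hdvdq
      have hdq2 := index_two H hq2 Q hQab ⟨gz, hgz, hgz1⟩ hdq h2dq
      have hQ2' : Nat.card (nm (Q : Subgroup G)) = Nat.card (Q : Subgroup G) * 2 := by rw [hdq, hdq2]
      have hcntq : (Finset.univ.filter (fun x : G => orderOf x = q)).card =
          h * Nat.card (P : Subgroup G) * (Nat.card (Q : Subgroup G) - 1) := by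
        have h1 := t1_cnt H Q hQab hQ2' hdvdq (m := Nat.card (E : Subgroup G) * Nat.card (P : Subgroup G))
          (by rw [← hN]; ring)
        rw [hh] at h1
        have h2 : 2 * (Finset.univ.filter (fun x : G => orderOf x = q)).card =
            2 * (h * Nat.card (P : Subgroup G) * (Nat.card (Q : Subgroup G) - 1)) := by
          rw [h1]; ring
        exact Nat.eq_of_mul_eq_mul_left (by norm_num) h2
      rw [sum_inv_even H hq2 Q hQab hQ2] at hpc
      have hpair := ar_pair hcnt2 hpc
      rw [hcntp, hcntq] at hpair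
      have hcpos : 0 < h * Nat.card (Q : Subgroup G) * (Nat.card (P : Subgroup G) - 1) * Nat.card (P : Subgroup G) +
          h * Nat.card (P : Subgroup G) * (Nat.card (Q : Subgroup G) - 1) * Nat.card (Q : Subgroup G) := by
        have : 0 < h * Nat.card (Q : Subgroup G) * (Nat.card (P : Subgroup G) - 1) * Nat.card (P : Subgroup G) :=
          Nat.mul_pos (Nat.mul_pos (Nat.mul_pos (by omega) (by omega)) (by omega)) (by omega)
        omega
      have hs1 := ar_s hspos hcpos hpair
      have hpart2 : 2 * h * Nat.card (P : Subgroup G) * Nat.card (Q : Subgroup G) =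
          Nat.card (Sylow 2 G) * (2 * h - 1) +
            h * Nat.card (Q : Subgroup G) * (Nat.card (P : Subgroup G) - 1) +
            h * Nat.card (P : Subgroup G) * (Nat.card (Q : Subgroup G) - 1) + 1 := by
        rw [hh] at hN
        rw [hN, hpart, hcnt2, hcntp, hcntq]
        ring
      obtain ⟨hd', heq⟩ := arith_two hh2 hs1 hsd hpart2 hpair (by omega) (by omega) (by omega)
      have hdh : d + 1 = 2 * h := by omega
      have hfr := frob_w H E hpp hqp hpq (α := α) (β := β) hd (by rw [← hα', ← hβ', ← hsd]; exact Dvd.intro_left _ rfl)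
        (by omega) (by omega)
      have hdd : d ∣ Nat.card (P : Subgroup G) * Nat.card (Q : Subgroup G) := by
        rw [← hsd]; exact Dvd.intro_left _ rfl
      by_cases hqd : q ∣ d
      · have hpd : ¬ p ∣ d := fun h' => hfr ⟨h', hqd⟩
        have hc : Nat.Coprime d (Nat.card (P : Subgroup G)) := by
          rw [hα']
          exact Nat.Coprime.pow_right _ ((Nat.Prime.coprime_iff_not_dvd hpp).2 hpd).symm
        have hdv : d ∣ Nat.card (Q : Subgroup G) := hc.dvd_of_dvd_mul_left hdd
        obtain ⟨h1, h2⟩ := arith_final hh2 hdh hdv hv3 hu3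
          (by rw [add_comm, mul_comm (Nat.card (Q : Subgroup G))]; exact heq)
        refine final_aux H E Q P hP2 hqv hpu (by rw [← hN]; ring) hh hd
          (by rw [hsd]; ring) hdh hh2 h1 h2 hcntq hcntp
      · have hc : Nat.Coprime d (Nat.card (Q : Subgroup G)) := by
          rw [hβ']
          exact Nat.Coprime.pow_right _ ((Nat.Prime.coprime_iff_not_dvd hqp).2 hqd).symm
        have hdu : d ∣ Nat.card (P : Subgroup G) := hc.dvd_of_dvd_mul_right hdd
        obtain ⟨h1, h2⟩ := arith_final hh2 hdh hdu hu3 hv3 heq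
        exact final_aux H E P Q hQ2' hpu hqv hN hh hd hsd hdh hh2 h1 h2 hcntp hcntq
    · exfalso
      rw [sum_inv_odd H Q hQab hQ2] at hpc
      have hT2Q := (dich H hns hpfc Q hdvdq (m := Nat.card (E : Subgroup G) * Nat.card (P : Subgroup G))
        (by rw [← hN]; ring)).resolve_left (fun h' => hQ2 (by rw [h'.2.2]; exact Dvd.intro_left _ rfl))
      have hpair := ar_pair hcnt2 (c := (Finset.univ.filter (fun x : G => orderOf x = p)).card * Nat.card (P : Subgroup G))
        (by simpa using hpc)
      rw [hcntp] at hpair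
      have hcq3 : 3 * (Finset.univ.filter (fun x : G => orderOf x = q)).card ≤
          2 * (h * Nat.card (P : Subgroup G) * (Nat.card (Q : Subgroup G) - 1)) := by
        obtain ⟨a, ha⟩ : ∃ a, Nat.card (Q : Subgroup G) = a + 1 := ⟨Nat.card (Q : Subgroup G) - 1, by omega⟩
        rw [hh] at hN hT2Q
        rw [← hN] at hT2Q
        rw [ha] at hT2Q ⊢
        simp only [Nat.add_sub_cancel]
        have e1 : 2 * h * Nat.card (P : Subgroup G) * (a + 1) = 2 * (h * Nat.card (P : Subgroup G) * a) +
            2 * h * Nat.card (P : Subgroup G) := by ring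
        omega
      have hbound : 3 * (2 * h * Nat.card (P : Subgroup G) * Nat.card (Q : Subgroup G)) ≤
          3 * (Nat.card (Sylow 2 G) * (2 * h - 1)) + 3 * (h * Nat.card (Q : Subgroup G) * (Nat.card (P : Subgroup G) - 1)) +
            2 * (h * Nat.card (P : Subgroup G) * (Nat.card (Q : Subgroup G) - 1)) + 3 := by
        rw [hh] at hN
        rw [hN, hpart, hcnt2, hcntp]
        omega
      exact arith_one hh2 hspos hsd hd3 hdo hu3 hv3 hbound hpair
  · -- a nonabelian Sylow subgroup
    exfalso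
    have h1 := nonab_bound H hq2 Q hQab hdvdq
    have h2 : 2 * (Finset.univ.filter (fun x : G => orderOf x = p)).card ≤ Nat.card G := by
      have h3 := t1_cnt H P hPab hP2 hdvdp (m := Nat.card (E : Subgroup G) * Nat.card (Q : Subgroup G))
        (by rw [← hN]; ring)
      rw [h3]
      have h4 : Nat.card (E : Subgroup G) * Nat.card (Q : Subgroup G) * (Nat.card (P : Subgroup G) - 1) ≤
          Nat.card (E : Subgroup G) * Nat.card (Q : Subgroup G) * Nat.card (P : Subgroup G) :=
        Nat.mul_le_mul_left _ (Nat.sub_le _ _)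
      calc _ ≤ _ := h4
        _ = Nat.card G := by rw [← hN]; ring
    have h3 : 36 ≤ Nat.card G := by
      rw [← hN, hh]
      have : 4 ≤ 2 * h := by omega
      calc 36 = 4 * 3 * 3 := by norm_num
        _ ≤ _ := Nat.mul_le_mul (Nat.mul_le_mul this hu3) hv3
    omega

theorem hyp_of_four [Finite G] (hns : ¬ Group.IsSolvable G)
    (h4 : Nat.card (MulAction.orbitRel.Quotient (MulAut G) G) = 4) :
    Hyp G ∧ (Nat.card G).primeFactors.card = 3 := by
  classical
  letI : Fintype G := Fintype.ofFinite G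
  -- at least three primes
  have hge : 3 ≤ (Nat.card G).primeFactors.card := by
    by_contra hc
    have hle : (Nat.card G).primeFactors.card ≤ 2 := by omega
    have hsub : (Nat.card G).primeFactors ⊆ (Nat.card G).primeFactors ∪ {2, 3} := Finset.subset_union_left
    have hle2 : 2 ≤ ((Nat.card G).primeFactors ∪ {2, 3}).card := by
      have h1 : ({2, 3} : Finset ℕ) ⊆ (Nat.card G).primeFactors ∪ {2, 3} := Finset.subset_union_right
      have h2 := Finset.card_le_card h1
      have h3 : ({2, 3} : Finset ℕ).card = 2 := by decide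
      omega
    obtain ⟨T, hT1, hT2, hT3⟩ := Finset.exists_subsuperset_card_eq hsub hle hle2
    obtain ⟨b, c, hbc, hT⟩ := Finset.card_eq_two.1 hT3
    have hprime : ∀ r ∈ T, r.Prime := by
      intro r hr
      rcases Finset.mem_union.1 (hT2 hr) with h | h
      · exact Nat.prime_of_mem_primeFactors h
      · simp only [Finset.mem_insert, Finset.mem_singleton] at h
        rcases h with rfl | rfl
        · exact Nat.prime_two
        · exact Nat.prime_three
    have hb := hprime b (by rw [hT]; simp)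
    have hc' := hprime c (by rw [hT]; simp)
    exact hns (solv_sub hb hc' hbc (by rw [← hT]; exact hT1))
  -- order is constant on orbits
  have hinv : ∀ (a b : G), (MulAction.orbitRel (MulAut G) G) a b → orderOf a = orderOf b := by
    intro a b hab
    obtain ⟨φ, rfl⟩ := MulAction.mem_orbit_iff.1 (MulAction.orbitRel_apply.1 hab)
    exact MulEquiv.orderOf_eq φ b
  let ord : MulAction.orbitRel.Quotient (MulAut G) G → ℕ := Quotient.lift orderOf hinv
  have hord : ∀ x : G, ord (Quotient.mk'' x) = orderOf x := fun x => rfl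
  have hex : ∀ r ∈ insert 1 (Nat.card G).primeFactors, ∃ x : G, orderOf x = r := by
    intro r hr
    rcases Finset.mem_insert.1 hr with rfl | hr
    · exact ⟨1, orderOf_one⟩
    · haveI : Fact r.Prime := ⟨Nat.prime_of_mem_primeFactors hr⟩
      exact exists_prime_orderOf_dvd_card' r (Nat.dvd_of_mem_primeFactors hr)
  choose! x hx using hex
  let S := insert 1 (Nat.card G).primeFactors
  have hSc : S.card = (Nat.card G).primeFactors.card + 1 :=
    Finset.card_insert_of_notMem (by simp [Nat.mem_primeFactors, Nat.not_prime_one])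
  let ι : S → MulAction.orbitRel.Quotient (MulAut G) G := fun r => Quotient.mk'' (x r)
  have hι : Function.Injective ι := by
    intro r r' h
    apply Subtype.ext
    have h1 := congrArg ord h
    simp only [ι, hord] at h1
    rwa [hx _ r.2, hx _ r'.2] at h1
  haveI : Finite (MulAction.orbitRel.Quotient (MulAut G) G) := inferInstance
  have hle := Nat.card_le_card_of_injective ι hι
  rw [h4, Nat.card_eq_fintype_card, Fintype.card_coe, hSc] at hle
  have hc3 : (Nat.card G).primeFactors.card = 3 := by omega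
  have hsurj : Function.Surjective ι := by
    apply (Function.Injective.bijective_of_nat_card_le hι ?_).2
    rw [h4, Nat.card_eq_fintype_card, Fintype.card_coe, hSc]
    omega
  have hmk : ∀ g : G, ∃ hr : orderOf g ∈ S, Quotient.mk'' g = ι ⟨orderOf g, hr⟩ := by
    intro g
    obtain ⟨r, hr⟩ := hsurj (Quotient.mk'' g)
    have h1 := congrArg ord hr
    simp only [ι, hord] at h1
    rw [hx _ r.2] at h1
    have h2 : orderOf g = r := h1.symm
    have h3 : orderOf g ∈ S := by rw [h2]; exact r.2
    refine ⟨h3, ?_⟩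
    rw [← hr]
    congr 2
    exact Subtype.ext h1
  refine ⟨⟨?_, ?_⟩, hc3⟩
  · intro g hg
    obtain ⟨hr, _⟩ := hmk g
    rcases Finset.mem_insert.1 hr with h1 | h1
    · exact absurd (orderOf_eq_one_iff.1 h1) hg
    · exact Nat.prime_of_mem_primeFactors h1
  · intro a b hab
    obtain ⟨hra, ha⟩ := hmk a
    obtain ⟨hrb, hb⟩ := hmk b
    have h1 : (Quotient.mk'' a : MulAction.orbitRel.Quotient (MulAut G) G) = Quotient.mk'' b := by
      rw [ha, hb]
      congr 2
    have h2 := Quotient.eq''.1 h1
    obtain ⟨φ, hφ⟩ := MulAction.mem_orbit_iff.1 (MulAction.orbitRel_apply.1 h2)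
    refine ⟨φ⁻¹, ?_⟩
    show φ⁻¹ • a = b
    rw [← hφ, inv_smul_smul]

theorem main [Finite G] (hns : ¬ Group.IsSolvable G)
    (h4 : Nat.card (MulAction.orbitRel.Quotient (MulAut G) G) = 4) :
    Nonempty (G ≃* alternatingGroup (Fin 5)) := by
  classical
  letI : Fintype G := Fintype.ofFinite G
  haveI : Fact (Nat.Prime 2) := ⟨Nat.prime_two⟩
  obtain ⟨H, hc⟩ := hyp_of_four hns h4
  obtain ⟨p, hpF, P, hpd, hp2, hPab, hP2⟩ := exists_t1 H hns hc
  haveI := hpF
  have hpp : p.Prime := hpF.out
  have h2d : 2 ∣ Nat.card G := by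
    have h1 : 2 ∣ Nat.card (nm (P : Subgroup G)) := by rw [hP2]; exact Dvd.intro_left _ rfl
    exact h1.trans (Subgroup.card_subgroup_dvd_card _)
  have h2m : 2 ∈ (Nat.card G).primeFactors := Nat.mem_primeFactors.2 ⟨Nat.prime_two, h2d, Nat.card_pos.ne'⟩
  have hpm : p ∈ (Nat.card G).primeFactors := Nat.mem_primeFactors.2 ⟨hpp, hpd, Nat.card_pos.ne'⟩
  have hpm' : p ∈ (Nat.card G).primeFactors.erase 2 := Finset.mem_erase.2 ⟨hp2, hpm⟩
  have hc1 : (((Nat.card G).primeFactors.erase 2).erase p).card = 1 := by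
    rw [Finset.card_erase_of_mem hpm', Finset.card_erase_of_mem h2m, hc]
  obtain ⟨q, hq⟩ := Finset.card_eq_one.1 hc1
  have hqm : q ∈ ((Nat.card G).primeFactors.erase 2).erase p := by rw [hq]; simp
  have hqp' : q ≠ p := (Finset.mem_erase.1 hqm).1
  have hq2 : q ≠ 2 := (Finset.mem_erase.1 (Finset.mem_erase.1 hqm).2).1
  have hqm' : q ∈ (Nat.card G).primeFactors := (Finset.mem_erase.1 (Finset.mem_erase.1 hqm).2).2
  haveI : Fact q.Prime := ⟨Nat.prime_of_mem_primeFactors hqm'⟩
  have hpf : (Nat.card G).primeFactors = {2, p, q} := by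
    rw [← hq, Finset.insert_erase hpm', Finset.insert_erase h2m]
  obtain ⟨E⟩ : Nonempty (Sylow 2 G) := inferInstance
  obtain ⟨Q⟩ : Nonempty (Sylow q G) := inferInstance
  exact main_aux H hns hc hp2 hq2 (Ne.symm hqp') hpf E P Q hPab hP2

end CfsgLib.Rec.AutOrb
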