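import Mathlib

/-! Three orbits of automorphisms: the linear algebra of a fixed point free automorphism
of prime order normalized by a transitive group. -/

set_option autoImplicit false
set_option linter.unusedVariables false
set_option linter.style.haveILetI false
set_option linter.unusedSectionVars false
set_option linter.flexible false

namespace CfsgLib.Rec.AutThree

open Polynomial

variable {p q : ℕ} [Fact p.Prime] {V : Type*} [AddCommGroup V] [Module (ZMod p) V]

theorem map_aeval_pow {T T' : Module.End (ZMod p) V} {A : V →ₗ[ZMod p] V}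
    (h : ∀ w, A (T w) = T' (A w)) (n : ℕ) (v : V) : A ((T ^ n) v) = (T' ^ n) (A v) := by
  induction n generalizing v with
  | zero => simp
  | succ n ih =>
    rw [pow_succ, pow_succ, Module.End.mul_apply, Module.End.mul_apply, ih, h]

theorem map_aeval {T T' : Module.End (ZMod p) V} {A : V →ₗ[ZMod p] V}
    (h : ∀ w, A (T w) = T' (A w)) (g : (ZMod p)[X]) (v : V) :
    A (aeval T g v) = aeval T' g (A v) := by
  induction g using Polynomial.induction_on' with
  | add f g hf hg =>
    simp only [map_add, LinearMap.add_apply, hf, hg]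
  | monomial n c =>
    simp only [aeval_monomial, Module.End.mul_apply, Module.algebraMap_end_apply, map_smul]
    rw [map_aeval_pow h]

/-- The cyclic submodule, as a set. -/
def W (T : Module.End (ZMod p) V) (v : V) : Set V := Set.range (fun g : (ZMod p)[X] => aeval T g v)

theorem mem_W_self (T : Module.End (ZMod p) V) (v : V) : v ∈ W T v := ⟨1, by simp⟩

theorem aeval_mul_apply (T : Module.End (ZMod p) V) (f g : (ZMod p)[X]) (v : V) :
    aeval T (f * g) v = aeval T f (aeval T g v) := by
  rw [map_mul, Module.End.mul_apply]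

theorem aeval_comm_apply (T : Module.End (ZMod p) V) (f g : (ZMod p)[X]) (v : V) :
    aeval T f (aeval T g v) = aeval T g (aeval T f v) := by
  rw [← aeval_mul_apply, ← aeval_mul_apply, mul_comm]

section const
variable [Finite V] {T : Module.End (ZMod p) V}
  (hc : ∀ u v : V, u ≠ 0 → v ≠ 0 → (W T u).ncard = (W T v).ncard)
include hc

theorem back {g : (ZMod p)[X]} {u : V} (hu : aeval T g u ≠ 0) :
    ∃ h : (ZMod p)[X], aeval T h (aeval T g u) = u := by
  have hu0 : u ≠ 0 := by
    rintro rfl
    exact hu (map_zero _)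
  have hsub : W T (aeval T g u) ⊆ W T u := by
    rintro x ⟨h, rfl⟩
    exact ⟨h * g, aeval_mul_apply T h g u⟩
  have hcard := hc _ _ hu hu0
  have h1 : W T (aeval T g u) = W T u :=
    Set.eq_of_subset_of_ncard_le hsub hcard.ge (Set.toFinite _)
  have h2 : u ∈ W T (aeval T g u) := by
    rw [h1]
    exact mem_W_self T u
  obtain ⟨h, hh⟩ := h2
  exact ⟨h, hh⟩

theorem dich (g : (ZMod p)[X]) :
    (∀ v, aeval T g v = 0) ∨ (∀ v, aeval T g v = 0 → v = 0) := by
  by_contra hcon
  push Not at hcon
  obtain ⟨⟨u, hu⟩, ⟨v, hv, hv0⟩⟩ := hcon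
  have hw : aeval T g (u + v) ≠ 0 := by
    rw [map_add, hv, add_zero]
    exact hu
  obtain ⟨h, hh⟩ := back hc hw
  obtain ⟨e, he⟩ := back hc hu
  rw [map_add, hv, add_zero] at hh
  -- `δ = h g - 1`
  have hδ : aeval T (h * g - 1) u = v := by
    rw [map_sub, LinearMap.sub_apply, aeval_mul_apply, hh, map_one]
    simp
  apply hv0
  rw [← hδ, ← he]
  rw [aeval_comm_apply T (h * g - 1) e, aeval_comm_apply T (h * g - 1) g, hδ, hv, map_zero]

end const

theorem natCast_ne_zero_of_ne {r s : ℕ} [Fact r.Prime] (hs : s.Prime) (hne : r ≠ s) :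
    (s : ZMod r) ≠ 0 := by
  rw [Ne, ZMod.natCast_eq_zero_iff]
  intro h
  exact hne ((Nat.prime_dvd_prime_iff_eq Fact.out hs).1 h)

theorem order_main [Fact q.Prime] [Finite V] [Nontrivial V] (hne : p ≠ q) (T : Module.End (ZMod p) V) (hT : T ^ q = 1)
    (hfix : ∀ v, T v = v → v = 0)
    (hA : ∀ u v : V, u ≠ 0 → v ≠ 0 → ∃ (A : V →ₗ[ZMod p] V) (k : ℕ),
      Function.Injective A ∧ A u = v ∧ ∀ w, A (T w) = (T ^ k) (A w))
    (hB : ∀ k : ℕ, 0 < k → k < q → ∃ A : V →ₗ[ZMod p] V,
      Function.Surjective A ∧ ∀ w, A (T w) = (T ^ k) (A w)) :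
    orderOf (p : ZMod q) = q - 1 := by
  classical
  haveI : Module.Finite (ZMod p) V := Module.Finite.of_finite
  have hpp : p.Prime := Fact.out
  have hqp : q.Prime := Fact.out
  -- constant cardinality of cyclic submodules
  have hle : ∀ u v : V, u ≠ 0 → v ≠ 0 → (W T u).ncard ≤ (W T v).ncard := by
    intro u v hu hv
    obtain ⟨A, k, hinj, hAu, hAT⟩ := hA u v hu hv
    have hsub : A '' (W T u) ⊆ W T v := by
      rintro x ⟨y, ⟨g, rfl⟩, rfl⟩
      refine ⟨g.comp (X ^ k), ?_⟩
      show aeval T (g.comp (X ^ k)) v = A (aeval T g u)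
      rw [map_aeval hAT, hAu, aeval_comp]
      simp
    calc (W T u).ncard = (A '' (W T u)).ncard := (Set.ncard_image_of_injective _ hinj).symm
      _ ≤ (W T v).ncard := Set.ncard_le_ncard hsub (Set.toFinite _)
  have hc : ∀ u v : V, u ≠ 0 → v ≠ 0 → (W T u).ncard = (W T v).ncard :=
    fun u v hu hv => le_antisymm (hle u v hu hv) (hle v u hv hu)
  have hdich := dich hc
  have hint : IsIntegral (ZMod p) T := IsIntegral.of_finite (ZMod p) T
  set m := minpoly (ZMod p) T with hm
  have hmon : m.Monic := minpoly.monic hint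
  have hmT : aeval T m = 0 := minpoly.aeval (ZMod p) T
  have hdvd : ∀ g : (ZMod p)[X], aeval T g = 0 → m ∣ g := fun g hg => minpoly.dvd (ZMod p) T hg
  have hzero : ∀ g : (ZMod p)[X], (∀ v, aeval T g v = 0) → aeval T g = 0 := by
    intro g hg
    ext1 v
    exact hg v
  have hmirr : Irreducible m := by
    refine ⟨minpoly.not_isUnit (ZMod p) T, ?_⟩
    intro a b hab
    rcases hdich a with h | h
    · right
      obtain ⟨c, hc'⟩ := hdvd a (hzero a h)
      have h2 : m * (c * b) = m * 1 := by
        rw [mul_one, ← mul_assoc, ← hc', ← hab]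
      have h3 := mul_left_cancel₀ hmon.ne_zero h2
      exact isUnit_iff_exists_inv.2 ⟨c, by rw [mul_comm]; exact h3⟩
    · left
      have hb : aeval T b = 0 := by
        apply hzero
        intro v
        apply h
        rw [← aeval_mul_apply, ← hab, hmT]
        rfl
      obtain ⟨c, hc'⟩ := hdvd b hb
      have h2 : m * (a * c) = m * 1 := by
        rw [mul_one]
        calc m * (a * c) = a * (m * c) := by ring
          _ = a * b := by rw [← hc']
          _ = m := hab.symm
      have h3 := mul_left_cancel₀ hmon.ne_zero h2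
      exact isUnit_iff_exists_inv.2 ⟨c, h3⟩
  -- the cyclotomic polynomial vanishes
  set Φ := cyclotomic q (ZMod p) with hΦ
  have hΦ0 : Φ ≠ 0 := cyclotomic_ne_zero q (ZMod p)
  have hΦT : aeval T Φ = 0 := by
    apply hzero
    intro v
    apply hfix
    have h1 : ((X : (ZMod p)[X]) - 1) * Φ = X ^ q - 1 := by
      rw [mul_comm]
      exact cyclotomic_prime_mul_X_sub_one (ZMod p) q
    have h2 : aeval T (((X : (ZMod p)[X]) - 1) * Φ) v = 0 := by
      rw [h1]
      simp [hT]
    rw [aeval_mul_apply] at h2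
    simp only [map_sub, aeval_X, map_one, LinearMap.sub_apply, Module.End.one_apply] at h2
    exact sub_eq_zero.1 h2
  have hmΦ : m ∣ Φ := hdvd Φ hΦT
  -- the root in the field
  haveI : Fact (Irreducible m) := ⟨hmirr⟩
  let L := AdjoinRoot m
  let α : L := AdjoinRoot.root m
  have hroot : ∀ g : (ZMod p)[X], m ∣ g → aeval α g = 0 := by
    intro g hg
    rw [AdjoinRoot.aeval_eq]
    exact (AdjoinRoot.mk_eq_zero).2 hg
  have hαq : α ^ q = 1 := by
    have h1 : m ∣ X ^ q - 1 := by
      rw [← cyclotomic_prime_mul_X_sub_one (ZMod p) q]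
      exact Dvd.dvd.mul_right hmΦ _
    have h2 := hroot _ h1
    simp only [map_sub, map_pow, aeval_X, map_one] at h2
    exact sub_eq_zero.1 h2
  have hα1 : α ≠ 1 := by
    intro h
    have h1 := hroot Φ hmΦ
    rw [h] at h1
    have h2 : aeval (1 : L) Φ = algebraMap (ZMod p) L (eval 1 Φ) := by
      have := aeval_algebraMap_apply_eq_algebraMap_eval (A := L) (1 : ZMod p) Φ
      rw [map_one] at this
      exact this
    rw [h2, hΦ, eval_one_cyclotomic_prime, map_natCast] at h1
    have h3 : algebraMap (ZMod p) L (q : ZMod p) = 0 := by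
      rw [map_natCast]
      exact h1
    have h4 := (map_eq_zero_iff _ (algebraMap (ZMod p) L).injective).1 h3
    exact natCast_ne_zero_of_ne hqp hne h4
  have hordα : orderOf α = q := orderOf_eq_prime hαq hα1
  have hrootk : ∀ k : ℕ, 0 < k → k < q → aeval (α ^ k) m = 0 := by
    intro k hk hkq
    obtain ⟨A, hs, hAT⟩ := hB k hk hkq
    have h0 : aeval (T ^ k) m = 0 := by
      ext1 y
      obtain ⟨v, rfl⟩ := hs y
      rw [← map_aeval hAT, hmT]
      simp
    have h1 : aeval T (m.comp (X ^ k)) = 0 := by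
      rw [aeval_comp]
      simpa using h0
    have h2 := hroot _ (hdvd _ h1)
    rw [aeval_comp] at h2
    simpa using h2
  let Z : Finset L := (Finset.Ioo 0 q).image (fun k => α ^ k)
  have hZcard : Z.card = q - 1 := by
    rw [Finset.card_image_of_injOn, Nat.card_Ioo]
    · omega
    · intro a ha b hb hab
      have ha' : a ∈ Set.Iio (orderOf α) := by
        rw [hordα]
        exact (Finset.mem_Ioo.1 ha).2
      have hb' : b ∈ Set.Iio (orderOf α) := by
        rw [hordα]
        exact (Finset.mem_Ioo.1 hb).2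
      exact pow_injOn_Iio_orderOf ha' hb' hab
  have hmap0 : m.map (algebraMap (ZMod p) L) ≠ 0 := (hmon.map _).ne_zero
  have hZsub : Z.val ⊆ (m.map (algebraMap (ZMod p) L)).roots := by
    intro x hx
    have hx' : x ∈ Z := hx
    obtain ⟨k, hk, rfl⟩ := Finset.mem_image.1 hx'
    obtain ⟨hk0, hkq⟩ := Finset.mem_Ioo.1 hk
    rw [mem_roots hmap0, IsRoot.def, eval_map_algebraMap]
    exact hrootk k hk0 hkq
  have hge := card_le_degree_of_subset_roots hZsub
  rw [hZcard, natDegree_map] at hge
  have hle2 : m.natDegree ≤ q - 1 := by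
    have := natDegree_le_of_dvd hmΦ hΦ0
    rwa [hΦ, natDegree_cyclotomic, Nat.totient_prime hqp] at this
  have hdeg : m.natDegree = q - 1 := le_antisymm hle2 hge
  have hcop : p.Coprime q := (Nat.coprime_primes hpp hqp).2 hne
  have hK : Fintype.card (ZMod p) = p ^ 1 := by
    rw [ZMod.card, pow_one]
  have h5 := natDegree_of_dvd_cyclotomic_of_irreducible hK hcop hmΦ hmirr
  rw [hdeg] at h5
  rw [h5, ← orderOf_units]
  congr 1
  simp

end CfsgLib.Rec.AutThree
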