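import Mathlib

/-! Three orbits of automorphisms: a fixed point free automorphism of prime order when the
cyclotomic polynomial is irreducible gives a vector space over the cyclotomic field. -/

set_option autoImplicit false
set_option linter.unusedVariables false
set_option linter.style.haveILetI false
set_option linter.unusedSectionVars false
set_option linter.flexible false

namespace CfsgLib.Rec.AutThree

open Polynomial

variable {p q : ℕ} [Fact p.Prime] [Fact q.Prime] {V : Type*} [AddCommGroup V] [Module (ZMod p) V] [Finite V]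

theorem rev_main (hne : p ≠ q) (hord : orderOf (p : ZMod q) = q - 1)
    (T : Module.End (ZMod p) V) (hT : T ^ q = 1) (hfix : ∀ v, T v = v → v = 0) :
    (∀ u v : V, u ≠ 0 → v ≠ 0 → ∃ B : V ≃+ V, (∀ w, B (T w) = T (B w)) ∧ B u = v) ∧
      ∃ S : V ≃+ V, ∀ w, S (T w) = (T ^ p) (S w) := by
  classical
  have hpp : p.Prime := Fact.out
  have hqp : q.Prime := Fact.out
  have hcop : p.Coprime q := (Nat.coprime_primes hpp hqp).2 hne
  have hK : Fintype.card (ZMod p) = p ^ 1 := by
    rw [ZMod.card, pow_one]
  set Φ := cyclotomic q (ZMod p) with hΦ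
  have hΦirr : Irreducible Φ := by
    apply irreducible_of_dvd_cyclotomic_of_natDegree hK hcop (dvd_refl _)
    rw [natDegree_cyclotomic, Nat.totient_prime hqp, ← hord, ← orderOf_units]
    congr 1
    simp
  have hΦT : aeval T Φ = 0 := by
    ext1 v
    apply hfix
    have h1 : ((X : (ZMod p)[X]) - 1) * Φ = X ^ q - 1 := by
      rw [mul_comm]
      exact cyclotomic_prime_mul_X_sub_one (ZMod p) q
    have h2 : aeval T (((X : (ZMod p)[X]) - 1) * Φ) v = 0 := by
      rw [h1]
      simp [hT]
    rw [map_mul, Module.End.mul_apply] at h2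
    simp only [map_sub, aeval_X, map_one, LinearMap.sub_apply, Module.End.one_apply] at h2
    exact sub_eq_zero.1 h2
  haveI : Fact (Irreducible Φ) := ⟨hΦirr⟩
  let L := AdjoinRoot Φ
  have hker : ∀ a ∈ Ideal.span {Φ}, ((aeval T).toRingHom : (ZMod p)[X] →+* Module.End (ZMod p) V) a = 0 := by
    intro a ha
    obtain ⟨c, rfl⟩ := Ideal.mem_span_singleton.1 ha
    simp [hΦT]
  let ρ : L →+* Module.End (ZMod p) V := Ideal.Quotient.lift (Ideal.span {Φ}) (aeval T).toRingHom hker
  have hρmk : ∀ g : (ZMod p)[X], ρ (AdjoinRoot.mk Φ g) = aeval T g := fun g => rfl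
  letI : Module L V := Module.compHom V ρ
  have hsmul : ∀ (c : L) (v : V), c • v = ρ c v := fun _ _ => rfl
  haveI : Module.Finite L V := Module.Finite.of_finite
  let τ : L := AdjoinRoot.root Φ
  have hτ : ∀ v : V, τ • v = T v := by
    intro v
    rw [hsmul]
    have : τ = AdjoinRoot.mk Φ X := rfl
    rw [this, hρmk, aeval_X]
  have hτp : ∀ v : V, (τ ^ p) • v = (T ^ p) v := by
    intro v
    rw [hsmul, map_pow]
    have : τ = AdjoinRoot.mk Φ X := rfl
    rw [this, hρmk, aeval_X]
  constructor
  · intro u v hu hv
    let f : (L ∙ u) ≃ₗ[L] (L ∙ v) :=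
      (LinearEquiv.toSpanNonzeroSingleton L V u hu).symm.trans (LinearEquiv.toSpanNonzeroSingleton L V v hv)
    haveI : FiniteDimensional L (L ∙ u) := inferInstance
    obtain ⟨g, hg⟩ := Submodule.exists_linearEquiv_restrict_eq f
    refine ⟨g.toAddEquiv, ?_, ?_⟩
    · intro w
      show g (T w) = T (g w)
      rw [← hτ, map_smul, hτ]
    · show g u = v
      have h1 := hg ⟨u, Submodule.mem_span_singleton_self u⟩
      have h2 : f ⟨u, Submodule.mem_span_singleton_self u⟩ = ⟨v, Submodule.mem_span_singleton_self v⟩ := by
        have h3 : (⟨u, Submodule.mem_span_singleton_self u⟩ : (L ∙ u)) =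
            LinearEquiv.toSpanNonzeroSingleton L V u hu 1 := by
          rw [LinearEquiv.toSpanNonzeroSingleton_one]
        simp only [f, LinearEquiv.trans_apply]
        rw [h3, LinearEquiv.symm_apply_apply, LinearEquiv.toSpanNonzeroSingleton_one]
      rw [h2] at h1
      exact h1.symm
  · -- Frobenius on coordinates
    let e := (Module.finBasis L V).equivFun
    haveI : CharP L p := charP_of_injective_algebraMap (algebraMap (ZMod p) L).injective p
    let S₀ : V → V := fun v => e.symm (fun i => (e v i) ^ p)
    have hadd : ∀ a b, S₀ (a + b) = S₀ a + S₀ b := by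
      intro a b
      simp only [S₀]
      rw [← map_add]
      congr 1
      ext i
      simp only [map_add, Pi.add_apply]
      exact add_pow_char (e a i) (e b i) p
    have hinj : Function.Injective S₀ := by
      intro a b hab
      have h1 := e.symm.injective hab
      apply e.injective
      ext i
      have h2 : (e a i) ^ p = (e b i) ^ p := congrFun h1 i
      have h3 : (e a i - e b i) ^ p = 0 := by
        rw [sub_pow_char (e a i) (e b i), h2, sub_self]
      exact sub_eq_zero.1 (pow_eq_zero_iff hpp.ne_zero |>.1 h3)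
    have hbij : Function.Bijective S₀ := Finite.injective_iff_bijective.1 hinj
    let S : V ≃+ V := AddEquiv.mk' (Equiv.ofBijective S₀ hbij) hadd
    refine ⟨S, fun w => ?_⟩
    show S₀ (T w) = (T ^ p) (S₀ w)
    rw [← hτ, ← hτp]
    simp only [S₀]
    rw [← map_smul]
    congr 1
    ext i
    simp only [map_smul, Pi.smul_apply, smul_eq_mul]
    rw [mul_pow]

end CfsgLib.Rec.AutThree
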