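import Mathlib
import Cfsg.Agent.Lib.Rec.AutThree1
import Cfsg.Agent.Lib.Rec.AutThree2
import Cfsg.Agent.Lib.Rec.AutOrb6
import Cfsg.Agent.Lib.Rec.Fib
import Cfsg.Agent.Lib.Char.Burnside

/-! Three orbits of automorphisms: the forward direction. -/

set_option autoImplicit false
set_option linter.unusedVariables false
set_option linter.style.haveILetI false
set_option linter.unusedSectionVars false
set_option linter.flexible false

universe u

namespace CfsgLib.Rec.AutThree

open Subgroup AutOrb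

variable {G : Type u} [Group G] [Finite G]

theorem exists_rep_aux {A : Type u} [CommGroup A] [Finite A] (r : ℕ) [Fact r.Prime]
    [Module (ZMod r) (Additive A)] (j : A →* G) (hj : Function.Injective j)
    (hn : ∀ (g : G) (a : A), ∃ b : A, j b = g * j a * g⁻¹) :
    ∃ (ρ : G →* Module.End (ZMod r) (Additive A)),
      ∀ g v, j (Additive.toMul (ρ g v)) = g * j (Additive.toMul v) * g⁻¹ := by
  classical
  choose c hc using hn
  let cj : G → (Additive A →+ Additive A) := fun g => AddMonoidHom.mk'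
    (fun v => Additive.ofMul (c g (Additive.toMul v))) (by
      intro a b
      apply Additive.toMul.injective
      apply hj
      show j (c g (Additive.toMul a * Additive.toMul b)) =
        j (c g (Additive.toMul a) * c g (Additive.toMul b))
      rw [hc, map_mul, map_mul, hc, hc]
      group)
  have hcj : ∀ g v, j (Additive.toMul (cj g v)) = g * j (Additive.toMul v) * g⁻¹ :=
    fun g v => hc g _
  have hone : (cj 1).toZModLinearMap r = (1 : Module.End (ZMod r) (Additive A)) := by
    ext1 v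
    apply Additive.toMul.injective
    apply hj
    rw [AddMonoidHom.coe_toZModLinearMap, Module.End.one_apply, hcj]
    group
  have hmul : ∀ g h : G, (cj (g * h)).toZModLinearMap r =
      ((cj g).toZModLinearMap r * (cj h).toZModLinearMap r : Module.End (ZMod r) (Additive A)) := by
    intro g h
    ext1 v
    apply Additive.toMul.injective
    apply hj
    rw [Module.End.mul_apply, AddMonoidHom.coe_toZModLinearMap, AddMonoidHom.coe_toZModLinearMap,
      AddMonoidHom.coe_toZModLinearMap, hcj, hcj, hcj]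
    group
  let ρ : G →* Module.End (ZMod r) (Additive A) :=
    { toFun := fun g => (cj g).toZModLinearMap r
      map_one' := hone
      map_mul' := hmul }
  refine ⟨ρ, ?_⟩
  intro g v
  show j (Additive.toMul ((cj g).toZModLinearMap r v)) = _
  rw [AddMonoidHom.coe_toZModLinearMap, hcj]

/-- A normal abelian subgroup of prime exponent as a module. -/
theorem exists_rep (P : Subgroup G) [P.Normal] (hab : ∀ a ∈ P, ∀ b ∈ P, a * b = b * a)
    (r : ℕ) [Fact r.Prime] (hexp : ∀ a ∈ P, a ^ r = 1) :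
    ∃ (V : Type u) (_ : AddCommGroup V) (_ : Module (ZMod r) V) (_ : Finite V) (i : V → G)
      (ρ : G →* Module.End (ZMod r) V),
      (∀ v w, i (v + w) = i v * i w) ∧ Function.Injective i ∧ (∀ a, a ∈ P ↔ ∃ v, i v = a) ∧
        ∀ g v, i (ρ g v) = g * i v * g⁻¹ := by
  classical
  letI cg : CommGroup P :=
    { (inferInstance : Group P) with mul_comm := fun a b => Subtype.ext (hab a a.2 b b.2) }
  have hr : ∀ x : Additive P, r • x = 0 := by
    intro x
    show Additive.ofMul ((Additive.toMul x) ^ r) = 0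
    have : (Additive.toMul x) ^ r = 1 := Subtype.ext (hexp _ (Additive.toMul x).2)
    rw [this]
    rfl
  obtain ⟨ρ, hρ⟩ := @exists_rep_aux G _ _ P cg _ r _ (AddCommGroup.zmodModule hr) P.subtype
    P.subtype_injective (fun g a => ⟨⟨g * a * g⁻¹, (inferInstance : P.Normal).conj_mem _ a.2 g⟩, rfl⟩)
  refine ⟨Additive P, inferInstance, AddCommGroup.zmodModule hr, Finite.of_equiv P Additive.ofMul,
    fun v => ((Additive.toMul v : P) : G), ρ, fun v w => rfl, ?_, ?_, hρ⟩
  · intro v w h
    exact Additive.toMul.injective (Subtype.ext h)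
  · intro a
    constructor
    · intro ha
      exact ⟨Additive.ofMul ⟨a, ha⟩, rfl⟩
    · rintro ⟨v, rfl⟩
      exact (Additive.toMul v).2

/-- A multiplicative self-map preserving `P` induces a linear map. -/
theorem exists_linear {r : ℕ} [Fact r.Prime] {V : Type*} [AddCommGroup V] [Module (ZMod r) V]
    {i : V → G} (hadd : ∀ v w, i (v + w) = i v * i w) (hinj : Function.Injective i)
    (f : G →* G) (hf : ∀ v, ∃ w, i w = f (i v)) :
    ∃ A : V →ₗ[ZMod r] V, ∀ v, i (A v) = f (i v) := by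
  choose A hA using hf
  let A' : V →+ V := AddMonoidHom.mk' A (by
    intro a b
    apply hinj
    rw [hadd, hA, hA, hA, hadd, map_mul])
  exact ⟨A'.toZModLinearMap r, hA⟩

theorem double_sum {R : Type*} [Ring R] {Y Z : R} (hc : Commute Z Y) {s : ℕ} (hs : 0 < s)
    (hY : ∀ k, 0 < k → k < s → ∑ i ∈ Finset.range s, (Y ^ k) ^ i = 0)
    (hZ : ∀ i, i < s → ∑ k ∈ Finset.range s, (Z * Y ^ i) ^ k = 0) : (s : R) = 0 := by
  have h1 : ∑ i ∈ Finset.range s, ∑ k ∈ Finset.range s, (Z * Y ^ i) ^ k = 0 :=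
    Finset.sum_eq_zero fun i hi => hZ i (Finset.mem_range.1 hi)
  rw [Finset.sum_comm] at h1
  have h2 : ∀ k ∈ Finset.range s, ∑ i ∈ Finset.range s, (Z * Y ^ i) ^ k =
      Z ^ k * ∑ i ∈ Finset.range s, (Y ^ k) ^ i := by
    intro k hk
    rw [Finset.mul_sum]
    refine Finset.sum_congr rfl fun i _ => ?_
    rw [(hc.pow_right i).mul_pow, ← pow_mul, ← pow_mul, mul_comm]
  rw [Finset.sum_congr rfl h2] at h1
  rw [Finset.sum_eq_single_of_mem 0 (Finset.mem_range.2 hs)] at h1
  · simpa using h1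
  · intro k hk hk0
    rw [hY k (Nat.pos_of_ne_zero hk0) (Finset.mem_range.1 hk), mul_zero]

theorem hyp3 (hnpp : ¬ IsPrimePow (Nat.card G)) (hnt : Nat.card G ≠ 1)
    (h3 : Nat.card (MulAction.orbitRel.Quotient (MulAut G) G) = 3) :
    ∃ p q : ℕ, p.Prime ∧ q.Prime ∧ p ≠ q ∧ p ∣ Nat.card G ∧ q ∣ Nat.card G ∧ Hyp G ∧
      ∀ g : G, g ≠ 1 → orderOf g = p ∨ orderOf g = q := by
  classical
  obtain ⟨p, hp, hpd⟩ := Nat.exists_prime_and_dvd hnt
  obtain ⟨q, hq, hqd, hne⟩ : ∃ q : ℕ, q.Prime ∧ q ∣ Nat.card G ∧ p ≠ q := by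
    by_contra hcon
    push Not at hcon
    apply hnpp
    have h1 := Nat.eq_prime_pow_of_unique_prime_dvd (Nat.card_pos (α := G)).ne'
      (fun {d} hd hdd => (hcon d hd hdd).symm)
    rw [isPrimePow_nat_iff]
    refine ⟨p, _, hp, ?_, h1.symm⟩
    apply Nat.pos_of_ne_zero
    intro h0
    rw [h0, pow_zero] at h1
    exact hnt h1
  haveI : Fact p.Prime := ⟨hp⟩
  haveI : Fact q.Prime := ⟨hq⟩
  obtain ⟨xp, hxp⟩ := exists_prime_orderOf_dvd_card' p hpd
  obtain ⟨xq, hxq⟩ := exists_prime_orderOf_dvd_card' q hqd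
  have hinv : ∀ (a b : G), (MulAction.orbitRel (MulAut G) G) a b → orderOf a = orderOf b := by
    intro a b hab
    obtain ⟨φ, rfl⟩ := MulAction.mem_orbit_iff.1 (MulAction.orbitRel_apply.1 hab)
    exact MulEquiv.orderOf_eq φ b
  let ord : MulAction.orbitRel.Quotient (MulAut G) G → ℕ := Quotient.lift orderOf hinv
  have hord : ∀ x : G, ord (Quotient.mk'' x) = orderOf x := fun x => rfl
  let rep : Fin 3 → G := ![1, xp, xq]
  have hrepo : ∀ j : Fin 3, orderOf (rep j) = ![1, p, q] j := by
    intro j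
    fin_cases j
    · simp [rep]
    · simpa [rep] using hxp
    · simpa [rep] using hxq
  have hoinj : Function.Injective (![1, p, q] : Fin 3 → ℕ) := by
    intro a b hab
    have h1 := hp.one_lt
    have h2 := hq.one_lt
    fin_cases a <;> fin_cases b <;> simp at hab ⊢ <;> omega
  let ι : Fin 3 → MulAction.orbitRel.Quotient (MulAut G) G := fun j => Quotient.mk'' (rep j)
  have hι : Function.Injective ι := by
    intro a b hab
    have h1 := congrArg ord hab
    simp only [ι, hord, hrepo] at h1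
    exact hoinj h1
  have hbij : Function.Bijective ι := hι.bijective_of_nat_card_le (by simp [h3])
  have hrep : ∀ g : G, ∃ j : Fin 3, ∃ φ : MulAut G, φ (rep j) = g := by
    intro g
    obtain ⟨j, hj⟩ := hbij.2 (Quotient.mk'' g)
    refine ⟨j, ?_⟩
    have h1 : (MulAction.orbitRel (MulAut G) G) (rep j) g := Quotient.exact hj
    obtain ⟨φ, hφ⟩ := MulAction.mem_orbit_iff.1 (MulAction.orbitRel_apply.1 h1)
    refine ⟨φ⁻¹, ?_⟩
    have h2 : φ g = rep j := hφ
    rw [← h2]
    simp
  have hordg : ∀ g : G, ∃ j : Fin 3, orderOf g = ![1, p, q] j := by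
    intro g
    obtain ⟨j, φ, rfl⟩ := hrep g
    exact ⟨j, by rw [MulEquiv.orderOf_eq, hrepo]⟩
  have hall : ∀ g : G, g ≠ 1 → orderOf g = p ∨ orderOf g = q := by
    intro g hg
    obtain ⟨j, hj⟩ := hordg g
    fin_cases j
    · exact absurd (orderOf_eq_one_iff.1 (by simpa using hj)) hg
    · exact Or.inl (by simpa using hj)
    · exact Or.inr (by simpa using hj)
  refine ⟨p, q, hp, hq, hne, hpd, hqd, ⟨?_, ?_⟩, hall⟩
  · intro g hg
    rcases hall g hg with h | h <;> rw [h]
    · exact hp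
    · exact hq
  · intro x y hxy
    obtain ⟨j, φ, rfl⟩ := hrep x
    obtain ⟨j', φ', rfl⟩ := hrep y
    have : j = j' := by
      apply hoinj
      rw [← hrepo, ← hrepo]
      have h1 := MulEquiv.orderOf_eq φ (rep j)
      have h2 := MulEquiv.orderOf_eq φ' (rep j')
      rw [← h1, ← h2]
      exact hxy
    subst this
    refine ⟨φ' * φ⁻¹, ?_⟩
    simp

theorem normal_le_sylow {r : ℕ} [Fact r.Prime] (N : Subgroup G) [N.Normal] (hN : IsPGroup r N)
    (S : Sylow r G) : N ≤ (S : Subgroup G) := by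
  have h1 : IsPGroup r (N ⊔ (S : Subgroup G) : Subgroup G) :=
    IsPGroup.to_sup_of_normal_left hN S.isPGroup'
  have h2 := S.is_maximal' h1 le_sup_right
  rw [← h2]
  exact le_sup_left

/-- The structure from `Hyp`: a normal elementary abelian Sylow subgroup containing all the elements
of its prime order. -/
theorem exists_normal_sylow (H : Hyp G) (hs : Group.IsSolvable G) (hnt : Nat.card G ≠ 1) :
    ∃ (r : ℕ) (_ : Fact r.Prime) (P : Subgroup G), P.Normal ∧ IsPGroup r P ∧
      (∀ y, orderOf y = r → y ∈ P) ∧ (∀ S : Sylow r G, (S : Subgroup G) = P) ∧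
      (∀ a ∈ P, ∀ b ∈ P, a * b = b * a) ∧ (∀ a ∈ P, a ^ r = 1) ∧ P ≠ ⊥ := by
  classical
  haveI : Nontrivial G := Finite.one_lt_card_iff_nontrivial.1 (by
    have := Nat.card_pos (α := G)
    omega)
  have hK : (⊤ : Subgroup G) ≠ ⊥ := top_ne_bot
  haveI := hs
  have hsT : Group.IsSolvable (⊤ : Subgroup G) := inferInstance
  obtain ⟨L, hLn, hL, hLab⟩ := exists_abelian_normal (⊤ : Subgroup G) hK hsT
  haveI := hLn
  obtain ⟨N, r, hNn, hr, hNexp, n₀, hn₀, hn₀1⟩ := exists_elementary_normal L hL hLab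
  haveI : Fact r.Prime := ⟨hr⟩
  haveI := hNn
  have hNp : IsPGroup r N := by
    intro x
    refine ⟨1, ?_⟩
    apply Subtype.ext
    simpa using hNexp x x.2
  have hn₀o : orderOf n₀ = r := orderOf_eq_prime (hNexp n₀ hn₀) hn₀1
  -- every element of order r lies in every Sylow subgroup
  have hmem : ∀ (S : Sylow r G) (y : G), orderOf y = r → y ∈ (S : Subgroup G) := by
    intro S y hy
    obtain ⟨φ, hφ⟩ := H.aut n₀ y (by rw [hn₀o, hy])
    let N' : Subgroup G := N.map φ.toMonoidHom
    haveI : N'.Normal := Subgroup.Normal.map hNn _ φ.surjective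
    have hN' : IsPGroup r N' := by
      intro x
      obtain ⟨a, ha, hax⟩ := x.2
      refine ⟨1, ?_⟩
      apply Subtype.ext
      have h1 : (x : G) ^ r = 1 := by
        rw [← hax]
        show (φ a) ^ r = 1
        rw [← map_pow, hNexp a ha, map_one]
      simpa using h1
    apply normal_le_sylow N' hN' S
    exact ⟨n₀, hn₀, hφ⟩
  obtain ⟨S₀⟩ : Nonempty (Sylow r G) := inferInstance
  have helt : ∀ (S : Sylow r G) (a : G), a ∈ (S : Subgroup G) → a = 1 ∨ orderOf a = r := by
    intro S a ha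
    by_cases h1 : a = 1
    · exact Or.inl h1
    · exact Or.inr (eq_of_pgroup_mem H S.isPGroup' ha h1)
  have hall : ∀ S : Sylow r G, (S : Subgroup G) = S₀ := by
    intro S
    apply le_antisymm
    · intro a ha
      rcases helt S a ha with h | h
      · rw [h]
        exact one_mem _
      · exact hmem S₀ a h
    · intro a ha
      rcases helt S₀ a ha with h | h
      · rw [h]
        exact one_mem _
      · exact hmem S a h
  have hchar : ∀ (φ : MulAut G) (a : G), a ∈ (S₀ : Subgroup G) → φ a ∈ (S₀ : Subgroup G) := by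
    intro φ a ha
    rcases helt S₀ a ha with h | h
    · rw [h, map_one]
      exact one_mem _
    · apply hmem
      rw [MulEquiv.orderOf_eq, h]
  have hnormal : (S₀ : Subgroup G).Normal := by
    constructor
    intro a ha g
    exact hchar (MulAut.conj g) a ha
  have hn₀S : n₀ ∈ (S₀ : Subgroup G) := hmem S₀ n₀ hn₀o
  have hbot : (S₀ : Subgroup G) ≠ ⊥ := by
    intro h
    rw [h] at hn₀S
    exact hn₀1 (Subgroup.mem_bot.1 hn₀S)
  -- commutativity
  have hab : ∀ a ∈ (S₀ : Subgroup G), ∀ b ∈ (S₀ : Subgroup G), a * b = b * a := by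
    haveI : Nontrivial (S₀ : Subgroup G) := (Subgroup.nontrivial_iff_ne_bot _).2 hbot
    haveI := S₀.isPGroup'.center_nontrivial
    obtain ⟨z, hz⟩ := exists_ne (1 : Subgroup.center (S₀ : Subgroup G))
    have hz1 : ((z : (S₀ : Subgroup G)) : G) ≠ 1 := by
      intro h
      apply hz
      apply Subtype.ext
      apply Subtype.ext
      exact h
    have hzm : ((z : (S₀ : Subgroup G)) : G) ∈ (S₀ : Subgroup G) := (z : (S₀ : Subgroup G)).2
    have hzo := eq_of_pgroup_mem H S₀.isPGroup' hzm hz1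
    intro a ha b hb
    rcases helt S₀ a ha with h | h
    · rw [h]
      simp
    · obtain ⟨φ, hφ⟩ := H.aut _ a (by rw [hzo, h])
      have hb' : φ⁻¹ b ∈ (S₀ : Subgroup G) := hchar φ⁻¹ b hb
      have h1 := (Subgroup.mem_center_iff.1 z.2) ⟨φ⁻¹ b, hb'⟩
      have h2 : (φ⁻¹ b) * ((z : (S₀ : Subgroup G)) : G) = ((z : (S₀ : Subgroup G)) : G) * (φ⁻¹ b) :=
        congrArg Subtype.val h1
      have h3 := congrArg φ h2
      rw [map_mul, map_mul, hφ] at h3
      have h4 : φ (φ⁻¹ b) = b := by simp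
      rw [h4] at h3
      exact h3.symm
  refine ⟨r, inferInstance, S₀, hnormal, S₀.isPGroup', hmem S₀, hall, hab, ?_, hbot⟩
  intro a ha
  rcases helt S₀ a ha with h | h
  · rw [h, one_pow]
  · rw [← h]
    exact pow_orderOf_eq_one a

theorem pow_order_prime {g : G} {s : ℕ} (hs : s.Prime) (hg : orderOf g = s) {k : ℕ} (hk : 0 < k)
    (hks : k < s) : orderOf (g ^ k) = s := by
  have hcop : s.Coprime k := (Nat.Prime.coprime_iff_not_dvd hs).2 (Nat.not_dvd_of_pos_of_lt hk hks)
  rw [orderOf_pow' g hk.ne', hg, hcop.gcd_eq_one, Nat.div_one]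

theorem forward_structure (hnpp : ¬ IsPrimePow (Nat.card G)) (hnt : Nat.card G ≠ 1)
    (h3 : Nat.card (MulAction.orbitRel.Quotient (MulAut G) G) = 3) :
    ∃ (p q n : ℕ) (_ : Fact p.Prime) (_ : Fact q.Prime) (P : Subgroup G), p ≠ q ∧ 1 ≤ n ∧
      Nat.card G = p ^ n * q ∧ P.Normal ∧ (∀ S : Sylow p G, (S : Subgroup G) = P) ∧
      (∀ a ∈ P, ∀ b ∈ P, a * b = b * a) ∧ (∀ a ∈ P, a ^ p = 1) ∧
      orderOf (p : ZMod q) = q - 1 ∧
      ∀ x y : G, orderOf x = q → orderOf y = p → x * y * x⁻¹ ≠ y := by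
  classical
  obtain ⟨p, q, hp, hq, hne, hpd, hqd, H, hall⟩ := hyp3 hnpp hnt h3
  have hpf : (Nat.card G).primeFactors ⊆ {p, q} := by
    intro t ht
    have htp := Nat.prime_of_mem_primeFactors ht
    haveI : Fact t.Prime := ⟨htp⟩
    obtain ⟨x, hx⟩ := exists_prime_orderOf_dvd_card' t (Nat.dvd_of_mem_primeFactors ht)
    have hx1 : x ≠ 1 := by
      rintro rfl
      rw [orderOf_one] at hx
      exact htp.one_lt.ne hx
    rcases hall x hx1 with h | h
    · simp [← hx, h]
    · simp [← hx, h]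
  have hs := solv_sub hp hq hne hpf
  obtain ⟨r, hrF, P, hPn, hPp, hPm, hPS, hPab, hPexp, hPbot⟩ := exists_normal_sylow H hs hnt
  haveI := hrF
  haveI := hPn
  have hrp : r.Prime := Fact.out
  obtain ⟨a₀, ha₀, ha₀1⟩ := (Subgroup.ne_bot_iff_exists_ne_one.1 hPbot).elim
    (fun x hx => (⟨(x : G), x.2, by simpa using hx⟩ : ∃ a : G, a ∈ P ∧ a ≠ 1))
  have ha₀o : orderOf a₀ = r := eq_of_pgroup_mem H hPp ha₀ ha₀1
  obtain ⟨s, hsp, hsd, hrs, hallrs⟩ : ∃ s : ℕ, s.Prime ∧ s ∣ Nat.card G ∧ r ≠ s ∧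
      ∀ g : G, g ≠ 1 → orderOf g = r ∨ orderOf g = s := by
    rcases hall a₀ ha₀1 with h | h
    · rw [ha₀o] at h
      subst h
      exact ⟨q, hq, hqd, hne, hall⟩
    · rw [ha₀o] at h
      subst h
      exact ⟨p, hp, hpd, hne.symm, fun g hg => (hall g hg).symm⟩
  haveI : Fact s.Prime := ⟨hsp⟩
  obtain ⟨x, hx⟩ := exists_prime_orderOf_dvd_card' s hsd
  obtain ⟨V, instA, instM, instF, i, ρ, hadd, hinj, hiP, hρ⟩ := exists_rep P hPab r hPexp
  have hi0 : i 0 = 1 := by
    have h1 := hadd 0 0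
    rw [add_zero] at h1
    exact (mul_eq_left.1 h1.symm)
  have hine : ∀ v, v ≠ 0 → i v ≠ 1 := by
    intro v hv h
    apply hv
    apply hinj
    rw [h, hi0]
  have hiord : ∀ v, v ≠ 0 → orderOf (i v) = r := fun v hv =>
    eq_of_pgroup_mem H hPp ((hiP _).2 ⟨v, rfl⟩) (hine v hv)
  have hinjcomm : ∀ (g : G) (v : V), v ≠ 0 → orderOf g = s → ρ g v ≠ v := by
    intro g v hv hg h
    have h1 := hρ g v
    rw [h] at h1
    have hg1 : g ≠ 1 := by
      rintro rfl
      rw [orderOf_one] at hg
      exact hsp.one_lt.ne hg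
    have hc : Commute g (i v) := by
      show g * i v = i v * g
      exact mul_inv_eq_iff_eq_mul.1 h1.symm
    have := comm_order H hg1 (hine v hv) hc
    rw [hg, hiord v hv] at this
    exact hrs this.symm
  have hfp : ∀ g : G, orderOf g = s → ∀ v, ρ g v = v → v = 0 := by
    intro g hg v h
    by_contra hv
    exact hinjcomm g v hv hg h
  have hsum : ∀ g : G, orderOf g = s → ∑ j ∈ Finset.range s, (ρ g) ^ j = 0 := by
    intro g hg
    ext1 v
    apply hfp g hg
    have h1 := mul_geom_sum (ρ g) s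
    have h2 : (ρ g) ^ s - 1 = 0 := by
      rw [← map_pow, ← hg, pow_orderOf_eq_one, map_one, sub_self]
    rw [h2] at h1
    have h3 := LinearMap.congr_fun h1 v
    rw [Module.End.mul_apply, LinearMap.sub_apply, Module.End.one_apply] at h3
    exact sub_eq_zero.1 h3
  have hipow : ∀ (k : ℕ) (v : V), i (k • v) = (i v) ^ k := by
    intro k v
    induction k with
    | zero => simp [hi0]
    | succ k ih => rw [succ_nsmul, hadd, ih, pow_succ]
  obtain ⟨v₀, hv₀⟩ : ∃ v, i v = a₀ := (hiP _).1 ha₀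
  have hv₀0 : v₀ ≠ 0 := by
    rintro rfl
    exact ha₀1 (hv₀ ▸ hi0)
  haveI hVnt : Nontrivial V := ⟨⟨v₀, 0, hv₀0⟩⟩
  -- the Sylow subgroup of order `s`
  obtain ⟨Q⟩ : Nonempty (Sylow s G) := inferInstance
  have hQcard : Nat.card (Q : Subgroup G) = s := by
    have hQbot : (Q : Subgroup G) ≠ ⊥ := Q.ne_bot_of_dvd_card hsd
    haveI : Nontrivial (Q : Subgroup G) := (Subgroup.nontrivial_iff_ne_bot _).2 hQbot
    haveI := Q.isPGroup'.center_nontrivial
    obtain ⟨z', hz'⟩ := exists_ne (1 : Subgroup.center (Q : Subgroup G))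
    let z : G := ((z' : (Q : Subgroup G)) : G)
    have hz1 : z ≠ 1 := by
      intro h
      apply hz'
      apply Subtype.ext
      apply Subtype.ext
      exact h
    have hzQ : z ∈ (Q : Subgroup G) := (z' : (Q : Subgroup G)).2
    have hzo : orderOf z = s := eq_of_pgroup_mem H Q.isPGroup' hzQ hz1
    by_cases hQz : ∀ y ∈ (Q : Subgroup G), y ∈ Subgroup.zpowers z
    · have h1 : (Q : Subgroup G) = Subgroup.zpowers z := by
        apply le_antisymm hQz
        rw [Subgroup.zpowers_le]
        exact hzQ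
      rw [h1, Nat.card_zpowers, hzo]
    · exfalso
      push Not at hQz
      obtain ⟨y, hyQ, hyz⟩ := hQz
      have hy1 : y ≠ 1 := by
        rintro rfl
        exact hyz (Subgroup.one_mem _)
      have hyo : orderOf y = s := eq_of_pgroup_mem H Q.isPGroup' hyQ hy1
      have hzy : z * y = y * z := by
        have h1 := (Subgroup.mem_center_iff.1 z'.2) ⟨y, hyQ⟩
        have h2 := congrArg Subtype.val h1
        exact h2.symm
      have hcomm : Commute (ρ z) (ρ y) := by
        show ρ z * ρ y = ρ y * ρ z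
        rw [← map_mul, ← map_mul, hzy]
      have hne1 : ∀ j, j < s → z * y ^ j ≠ 1 := by
        intro j hj h
        rcases Nat.eq_zero_or_pos j with rfl | hj0
        · apply hz1
          simpa using h
        · apply hyz
          have hcop : j.Coprime s :=
            ((Nat.Prime.coprime_iff_not_dvd hsp).2 (Nat.not_dvd_of_pos_of_lt hj0 hj)).symm
          obtain ⟨m, -, hm⟩ := Nat.exists_mul_mod_eq_one_of_coprime hcop hsp.one_lt
          have h2 : y ^ j = z⁻¹ := (eq_inv_of_mul_eq_one_right h)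
          have h3 : y = (z⁻¹) ^ m := by
            rw [← h2, ← pow_mul]
            rw [← pow_mod_orderOf y (j * m), hyo, hm, pow_one]
          rw [h3]
          exact Subgroup.pow_mem _ (Subgroup.inv_mem _ (Subgroup.mem_zpowers z)) _
      have hcast := double_sum (Y := ρ y) (Z := ρ z) hcomm hsp.pos
        (fun k hk hks => by
          have := hsum (y ^ k) (pow_order_prime hsp hyo hk hks)
          rwa [map_pow] at this)
        (fun j hj => by
          have hmem : z * y ^ j ∈ (Q : Subgroup G) := Subgroup.mul_mem _ hzQ (Subgroup.pow_mem _ hyQ _)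
          have := hsum (z * y ^ j) (eq_of_pgroup_mem H Q.isPGroup' hmem (hne1 j hj))
          rwa [map_mul, map_pow] at this)
      have h5 : s • v₀ = 0 := by
        have h6 := LinearMap.congr_fun hcast v₀
        rw [Module.End.natCast_apply] at h6
        exact h6
      have h7 := hipow s v₀
      rw [h5, hi0, hv₀] at h7
      have h8 : orderOf a₀ ∣ s := orderOf_dvd_of_pow_eq_one h7.symm
      rw [ha₀o] at h8
      exact hrs ((Nat.prime_dvd_prime_iff_eq hrp hsp).1 h8)
  -- the order of the group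
  obtain ⟨S⟩ : Nonempty (Sylow r G) := inferInstance
  have hSP := hPS S
  obtain ⟨n, hn⟩ := IsPGroup.iff_card.1 hPp
  have hn1 : 1 ≤ n := by
    apply Nat.pos_of_ne_zero
    rintro rfl
    rw [pow_zero] at hn
    exact hPbot (Subgroup.card_eq_one.1 hn)
  have hidx : ¬ r ∣ P.index := by
    rw [← hSP]
    exact S.not_dvd_index
  have hidxs : ∀ {d : ℕ}, d.Prime → d ∣ P.index → d = s := by
    intro d hd hdd
    have hdG : d ∣ Nat.card G := by
      rw [← Subgroup.card_mul_index P]
      exact Dvd.dvd.mul_left hdd _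
    have hmem := hpf (Nat.mem_primeFactors.2 ⟨hd, hdG, Nat.card_pos.ne'⟩)
    haveI : Fact d.Prime := ⟨hd⟩
    obtain ⟨y, hy⟩ := exists_prime_orderOf_dvd_card' d hdG
    have hy1 : y ≠ 1 := by
      rintro rfl
      rw [orderOf_one] at hy
      exact hd.one_lt.ne hy
    rcases hallrs y hy1 with h | h
    · rw [hy] at h
      subst h
      exact absurd hdd hidx
    · rw [hy] at h
      exact h
  have hidxne : P.index ≠ 0 := Subgroup.index_ne_zero_of_finite
  have hidxpow := Nat.eq_prime_pow_of_unique_prime_dvd hidxne hidxs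
  set b := P.index.primeFactorsList.length with hb
  have hcardG : Nat.card G = r ^ n * s ^ b := by
    rw [← Subgroup.card_mul_index P, hn, ← hidxpow]
  have hb1 : b = 1 := by
    have h1 : s ^ b ∣ Nat.card (Q : Subgroup G) := by
      apply Q.pow_dvd_card_of_pow_dvd_card
      rw [hcardG]
      exact Dvd.intro_left _ rfl
    rw [hQcard] at h1
    have h2 : b ≤ 1 := by
      have h3 := Nat.le_of_dvd hsp.pos h1
      by_contra hc
      have hb2 : 2 ≤ b := by omega
      have h4 : s ^ 2 ≤ s ^ b := Nat.pow_le_pow_right hsp.pos hb2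
      have h5 := hsp.two_le
      nlinarith
    have h3 : b ≠ 0 := by
      intro h0
      rw [h0, pow_zero, mul_one] at hcardG
      rw [hcardG] at hsd
      have := hsp.dvd_of_dvd_pow hsd
      exact hrs ((Nat.prime_dvd_prime_iff_eq hsp hrp).1 this).symm
    omega
  rw [hb1, pow_one] at hcardG
  -- complement
  have hcop : (Nat.card P).Coprime (Nat.card (Subgroup.zpowers x)) := by
    rw [hn, Nat.card_zpowers, hx]
    exact Nat.Coprime.pow_left n ((Nat.coprime_primes hrp hsp).2 hrs)
  have hcompl : P.IsComplement' (Subgroup.zpowers x) :=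
    Subgroup.isComplement'_of_coprime (by rw [hn, Nat.card_zpowers, hx, hcardG]) hcop
  have hdecomp : ∀ g : G, ∃ a ∈ P, ∃ k : ℕ, g = a * x ^ k := by
    intro g
    obtain ⟨⟨a, b⟩, hab⟩ := hcompl.2 g
    have hb' : (b : G) ∈ Subgroup.zpowers x := b.2
    rw [← mem_powers_iff_mem_zpowers] at hb'
    obtain ⟨k, hk⟩ := hb'
    have hk' : x ^ k = (b : G) := hk
    exact ⟨a, a.2, k, by rw [hk']; exact hab.symm⟩
  have hφP : ∀ (φ : MulAut G) (a : G), a ∈ P → φ a ∈ P := by
    intro φ a ha
    by_cases h1 : a = 1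
    · rw [h1, map_one]
      exact one_mem _
    · apply hPm
      rw [MulEquiv.orderOf_eq]
      exact eq_of_pgroup_mem H hPp ha h1
  have hlin : ∀ φ : MulAut G, ∃ A : V →ₗ[ZMod r] V, ∀ v, i (A v) = φ (i v) := fun φ =>
    exists_linear hadd hinj φ.toMonoidHom
      (fun w => (hiP _).1 (hφP φ _ ((hiP _).2 ⟨w, rfl⟩)))
  have hρpow : ∀ (k : ℕ) (w : V), i (((ρ x) ^ k) w) = x ^ k * i w * (x ^ k)⁻¹ := by
    intro k w
    rw [← map_pow, hρ]
  have hord : orderOf (r : ZMod s) = s - 1 := by
    apply order_main (p := r) (q := s) hrs (ρ x)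
    · rw [← map_pow, ← hx, pow_orderOf_eq_one, map_one]
    · exact hfp x hx
    · intro u v hu hv
      obtain ⟨φ, hφ⟩ := H.aut (i u) (i v) (by rw [hiord u hu, hiord v hv])
      obtain ⟨A, hA⟩ := hlin φ
      obtain ⟨a, ha, k, hk⟩ := hdecomp (φ x)
      refine ⟨A, k, ?_, ?_, ?_⟩
      · intro c d hcd
        apply hinj
        apply φ.injective
        rw [← hA, ← hA, hcd]
      · apply hinj
        rw [hA, hφ]
      · intro w
        apply hinj
        rw [hA, hρ, map_mul, map_mul, map_inv, hρpow, ← hA, hk]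
        have hc : x ^ k * i (A w) * (x ^ k)⁻¹ ∈ P :=
          (inferInstance : P.Normal).conj_mem _ ((hiP _).2 ⟨_, rfl⟩) _
        have h6 := hPab a ha _ hc
        calc a * x ^ k * i (A w) * (a * x ^ k)⁻¹
            = a * (x ^ k * i (A w) * (x ^ k)⁻¹) * a⁻¹ := by group
          _ = (x ^ k * i (A w) * (x ^ k)⁻¹) * a * a⁻¹ := by rw [h6]
          _ = x ^ k * i (A w) * (x ^ k)⁻¹ := by group
    · intro k hk hks
      obtain ⟨φ, hφ⟩ := H.aut x (x ^ k) (by rw [pow_order_prime hsp hx hk hks, hx])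
      obtain ⟨A, hA⟩ := hlin φ
      refine ⟨A, ?_, ?_⟩
      · intro y
        obtain ⟨w, hw⟩ := (hiP _).1 (hφP φ⁻¹ (i y) ((hiP _).2 ⟨y, rfl⟩))
        refine ⟨w, ?_⟩
        apply hinj
        rw [hA, hw]
        simp
      · intro w
        apply hinj
        rw [hA, hρ, map_mul, map_mul, map_inv, hρpow, hA, hφ]
  refine ⟨r, s, n, hrF, inferInstance, P, hrs, hn1, hcardG, hPn, hPS, hPab, hPexp, hord, ?_⟩
  intro g y hg hy h
  have hg1 : g ≠ 1 := by
    rintro rfl
    rw [orderOf_one] at hg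
    exact hsp.one_lt.ne hg
  have hy1 : y ≠ 1 := by
    rintro rfl
    rw [orderOf_one] at hy
    exact hrp.one_lt.ne hy
  have hc : Commute g y := by
    show g * y = y * g
    rw [mul_inv_eq_iff_eq_mul] at h
    exact h
  have := comm_order H hg1 hy1 hc
  rw [hg, hy] at this
  exact hrs this.symm

end CfsgLib.Rec.AutThree
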