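import Mathlib
import Cfsg.Agent.Lib.Rec.AutThree3

/-! Three orbits of automorphisms: the converse direction. -/

set_option autoImplicit false
set_option linter.unusedVariables false
set_option linter.style.haveILetI false
set_option linter.unusedSectionVars false
set_option linter.flexible false

universe u

namespace CfsgLib.Rec.AutThree

open Subgroup

variable {G : Type u} [Group G] [Finite G]

theorem exists_aut_of_maps (P K : Subgroup G) [P.Normal] (h : P.IsComplement' K) (B : P ≃* P) (C : K ≃* K)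
    (hc : ∀ (k : K) (a : P), ((B ⟨(k : G) * a * (k : G)⁻¹, (inferInstance : P.Normal).conj_mem _ a.2 _⟩ : P) : G)
      = (C k : G) * (B a : G) * (C k : G)⁻¹) :
    ∃ Ψ : MulAut G, (∀ a : P, Ψ a = B a) ∧ ∀ k : K, Ψ k = C k := by
  classical
  let e := SemidirectProduct.mulEquivSubgroup h
  have hcompat : ∀ k : K,
      ((((P.normalizerMonoidHom).comp (inclusion (P.normalizer_eq_top ▸ le_top))) k).trans B) =
        B.trans (((P.normalizerMonoidHom).comp (inclusion (P.normalizer_eq_top ▸ le_top))) (C k)) := by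
    intro k
    ext a
    have := hc k a
    simp
    exact this
  let Ψ₀ := SemidirectProduct.congr B C hcompat
  let Ψ : MulAut G := (e.symm.trans Ψ₀).trans e
  refine ⟨Ψ, ?_, ?_⟩
  · intro a
    have h1 : e.symm (a : G) = SemidirectProduct.inl a := by
      apply e.injective
      rw [MulEquiv.apply_symm_apply]
      simp [e, SemidirectProduct.mulEquivSubgroup, SemidirectProduct.monoidHomSubgroup]
    show e (Ψ₀ (e.symm (a : G))) = _
    rw [h1]
    simp [e, Ψ₀, SemidirectProduct.mulEquivSubgroup, SemidirectProduct.monoidHomSubgroup, SemidirectProduct.lift]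
  · intro k
    have h1 : e.symm (k : G) = SemidirectProduct.inr k := by
      apply e.injective
      rw [MulEquiv.apply_symm_apply]
      simp [e, SemidirectProduct.mulEquivSubgroup, SemidirectProduct.monoidHomSubgroup]
    show e (Ψ₀ (e.symm (k : G))) = _
    rw [h1]
    simp [e, Ψ₀, SemidirectProduct.mulEquivSubgroup, SemidirectProduct.monoidHomSubgroup, SemidirectProduct.lift]

/-- Transport an additive automorphism. -/
theorem exists_mulEquiv {V : Type*} [AddCommGroup V] (P : Subgroup G) {i : V → G}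
    (hadd : ∀ v w, i (v + w) = i v * i w) (hinj : Function.Injective i) (hiP : ∀ a, a ∈ P ↔ ∃ v, i v = a)
    (B : V ≃+ V) : ∃ Bm : P ≃* P, ∀ v (hv : i v ∈ P), ((Bm ⟨i v, hv⟩ : P) : G) = i (B v) := by
  classical
  have hmem : ∀ v, i v ∈ P := fun v => (hiP _).2 ⟨v, rfl⟩
  let iE : V ≃ P := Equiv.ofBijective (fun v => ⟨i v, hmem v⟩) ⟨
    fun a b h => hinj (congrArg Subtype.val h),
    fun a => by
      obtain ⟨v, hv⟩ := (hiP _).1 a.2
      exact ⟨v, Subtype.ext hv⟩⟩
  have hiE : ∀ v, (iE v : G) = i v := fun v => rfl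
  let Bm : P ≃* P :=
    { toEquiv := iE.symm.trans (B.toEquiv.trans iE)
      map_mul' := by
        intro a b
        obtain ⟨v, rfl⟩ := iE.surjective a
        obtain ⟨w, rfl⟩ := iE.surjective b
        apply Subtype.ext
        have h1 : iE v * iE w = iE (v + w) := by
          apply Subtype.ext
          rw [Subgroup.coe_mul, hiE, hiE, hiE, hadd]
        rw [h1]
        simp only [Equiv.toFun_as_coe, Equiv.trans_apply, Equiv.symm_apply_apply, Subgroup.coe_mul]
        rw [hiE, hiE, hiE]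
        show i (B (v + w)) = i (B v) * i (B w)
        rw [map_add, hadd] }
  refine ⟨Bm, ?_⟩
  intro v hv
  have h1 : (⟨i v, hv⟩ : P) = iE v := rfl
  rw [h1]
  show ((iE (B (iE.symm (iE v))) : P) : G) = _
  rw [Equiv.symm_apply_apply]
  rfl

theorem reverse {p q n : ℕ} [Fact p.Prime] [Fact q.Prime] (hne : p ≠ q) (hn : 1 ≤ n)
    (hcard : Nat.card G = p ^ n * q) (S : Sylow p G) (hnormal : (S : Subgroup G).Normal)
    (hab : ∀ a ∈ (S : Subgroup G), ∀ b ∈ (S : Subgroup G), a * b = b * a)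
    (hexp : ∀ a ∈ (S : Subgroup G), a ^ p = 1)
    (hord : orderOf (p : ZMod q) = q - 1)
    (hfree : ∀ x y : G, orderOf x = q → orderOf y = p → x * y * x⁻¹ ≠ y) :
    Nat.card (MulAction.orbitRel.Quotient (MulAut G) G) = 3 := by
  classical
  have hpp : p.Prime := Fact.out
  have hqp : q.Prime := Fact.out
  have hcop : p.Coprime q := (Nat.coprime_primes hpp hqp).2 hne
  set P : Subgroup G := S.toSubgroup with hP
  haveI := hnormal
  have hqd : q ∣ Nat.card G := by
    rw [hcard]
    exact Dvd.intro_left _ rfl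
  have hpd : p ∣ Nat.card G := by
    rw [hcard]
    exact Dvd.dvd.mul_right (dvd_pow_self p (by omega)) _
  obtain ⟨x, hx⟩ := exists_prime_orderOf_dvd_card' q hqd
  obtain ⟨V, instA, instM, instF, i, ρ, hadd, hinj, hiP, hρ⟩ := exists_rep P hab p hexp
  have hi0 : i 0 = 1 := by
    have h1 := hadd 0 0
    rw [add_zero] at h1
    exact (mul_eq_left.1 h1.symm)
  have hineg : ∀ v, i (-v) = (i v)⁻¹ := by
    intro v
    apply eq_inv_of_mul_eq_one_left
    rw [← hadd, neg_add_cancel, hi0]
  have hine : ∀ v, v ≠ 0 → i v ≠ 1 := by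
    intro v hv h
    apply hv
    apply hinj
    rw [h, hi0]
  have himem : ∀ v, i v ∈ P := fun v => (hiP _).2 ⟨v, rfl⟩
  have hPord : ∀ a ∈ P, a ≠ 1 → orderOf a = p := fun a ha h1 => orderOf_eq_prime (hexp a ha) h1
  have hiord : ∀ v, v ≠ 0 → orderOf (i v) = p := fun v hv => hPord _ (himem v) (hine v hv)
  have hPbot : P ≠ ⊥ := S.ne_bot_of_dvd_card hpd
  obtain ⟨a₀, ha₀, ha₀1⟩ := (Subgroup.ne_bot_iff_exists_ne_one.1 hPbot).elim
    (fun x hx => (⟨(x : G), x.2, by simpa using hx⟩ : ∃ a : G, a ∈ P ∧ a ≠ 1))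
  have ha₀o := hPord a₀ ha₀ ha₀1
  obtain ⟨v₀, hv₀⟩ := (hiP _).1 ha₀
  have hv₀0 : v₀ ≠ 0 := by
    rintro rfl
    exact ha₀1 (hv₀ ▸ hi0)
  -- order of `P` and the complement
  obtain ⟨a, ha⟩ := IsPGroup.iff_card.1 S.isPGroup'
  have hPcard : Nat.card P = p ^ n := by
    have h1 : p ^ n ∣ Nat.card (S : Subgroup G) := S.pow_dvd_card_of_pow_dvd_card (by
      rw [hcard]
      exact Dvd.intro _ rfl)
    have h2 : Nat.card (S : Subgroup G) ∣ p ^ n * q := by
      rw [← hcard]
      exact Subgroup.card_subgroup_dvd_card _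
    have h3 : Nat.card (S : Subgroup G) ∣ p ^ n := by
      have h4 : (Nat.card (S : Subgroup G)).Coprime q := by
        have ha' : Nat.card (S : Subgroup G) = p ^ a := ha
        rw [ha']
        exact Nat.Coprime.pow_left a hcop
      exact h4.dvd_of_dvd_mul_right h2
    exact Nat.dvd_antisymm h3 h1
  have hcopP : (Nat.card P).Coprime (Nat.card (Subgroup.zpowers x)) := by
    rw [hPcard, Nat.card_zpowers, hx]
    exact Nat.Coprime.pow_left n hcop
  let K := Subgroup.zpowers x
  have hcompl : P.IsComplement' K :=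
    Subgroup.isComplement'_of_coprime (by rw [hPcard, Nat.card_zpowers, hx, hcard]) hcopP
  have hKpow : ∀ k : K, ∃ j : ℕ, (k : G) = x ^ j := by
    intro k
    have hb' : (k : G) ∈ Subgroup.zpowers x := k.2
    rw [← mem_powers_iff_mem_zpowers] at hb'
    obtain ⟨j, hj⟩ := hb'
    exact ⟨j, hj.symm⟩
  have hdecomp : ∀ g : G, ∃ a ∈ P, ∃ k : ℕ, g = a * x ^ k := by
    intro g
    obtain ⟨⟨a, b⟩, hab'⟩ := hcompl.2 g
    obtain ⟨k, hk⟩ := hKpow b
    exact ⟨a, a.2, k, by rw [← hk]; exact hab'.symm⟩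
  -- the linear data
  have hT : (ρ x) ^ q = 1 := by
    rw [← map_pow, ← hx, pow_orderOf_eq_one, map_one]
  have hfpf : ∀ (y : G), orderOf y = q → ∀ v, ρ y v = v → v = 0 := by
    intro y hy v h
    by_contra hv
    apply hfree y (i v) hy (hiord v hv)
    rw [← hρ, h]
  obtain ⟨hB, Sₐ, hSₐ⟩ := rev_main hne hord (ρ x) hT (hfpf x hx)
  have hρpow : ∀ (j : ℕ) (w : V), i (((ρ x) ^ j) w) = x ^ j * i w * (x ^ j)⁻¹ := by
    intro k w
    rw [← map_pow, hρ]
  -- automorphisms centralizing `x`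
  have hautB : ∀ u v : V, u ≠ 0 → v ≠ 0 → ∃ φ : MulAut G, φ (i u) = i v := by
    intro u v hu hv
    obtain ⟨B, hBT, hBu⟩ := hB u v hu hv
    obtain ⟨Bm, hBm⟩ := exists_mulEquiv P hadd hinj hiP B
    have hBTj : ∀ (j : ℕ) (w : V), B (((ρ x) ^ j) w) = ((ρ x) ^ j) (B w) := by
      intro j
      induction j with
      | zero => simp
      | succ j ih =>
        intro w
        rw [pow_succ, Module.End.mul_apply, Module.End.mul_apply, ih, hBT]
    obtain ⟨Ψ, hΨ, -⟩ := exists_aut_of_maps P K hcompl Bm (MulEquiv.refl K) (by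
      intro k a'
      obtain ⟨j, hj⟩ := hKpow k
      obtain ⟨w, hw⟩ := (hiP _).1 a'.2
      have h1 : (k : G) * a' * (k : G)⁻¹ = i (((ρ x) ^ j) w) := by
        rw [hρpow, hj, hw]
      have h2 : (⟨(k : G) * a' * (k : G)⁻¹, (inferInstance : P.Normal).conj_mem _ a'.2 _⟩ : P) =
          ⟨i (((ρ x) ^ j) w), himem _⟩ := Subtype.ext h1
      have h3 : a' = ⟨i w, himem w⟩ := Subtype.ext hw.symm
      rw [h2, hBm, hBTj, hρpow, h3, hBm]
      simp only [MulEquiv.refl_apply]
      rw [hj])
    refine ⟨Ψ, ?_⟩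
    have h4 := hΨ ⟨i u, himem u⟩
    rw [hBm, hBu] at h4
    exact h4
  -- the automorphism `x ↦ x ^ p`
  have hKcomm : ∀ a b : K, Commute a b := by
    intro a b
    obtain ⟨i₁, h₁⟩ := hKpow a
    obtain ⟨i₂, h₂⟩ := hKpow b
    apply Subtype.ext
    show (a : G) * b = b * a
    rw [h₁, h₂]
    exact (Commute.refl x).pow_pow i₁ i₂
  let powK : K →* K :=
    { toFun := fun k => k ^ p
      map_one' := one_pow _
      map_mul' := fun a b => (hKcomm a b).mul_pow p }
  have hKinj : Function.Injective powK := by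
    rw [injective_iff_map_eq_one]
    intro k hk
    have h1 : (k : G) ^ p = 1 := congrArg Subtype.val hk
    obtain ⟨j, hj⟩ := hKpow k
    have h2 : (k : G) ^ q = 1 := by
      rw [hj, ← pow_mul, mul_comm, pow_mul, ← hx, pow_orderOf_eq_one, one_pow]
    have h3 : orderOf (k : G) ∣ Nat.gcd p q := Nat.dvd_gcd (orderOf_dvd_of_pow_eq_one h1) (orderOf_dvd_of_pow_eq_one h2)
    rw [hcop.gcd_eq_one, Nat.dvd_one, orderOf_eq_one_iff] at h3
    exact Subtype.ext h3
  let C : K ≃* K := MulEquiv.ofBijective powK (Finite.injective_iff_bijective.1 hKinj)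
  have hC : ∀ k : K, ((C k : K) : G) = (k : G) ^ p := fun k => rfl
  obtain ⟨Sm, hSm⟩ := exists_mulEquiv P hadd hinj hiP Sₐ
  have hSTj : ∀ (j : ℕ) (w : V), Sₐ (((ρ x) ^ j) w) = (((ρ x) ^ p) ^ j) (Sₐ w) := by
    intro j
    induction j with
    | zero => simp
    | succ j ih =>
      intro w
      rw [pow_succ, Module.End.mul_apply, ih, hSₐ, pow_succ ((ρ x) ^ p), Module.End.mul_apply]
  obtain ⟨Ψ, -, hΨ⟩ := exists_aut_of_maps P K hcompl Sm C (by
    intro k a'
    obtain ⟨j, hj⟩ := hKpow k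
    obtain ⟨w, hw⟩ := (hiP _).1 a'.2
    have h1 : (k : G) * a' * (k : G)⁻¹ = i (((ρ x) ^ j) w) := by
      rw [hρpow, hj, hw]
    have h2 : (⟨(k : G) * a' * (k : G)⁻¹, (inferInstance : P.Normal).conj_mem _ a'.2 _⟩ : P) =
        ⟨i (((ρ x) ^ j) w), himem _⟩ := Subtype.ext h1
    have h3 : a' = ⟨i w, himem w⟩ := Subtype.ext hw.symm
    rw [h2, hSm, hSTj, ← pow_mul, hρpow, h3, hSm, hC, hj, ← pow_mul, mul_comm j p])
  have hΨx : Ψ x = x ^ p := by
    have := hΨ ⟨x, Subgroup.mem_zpowers x⟩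
    rw [hC] at this
    exact this
  have hΨpow : ∀ j : ℕ, (Ψ ^ j) x = x ^ (p ^ j) := by
    intro j
    induction j with
    | zero => simp
    | succ j ih =>
      rw [pow_succ Ψ, MulAut.mul_apply, hΨx, map_pow, ih, ← pow_mul, pow_succ]
  have hgen : ∀ k : ℕ, 0 < k → k < q → ∃ j : ℕ, x ^ k = x ^ (p ^ j) := by
    intro k hk hkq
    have hkcop : k.Coprime q :=
      ((Nat.Prime.coprime_iff_not_dvd hqp).2 (Nat.not_dvd_of_pos_of_lt hk hkq)).symm
    let up : (ZMod q)ˣ := ZMod.unitOfCoprime p hcop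
    let uk : (ZMod q)ˣ := ZMod.unitOfCoprime k hkcop
    have hup : orderOf up = q - 1 := by
      rw [← orderOf_units, ZMod.coe_unitOfCoprime, hord]
    have htop : Subgroup.zpowers up = ⊤ := by
      apply Subgroup.eq_top_of_card_eq
      rw [Nat.card_zpowers, hup, Nat.card_eq_fintype_card, ZMod.card_units q]
    have hmem : uk ∈ Subgroup.zpowers up := by
      rw [htop]
      exact Subgroup.mem_top _
    rw [← mem_powers_iff_mem_zpowers] at hmem
    obtain ⟨j, hj⟩ := hmem
    refine ⟨j, ?_⟩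
    have h1 := congrArg Units.val hj
    simp only [Units.val_pow_eq_pow_val, up, uk, ZMod.coe_unitOfCoprime] at h1
    have h2 : ((p ^ j : ℕ) : ZMod q) = (k : ZMod q) := by
      push_cast
      exact h1
    rw [ZMod.natCast_eq_natCast_iff] at h2
    apply (pow_eq_pow_iff_modEq).2
    rw [hx]
    exact h2.symm
  -- all elements are images of representatives
  let rep : Fin 3 → G := ![1, i v₀, x]
  have hrep : ∀ g : G, ∃ j : Fin 3, ∃ φ : MulAut G, φ (rep j) = g := by
    intro g
    by_cases hg1 : g = 1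
    · exact ⟨0, 1, by simp [rep, hg1]⟩
    by_cases hgP : g ∈ P
    · obtain ⟨v, hv⟩ := (hiP _).1 hgP
      have hv0 : v ≠ 0 := by
        rintro rfl
        exact hg1 (by rw [← hv, hi0])
      obtain ⟨φ, hφ⟩ := hautB v₀ v hv₀0 hv0
      exact ⟨1, φ, by simp only [rep]; rw [← hv]; exact hφ⟩
    · obtain ⟨a', ha', k, hk⟩ := hdecomp g
      have hk1 : x ^ k = x ^ (k % q) := by
        conv_lhs => rw [← pow_mod_orderOf, hx]
      have hkq : k % q < q := Nat.mod_lt _ hqp.pos
      have hk0 : 0 < k % q := by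
        apply Nat.pos_of_ne_zero
        intro h0
        apply hgP
        rw [hk, hk1, h0, pow_zero, mul_one]
        exact ha'
      set y := x ^ (k % q) with hy
      have hyo : orderOf y = q := pow_order_prime hqp hx hk0 hkq
      have hg : g = a' * y := by
        rw [hk, hk1]
      obtain ⟨j, hj⟩ := hgen _ hk0 hkq
      obtain ⟨va, hva⟩ := (hiP _).1 ha'
      have hinj2 : Function.Injective (fun w : V => w - ρ y w) := by
        intro w₁ w₂ h
        have h1 : (w₁ - w₂) - ρ y (w₁ - w₂) = 0 := by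
          have h' : w₁ - ρ y w₁ = w₂ - ρ y w₂ := h
          rw [map_sub, sub_sub_sub_comm, h', sub_self]
        exact sub_eq_zero.1 (hfpf y hyo _ (sub_eq_zero.1 h1).symm)
      obtain ⟨w, hw⟩ := (Finite.injective_iff_surjective.1 hinj2) va
      have hw' : w - ρ y w = va := hw
      have h5 : a' * y = i w * y * (i w)⁻¹ := by
        rw [← hva, ← hw', sub_eq_add_neg, hadd, hineg, hρ]
        group
      refine ⟨2, (MulAut.conj (i w)) * Ψ ^ j, ?_⟩
      show (MulAut.conj (i w)) ((Ψ ^ j) x) = g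
      rw [hΨpow, ← hj, MulAut.conj_apply, hg, h5]
  -- counting
  have hinv : ∀ (a b : G), (MulAction.orbitRel (MulAut G) G) a b → orderOf a = orderOf b := by
    intro a b hab
    obtain ⟨φ, rfl⟩ := MulAction.mem_orbit_iff.1 (MulAction.orbitRel_apply.1 hab)
    exact MulEquiv.orderOf_eq φ b
  let ord : MulAction.orbitRel.Quotient (MulAut G) G → ℕ := Quotient.lift orderOf hinv
  have hordq : ∀ x : G, ord (Quotient.mk'' x) = orderOf x := fun x => rfl
  have hrepo : ∀ j : Fin 3, orderOf (rep j) = ![1, p, q] j := by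
    intro j
    fin_cases j
    · simp [rep]
    · simpa [rep, hv₀] using ha₀o
    · simpa [rep] using hx
  have hoinj : Function.Injective (![1, p, q] : Fin 3 → ℕ) := by
    intro a b hab
    have h1 := hpp.one_lt
    have h2 := hqp.one_lt
    fin_cases a <;> fin_cases b <;> simp at hab ⊢ <;> omega
  let ι : Fin 3 → MulAction.orbitRel.Quotient (MulAut G) G := fun j => Quotient.mk'' (rep j)
  have hι : Function.Injective ι := by
    intro a b hab
    have h1 := congrArg ord hab
    simp only [ι, hordq, hrepo] at h1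
    exact hoinj h1
  have hsurj : Function.Surjective ι := by
    intro c
    induction c using Quotient.inductionOn' with
    | h g =>
      obtain ⟨j, φ, rfl⟩ := hrep g
      refine ⟨j, ?_⟩
      apply Quotient.sound'
      apply MulAction.orbitRel_apply.2
      exact ⟨φ⁻¹, by simp [MulAut.smul_def]⟩
  rw [← Nat.card_congr (Equiv.ofBijective ι ⟨hι, hsurj⟩)]
  simp

end CfsgLib.Rec.AutThree
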