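import Mathlib
import Cfsg.Agent.Lib.ClassGeo.SL2Inv
import Cfsg.Agent.Lib.ClassGeo.SL2Inv2
import Cfsg.Agent.Lib.H9.Torus

/-! Central products of two copies of `SL₂`: involutions. -/

set_option autoImplicit false
set_option linter.unusedVariables false
set_option linter.style.haveILetI false

namespace CfsgLib.Rec.CentralSL2

open CfsgLib.H9.SL2Cl
open CfsgLib.H9.BorelChar (zS zS_00 zS_01 zS_10 zS_11 zS_central zS_sq)
open CfsgLib.ClassGeo.SL2Inv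

variable {F : Type*} [Field F] [Fintype F]

section abstract
variable {L : Type*} [Group L] (e : L ≃* Matrix.SpecialLinearGroup (Fin 2) F)
include e

theorem e_j (h2 : (2 : F) ≠ 0) {j : L} (hj1 : j ≠ 1) (hjj : j * j = 1) : e j = zS F := by
  have h : e j * e j = 1 := by rw [← map_mul, hjj, map_one]
  refine (sq_one_cases h2 h).resolve_left ?_
  intro h1
  exact hj1 (e.injective (by rw [h1, map_one]))

theorem sq_one (h2 : (2 : F) ≠ 0) {j : L} (hj1 : j ≠ 1) (hjj : j * j = 1) {x : L} (hx : x * x = 1) :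
    x = 1 ∨ x = j := by
  have h : e x * e x = 1 := by rw [← map_mul, hx, map_one]
  rcases sq_one_cases h2 h with h1 | h1
  · left
    exact e.injective (by rw [h1, map_one])
  · right
    exact e.injective (by rw [h1, e_j e h2 hj1 hjj])

theorem exists_root (h2 : (2 : F) ≠ 0) {j : L} (hj1 : j ≠ 1) (hjj : j * j = 1) :
    ∃ x : L, x * x = j := by
  refine ⟨e.symm (x0 F), ?_⟩
  apply e.injective
  rw [map_mul, MulEquiv.apply_symm_apply, e_j e h2 hj1 hjj]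
  exact sq_of_tr0 tr_x0

theorem conj_root (h2 : (2 : F) ≠ 0) {j : L} (hj1 : j ≠ 1) (hjj : j * j = 1) {x y : L}
    (hx : x * x = j) (hy : y * y = j) : ∃ g : L, g * x * g⁻¹ = y := by
  have hej := e_j e h2 hj1 hjj
  have h1 : trS (e x) = 0 := tr0_of_sq (by rw [← map_mul, hx, hej])
  have h2' : trS (e y) = 0 := tr0_of_sq (by rw [← map_mul, hy, hej])
  obtain ⟨c, hc⟩ := isConj_iff.1 (conj_tr0 h2 h1 h2')
  refine ⟨e.symm c, ?_⟩
  apply e.injective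
  rw [map_mul, map_mul, map_inv, MulEquiv.apply_symm_apply, hc]

end abstract

variable {G : Type*} [Group G] [Finite G]
  {F₁ : Type*} [Field F₁] [Fintype F₁] {F₂ : Type*} [Field F₂] [Fintype F₂]

theorem main (hF₁ : Odd (Fintype.card F₁)) (hF₂ : Odd (Fintype.card F₂)) (L₁ L₂ : Subgroup G)
    (e₁ : ↥L₁ ≃* Matrix.SpecialLinearGroup (Fin 2) F₁) (e₂ : ↥L₂ ≃* Matrix.SpecialLinearGroup (Fin 2) F₂)
    (hc : ∀ x ∈ L₁, ∀ y ∈ L₂, x * y = y * x) (j : G) (hj : orderOf j = 2)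
    (hm : L₁ ⊓ L₂ = Subgroup.zpowers j) :
    ∃ x ∈ L₁ ⊔ L₂, orderOf x = 2 ∧ x ≠ j ∧
      ∀ y ∈ L₁ ⊔ L₂, orderOf y = 2 → y = j ∨ ∃ g ∈ L₁ ⊔ L₂, g * x * g⁻¹ = y := by
  classical
  have h21 : (2 : F₁) ≠ 0 := CfsgLib.H9.Torus.two_ne hF₁
  have h22 : (2 : F₂) ≠ 0 := CfsgLib.H9.Torus.two_ne hF₂
  have hj1 : j ≠ 1 := by
    intro h
    rw [h, orderOf_one] at hj
    omega
  have hjj : j * j = 1 := by
    have := pow_orderOf_eq_one j
    rwa [hj, pow_two] at this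
  have hjm : j ∈ L₁ ⊓ L₂ := by
    rw [hm]
    exact Subgroup.mem_zpowers j
  have hj₁ : j ∈ L₁ := hjm.1
  have hj₂ : j ∈ L₂ := hjm.2
  have hmem : ∀ x : G, x ∈ L₁ ⊓ L₂ → x = 1 ∨ x = j := by
    intro x hx
    rw [hm] at hx
    obtain ⟨k, rfl⟩ := Subgroup.mem_zpowers_iff.1 hx
    rcases Int.even_or_odd k with hk | hk
    · left
      obtain ⟨m, rfl⟩ := hk
      rw [← two_mul, _root_.zpow_mul]
      have : j ^ (2 : ℤ) = 1 := by
        rw [show (2 : ℤ) = ((2 : ℕ) : ℤ) from rfl, zpow_natCast, pow_two, hjj]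
      rw [this, one_zpow]
    · right
      obtain ⟨m, rfl⟩ := hk
      rw [_root_.zpow_add, _root_.zpow_mul]
      have : j ^ (2 : ℤ) = 1 := by
        rw [show (2 : ℤ) = ((2 : ℕ) : ℤ) from rfl, zpow_natCast, pow_two, hjj]
      rw [this, one_zpow, one_mul, zpow_one]
  -- products
  have hsup : ∀ y ∈ L₁ ⊔ L₂, ∃ a ∈ L₁, ∃ b ∈ L₂, y = a * b := by
    intro y hy
    rw [Subgroup.sup_eq_closure] at hy
    induction hy using Subgroup.closure_induction with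
    | mem x hx =>
      rcases hx with hx | hx
      · exact ⟨x, hx, 1, L₂.one_mem, by simp⟩
      · exact ⟨1, L₁.one_mem, x, hx, by simp⟩
    | one => exact ⟨1, L₁.one_mem, 1, L₂.one_mem, by simp⟩
    | mul x y _ _ hx hy =>
      obtain ⟨a, ha, b, hb, rfl⟩ := hx
      obtain ⟨a', ha', b', hb', rfl⟩ := hy
      refine ⟨a * a', L₁.mul_mem ha ha', b * b', L₂.mul_mem hb hb', ?_⟩
      calc a * b * (a' * b') = a * (b * a') * b' := by group
        _ = a * (a' * b) * b' := by rw [hc a' ha' b hb]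
        _ = a * a' * (b * b') := by group
    | inv x _ hx =>
      obtain ⟨a, ha, b, hb, rfl⟩ := hx
      refine ⟨a⁻¹, L₁.inv_mem ha, b⁻¹, L₂.inv_mem hb, ?_⟩
      rw [mul_inv_rev]
      exact hc _ (L₁.inv_mem ha) _ (L₂.inv_mem hb) |>.symm
  -- the abstract facts
  let j₁ : L₁ := ⟨j, hj₁⟩
  let j₂ : L₂ := ⟨j, hj₂⟩
  have hj₁1 : j₁ ≠ 1 := fun h => hj1 (congrArg Subtype.val h)
  have hj₂1 : j₂ ≠ 1 := fun h => hj1 (congrArg Subtype.val h)
  have hj₁j : j₁ * j₁ = 1 := Subtype.ext hjj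
  have hj₂j : j₂ * j₂ = 1 := Subtype.ext hjj
  obtain ⟨x₁, hx₁⟩ := exists_root e₁ h21 hj₁1 hj₁j
  obtain ⟨x₂, hx₂⟩ := exists_root e₂ h22 hj₂1 hj₂j
  have hx₁' : (x₁ : G) * x₁ = j := congrArg Subtype.val hx₁
  have hx₂' : (x₂ : G) * x₂ = j := congrArg Subtype.val hx₂
  have hcx : (x₁ : G) * x₂ = x₂ * x₁ := hc _ x₁.2 _ x₂.2
  have hsq : (x₁ : G) * x₂ * (x₁ * x₂) = 1 := by
    calc (x₁ : G) * x₂ * (x₁ * x₂) = x₁ * (x₂ * x₁) * x₂ := by group
      _ = x₁ * (x₁ * x₂) * x₂ := by rw [hcx]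
      _ = (x₁ * x₁) * (x₂ * x₂) := by group
      _ = 1 := by rw [hx₁', hx₂', hjj]
  have hne1 : (x₁ : G) * x₂ ≠ 1 := by
    intro h
    have h1 : (x₁ : G) = (x₂ : G)⁻¹ := eq_inv_of_mul_eq_one_left h
    have h2 : (x₁ : G) ∈ L₁ ⊓ L₂ := ⟨x₁.2, by rw [h1]; exact L₂.inv_mem x₂.2⟩
    rcases hmem _ h2 with h3 | h3
    · rw [h3, mul_one] at hx₁'
      exact hj1 hx₁'.symm
    · rw [h3, hjj] at hx₁'
      exact hj1 hx₁'.symm
  have hnej : (x₁ : G) * x₂ ≠ j := by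
    intro h
    have h1 : (x₁ : G) = j * (x₂ : G)⁻¹ := eq_mul_inv_of_mul_eq h
    have h2 : (x₁ : G) ∈ L₁ ⊓ L₂ := ⟨x₁.2, by rw [h1]; exact L₂.mul_mem hj₂ (L₂.inv_mem x₂.2)⟩
    rcases hmem _ h2 with h3 | h3
    · rw [h3, mul_one] at hx₁'
      exact hj1 hx₁'.symm
    · rw [h3, hjj] at hx₁'
      exact hj1 hx₁'.symm
  refine ⟨(x₁ : G) * x₂, Subgroup.mul_mem _ (Subgroup.mem_sup_left x₁.2) (Subgroup.mem_sup_right x₂.2), ?_, hnej, ?_⟩
  · apply orderOf_eq_prime _ hne1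
    rw [pow_two, hsq]
  · intro y hy hyo
    obtain ⟨a, ha, b, hb, rfl⟩ := hsup y hy
    have hy1 : a * b ≠ 1 := by
      intro h
      rw [h, orderOf_one] at hyo
      omega
    have hyy : a * b * (a * b) = 1 := by
      have := pow_orderOf_eq_one (a * b)
      rwa [hyo, pow_two] at this
    have hab : a * a * (b * b) = 1 := by
      calc a * a * (b * b) = a * (a * b) * b := by group
        _ = a * (b * a) * b := by rw [hc a ha b hb]
        _ = a * b * (a * b) := by group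
        _ = 1 := hyy
    have haa : a * a = (b * b)⁻¹ := eq_inv_of_mul_eq_one_left hab
    have hmaa : a * a ∈ L₁ ⊓ L₂ :=
      ⟨L₁.mul_mem ha ha, by rw [haa]; exact L₂.inv_mem (L₂.mul_mem hb hb)⟩
    rcases hmem _ hmaa with h1 | h1
    · -- both square to one
      left
      have hbb : b * b = 1 := by
        rw [h1] at hab
        simpa using hab
      have ha' : (⟨a, ha⟩ : L₁) = 1 ∨ (⟨a, ha⟩ : L₁) = j₁ :=
        sq_one e₁ h21 hj₁1 hj₁j (Subtype.ext h1)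
      have hb' : (⟨b, hb⟩ : L₂) = 1 ∨ (⟨b, hb⟩ : L₂) = j₂ :=
        sq_one e₂ h22 hj₂1 hj₂j (Subtype.ext hbb)
      have ha2 : a = 1 ∨ a = j := by
        rcases ha' with h | h
        · exact Or.inl (congrArg Subtype.val h)
        · exact Or.inr (congrArg Subtype.val h)
      have hb2 : b = 1 ∨ b = j := by
        rcases hb' with h | h
        · exact Or.inl (congrArg Subtype.val h)
        · exact Or.inr (congrArg Subtype.val h)
      rcases ha2 with rfl | rfl <;> rcases hb2 with rfl | rfl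
      · exact absurd (by simp) hy1
      · simp
      · simp
      · exact absurd hjj hy1
    · right
      have hbb : b * b = j := by
        have h2 : j * (b * b) = 1 := by rw [← h1]; exact hab
        have h3 : b * b = j⁻¹ := eq_inv_of_mul_eq_one_right h2
        rw [h3]
        exact inv_eq_of_mul_eq_one_left hjj
      obtain ⟨g₁, hg₁⟩ := conj_root e₁ h21 hj₁1 hj₁j hx₁ (y := ⟨a, ha⟩) (Subtype.ext h1)
      obtain ⟨g₂, hg₂⟩ := conj_root e₂ h22 hj₂1 hj₂j hx₂ (y := ⟨b, hb⟩) (Subtype.ext hbb)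
      have hg₁' : (g₁ : G) * x₁ * (g₁ : G)⁻¹ = a := congrArg Subtype.val hg₁
      have hg₂' : (g₂ : G) * x₂ * (g₂ : G)⁻¹ = b := congrArg Subtype.val hg₂
      refine ⟨(g₁ : G) * g₂, Subgroup.mul_mem _ (Subgroup.mem_sup_left g₁.2) (Subgroup.mem_sup_right g₂.2), ?_⟩
      rw [← hg₁', ← hg₂']
      have c1 : (g₂ : G) * x₁ = x₁ * g₂ := (hc _ x₁.2 _ g₂.2).symm
      have c2 : (x₂ : G) * (g₁ : G)⁻¹ = (g₁ : G)⁻¹ * x₂ := (hc _ (L₁.inv_mem g₁.2) _ x₂.2).symm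
      have c3 : (g₂ : G)⁻¹ * (g₁ : G)⁻¹ = (g₁ : G)⁻¹ * (g₂ : G)⁻¹ :=
        (hc _ (L₁.inv_mem g₁.2) _ (L₂.inv_mem g₂.2)).symm
      have c4 : (g₂ : G) * (g₁ : G)⁻¹ = (g₁ : G)⁻¹ * g₂ := (hc _ (L₁.inv_mem g₁.2) _ g₂.2).symm
      calc (g₁ : G) * g₂ * (x₁ * x₂) * ((g₁ : G) * g₂)⁻¹
          = g₁ * (g₂ * x₁) * x₂ * ((g₂ : G)⁻¹ * (g₁ : G)⁻¹) := by group
        _ = g₁ * (x₁ * g₂) * x₂ * ((g₁ : G)⁻¹ * (g₂ : G)⁻¹) := by rw [c1, c3]
        _ = g₁ * x₁ * g₂ * (x₂ * (g₁ : G)⁻¹) * (g₂ : G)⁻¹ := by group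
        _ = g₁ * x₁ * g₂ * ((g₁ : G)⁻¹ * x₂) * (g₂ : G)⁻¹ := by rw [c2]
        _ = g₁ * x₁ * (g₂ * (g₁ : G)⁻¹) * x₂ * (g₂ : G)⁻¹ := by group
        _ = g₁ * x₁ * ((g₁ : G)⁻¹ * g₂) * x₂ * (g₂ : G)⁻¹ := by rw [c4]
        _ = g₁ * x₁ * (g₁ : G)⁻¹ * (g₂ * x₂ * (g₂ : G)⁻¹) := by group

end CfsgLib.Rec.CentralSL2
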