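import Cfsg.Agent.Lib.Rec.Coclique2

/-! # Three pairwise non-adjacent primes and solvable normal subgroups -/

set_option autoImplicit false
set_option linter.unusedVariables false
set_option linter.unusedSectionVars false

namespace CfsgLib.Rec

universe u

open Subgroup
open scoped commutatorElement

variable {G : Type u} [Group G] [Finite G]

theorem commute_mod {K : Subgroup G} [K.Normal] {g h : G} (hg : g ∈ K) (hh : h ∈ K) :
    Commute (QuotientGroup.mk g : G ⧸ ⁅K, K⁆) (QuotientGroup.mk h : G ⧸ ⁅K, K⁆) := by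
  have h1 : ⁅g, h⁆ ∈ ⁅K, K⁆ := Subgroup.commutator_mem_commutator hg hh
  rw [← QuotientGroup.eq_one_iff] at h1
  have h2 : (QuotientGroup.mk (g * h * g⁻¹ * h⁻¹) : G ⧸ ⁅K, K⁆) = 1 := h1
  rw [QuotientGroup.mk_mul, QuotientGroup.mk_mul, QuotientGroup.mk_mul, QuotientGroup.mk_inv, QuotientGroup.mk_inv] at h2
  show _ * _ = _ * _
  have h3 := mul_inv_eq_one.1 h2
  have h4 := mul_inv_eq_iff_eq_mul.1 h3
  exact h4

/-- The part of `K` that is an `ℓ`-group modulo the commutator subgroup. -/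
def partSub (K : Subgroup G) [K.Normal] (ℓ : ℕ) : Subgroup G where
  carrier := {g | g ∈ K ∧ ∃ n : ℕ, g ^ (ℓ ^ n) ∈ ⁅K, K⁆}
  mul_mem' := by
    rintro g h ⟨hg, m, hm⟩ ⟨hh, n, hn⟩
    refine ⟨K.mul_mem hg hh, m + n, ?_⟩
    rw [← QuotientGroup.eq_one_iff] at hm hn ⊢
    rw [QuotientGroup.mk_pow] at hm hn ⊢
    rw [QuotientGroup.mk_mul, (commute_mod hg hh).mul_pow, pow_add, pow_mul, hm, one_pow, mul_comm (ℓ ^ m), pow_mul, hn, one_pow, mul_one]
  one_mem' := ⟨K.one_mem, 0, by simp [Subgroup.one_mem]⟩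
  inv_mem' := by
    rintro g ⟨hg, m, hm⟩
    refine ⟨K.inv_mem hg, m, ?_⟩
    rw [inv_pow]
    exact inv_mem hm

instance partSub_normal (K : Subgroup G) [K.Normal] (ℓ : ℕ) : (partSub K ℓ).Normal := by
  constructor
  rintro g ⟨hg, m, hm⟩ x
  refine ⟨Subgroup.Normal.conj_mem inferInstance _ hg x, m, ?_⟩
  rw [conj_pow]
  exact Subgroup.Normal.conj_mem inferInstance _ hm x

theorem exists_elt {K : Subgroup G} {ℓ : ℕ} (hℓ : ℓ.Prime) (h : ℓ ∣ Nat.card K) : ∃ x ∈ K, orderOf x = ℓ := by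
  haveI := Fact.mk hℓ
  obtain ⟨u, hu⟩ := exists_prime_orderOf_dvd_card' (G := K) ℓ h
  exact ⟨u, u.2, by rw [Subgroup.orderOf_coe, hu]⟩

theorem not_mem_of_order {W : Subgroup G} {ℓ : ℕ} (h : ¬ ℓ ∣ Nat.card W) {x : G} (hx : orderOf x = ℓ) : x ∉ W := by
  intro hm
  apply h
  rw [← hx, ← Subgroup.orderOf_mk x hm]
  exact orderOf_dvd_natCard _

/-- The case of a prime dividing the order of the commutator subgroup. -/
theorem caseA {K : Subgroup G} [K.Normal] {a b c : ℕ} (ha : a.Prime) (hb : b.Prime) (hc : c.Prime) (hab : a ≠ b) (hac : a ≠ c) (hbc : b ≠ c)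
    (e1 : ¬ ∃ x : G, orderOf x = a * b) (e2 : ¬ ∃ x : G, orderOf x = a * c) (e3 : ¬ ∃ x : G, orderOf x = b * c)
    (haW : a ∣ Nat.card (⁅K, K⁆ : Subgroup G)) (hbW : ¬ b ∣ Nat.card (⁅K, K⁆ : Subgroup G)) (hcW : ¬ c ∣ Nat.card (⁅K, K⁆ : Subgroup G))
    (hbK : b ∣ Nat.card K) (hcG : c ∣ Nat.card G) : False := by
  classical
  obtain ⟨m, hmK, hmo⟩ := exists_elt hb hbK
  have hmW := not_mem_of_order hbW hmo
  have hW : (⁅K, K⁆ : Subgroup G) ≤ K := Subgroup.commutator_le_self K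
  by_cases hcK : c ∣ Nat.card K
  · obtain ⟨g, hgK, hgo⟩ := exists_elt hc hcK
    have hgW := not_mem_of_order hcW hgo
    have hWM : (⁅K, K⁆ : Subgroup G) ≤ partSub K b := fun y hy => ⟨hW hy, 0, by simpa using hy⟩
    refine chain_false (K := ⁅K, K⁆) (M := partSub K b) hWM ha hb hc hab hac hbc e1 e2 e3 haW ⟨m, ⟨hmK, 1, ?_⟩, hmW, ?_⟩ ⟨g, ?_, ?_⟩
    · rw [pow_one, ← hmo, pow_orderOf_eq_one]
      exact Subgroup.one_mem _
    · rw [← hmo, pow_orderOf_eq_one]
      exact Subgroup.one_mem _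
    · rintro ⟨_, n, hn⟩
      apply hgW
      refine mem_of_pow_mem_coprime' (m := b ^ n) (n := c) ?_ hn ?_
      · exact Nat.Coprime.pow_left _ ((Nat.coprime_primes hb hc).2 hbc)
      · rw [← hgo, pow_orderOf_eq_one]
        exact Subgroup.one_mem _
    · rw [← hgo, pow_orderOf_eq_one]
      exact Subgroup.one_mem _
  · obtain ⟨g, -, hgo⟩ := exists_elt (K := ⊤) hc (by simpa using hcG)
    refine chain_false (K := ⁅K, K⁆) (M := K) hW ha hb hc hab hac hbc e1 e2 e3 haW ⟨m, hmK, hmW, ?_⟩ ⟨g, not_mem_of_order hcK hgo, ?_⟩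
    · rw [← hmo, pow_orderOf_eq_one]
      exact Subgroup.one_mem _
    · rw [← hgo, pow_orderOf_eq_one]
      exact Subgroup.one_mem _

/-- The case of two primes not dividing the order of the commutator subgroup. -/
theorem caseC {K : Subgroup G} [K.Normal] {a b : ℕ} (ha : a.Prime) (hb : b.Prime) (hab : a ≠ b)
    (e1 : ¬ ∃ x : G, orderOf x = a * b)
    (haW : ¬ a ∣ Nat.card (⁅K, K⁆ : Subgroup G)) (hbW : ¬ b ∣ Nat.card (⁅K, K⁆ : Subgroup G))
    (haK : a ∣ Nat.card K) (hbK : b ∣ Nat.card K) : False := by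
  classical
  haveI := Fact.mk ha
  haveI := Fact.mk hb
  obtain ⟨m, hmK, hmo⟩ := exists_elt ha haK
  obtain ⟨y₀, hy₀K, hy₀o⟩ := exists_elt hb hbK
  have hmW := not_mem_of_order haW hmo
  have hy₀W := not_mem_of_order hbW hy₀o
  set M := partSub K a with hM
  have hmM : m ∈ M := ⟨hmK, 1, by rw [pow_one, ← hmo, pow_orderOf_eq_one]; exact Subgroup.one_mem _⟩
  let m' : M := ⟨m, hmM⟩
  have hm'o : orderOf m' = a := by rw [← hmo]; exact (Subgroup.orderOf_coe m').symm
  have hpg : IsPGroup a (zpowers m') := by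
    apply IsPGroup.of_card (n := 1)
    rw [Nat.card_zpowers, hm'o, pow_one]
  obtain ⟨P, hP⟩ := hpg.exists_le_sylow
  set P' : Subgroup G := (P : Subgroup M).map M.subtype with hP'
  have hsup : normalizer (P' : Set G) ⊔ M = ⊤ := Sylow.normalizer_sup_eq_top P
  have hy₀M : y₀ ∉ M := by
    rintro ⟨_, n, hn⟩
    apply hy₀W
    refine mem_of_pow_mem_coprime' (m := a ^ n) (n := b) ?_ hn ?_
    · exact Nat.Coprime.pow_left _ ((Nat.coprime_primes ha hb).2 hab)
    · rw [← hy₀o, pow_orderOf_eq_one]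
      exact Subgroup.one_mem _
  have h4 : y₀ ∈ ((normalizer (P' : Set G) ⊔ M : Subgroup G) : Set G) := by
    rw [hsup]
    trivial
  rw [mul_normal, Set.mem_mul] at h4
  obtain ⟨y, hy, z, hz, rfl⟩ := h4
  have hzM : z ∈ M := hz
  have hzK : z ∈ K := hzM.1
  have hyK : y ∈ K := by
    have : y = y * z * z⁻¹ := by group
    rw [this]
    exact K.mul_mem hy₀K (K.inv_mem hzK)
  have hyM : y ∉ M := fun h => hy₀M (M.mul_mem h hzM)
  have hyb : y ^ b ∈ M := by
    have h5 : (QuotientGroup.mk y : G ⧸ M) = QuotientGroup.mk (y * z) := by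
      rw [QuotientGroup.mk_mul, (QuotientGroup.eq_one_iff z).2 hzM, mul_one]
    have h6 : (y * z) ^ b = 1 := by
      rw [← hy₀o]
      exact pow_orderOf_eq_one _
    rw [← QuotientGroup.eq_one_iff, QuotientGroup.mk_pow, h5, ← QuotientGroup.mk_pow, h6]
    rfl
  obtain ⟨k, e, hk, hko⟩ := exists_prime_part hb hyM hyb
  set y₂ := y ^ k with hy₂
  have hy₂N : y₂ ∈ normalizer (P' : Set G) := Subgroup.pow_mem _ hy _
  have hy₂K : y₂ ∈ K := K.pow_mem hyK _
  have hy₂1 : y₂ ≠ 1 := by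
    intro h
    rw [h] at hk
    exact hk (Subgroup.one_mem _)
  have hm1 : m ≠ 1 := by
    rintro rfl
    rw [orderOf_one] at hmo
    exact ha.one_lt.ne hmo
  have hmP : m ∈ P' := ⟨m', hP (mem_zpowers m'), rfl⟩
  have hP'p : IsPGroup a P' := IsPGroup.map P.2 M.subtype
  -- y₂ centralizes m
  have hcomm : y₂ * m = m * y₂ := by
    have h5 : y₂ * m * y₂⁻¹ * m⁻¹ ∈ (⁅K, K⁆ : Subgroup G) := Subgroup.commutator_mem_commutator hy₂K hmK
    have h6 : y₂ * m * y₂⁻¹ * m⁻¹ ∈ P' :=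
      P'.mul_mem ((Subgroup.mem_normalizer_iff.1 hy₂N m).1 hmP) (P'.inv_mem hmP)
    have h7 : y₂ * m * y₂⁻¹ * m⁻¹ = 1 := by
      by_contra hne
      obtain ⟨n, hn⟩ := IsPGroup.iff_orderOf.1 hP'p ⟨_, h6⟩
      have hn' : orderOf (y₂ * m * y₂⁻¹ * m⁻¹) = a ^ n := by
        rw [← hn, Subgroup.orderOf_mk]
      have hn0 : n ≠ 0 := by
        rintro rfl
        exact hne (orderOf_eq_one_iff.1 (by simpa using hn'))
      apply haW
      have h8 : orderOf (y₂ * m * y₂⁻¹ * m⁻¹) ∣ Nat.card (⁅K, K⁆ : Subgroup G) := by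
        rw [← Subgroup.orderOf_mk _ h5]
        exact orderOf_dvd_natCard _
      rw [hn'] at h8
      exact dvd_trans (dvd_pow_self a hn0) h8
    have h8 := mul_inv_eq_one.1 h7
    exact mul_inv_eq_iff_eq_mul.1 h8
  exact e1 (exists_order_mul (i := 1) (j := e) ha hb hab hcomm.symm (by rw [hmo, pow_one]) hko hm1 hy₂1)

/-- No edges among three primes: two of them cannot divide the order of a solvable normal subgroup. -/
theorem solvable_false (n : ℕ) : ∀ (K : Subgroup G) (_ : K.Normal) (_ : Group.IsSolvable K) (_ : Nat.card K = n) (a b c : ℕ)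
    (_ : a.Prime) (_ : b.Prime) (_ : c.Prime) (_ : a ≠ b) (_ : a ≠ c) (_ : b ≠ c)
    (_ : ¬ ∃ x : G, orderOf x = a * b) (_ : ¬ ∃ x : G, orderOf x = a * c) (_ : ¬ ∃ x : G, orderOf x = b * c)
    (_ : a ∣ Nat.card K) (_ : b ∣ Nat.card K) (_ : c ∣ Nat.card G), False := by
  induction n using Nat.strong_induction_on with
  | _ n ih =>
    intro K hKn hKs hn a b c ha hb hc hab hac hbc e1 e2 e3 haK hbK hcG
    haveI := hKn
    set W : Subgroup G := ⁅K, K⁆ with hW
    have hWK : W ≤ K := Subgroup.commutator_le_self K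
    have hnt : K ≠ ⊥ := by
      rintro rfl
      simp at haK
      exact ha.one_lt.ne' haK
    have hlt : Nat.card W < n := by
      have hKnt : Nontrivial K := by
        rw [Subgroup.nontrivial_iff_ne_bot]
        exact hnt
      have h1 := IsSolvable.commutator_lt_top_of_nontrivial K
      have h2 : W ≠ K := by
        intro h3
        apply h1.ne
        have h4 := Subgroup.map_subtype_commutator K
        rw [← hW, h3] at h4
        apply Subgroup.map_injective K.subtype_injective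
        rw [h4, ← MonoidHom.range_eq_map, Subgroup.range_subtype]
      rw [← hn]
      exact lt_of_le_of_ne (Subgroup.card_le_of_le hWK) (fun h => h2 (Subgroup.eq_of_le_of_card_ge hWK h.ge))
    have hWs : Group.IsSolvable W := solvable_of_solvable_injective (Subgroup.inclusion_injective hWK)
    have hWn : W.Normal := inferInstance
    have haG : a ∣ Nat.card G := dvd_trans haK (Subgroup.card_subgroup_dvd_card K)
    have hbG : b ∣ Nat.card G := dvd_trans hbK (Subgroup.card_subgroup_dvd_card K)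
    have swap : ∀ {x y : ℕ}, (¬ ∃ g : G, orderOf g = x * y) → ¬ ∃ g : G, orderOf g = y * x := by
      intro x y h
      rwa [mul_comm]
    by_cases haW : a ∣ Nat.card W
    · by_cases hbW : b ∣ Nat.card W
      · exact ih _ hlt W hWn hWs rfl a b c ha hb hc hab hac hbc e1 e2 e3 haW hbW hcG
      · by_cases hcW : c ∣ Nat.card W
        · exact ih _ hlt W hWn hWs rfl a c b ha hc hb hac hab hbc.symm e2 e1 (swap e3) haW hcW hbG
        · exact caseA ha hb hc hab hac hbc e1 e2 e3 haW hbW hcW hbK hcG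
    · by_cases hbW : b ∣ Nat.card W
      · by_cases hcW : c ∣ Nat.card W
        · exact ih _ hlt W hWn hWs rfl b c a hb hc ha hbc hab.symm hac.symm e3 (swap e1) (swap e2) hbW hcW haG
        · exact caseA hb ha hc hab.symm hbc hac (swap e1) e3 e2 hbW haW hcW haK hcG
      · exact caseC ha hb hab e1 haW hbW haK hbK

/-- S3633. -/
theorem s3633 (ρ : Finset ℕ) (hρ : 3 ≤ ρ.card) (hc : ((∀ r ∈ ρ, r.Prime ∧ r ∣ Nat.card G) ∧ (∀ r ∈ ρ, ∀ s ∈ ρ, r ≠ s → ¬ ∃ x : G, orderOf x = r * s)))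
    (K : Subgroup G) [K.Normal] (hK : Group.IsSolvable ↥K) :
    (∀ r ∈ ρ, ∀ s ∈ ρ, r ∣ Nat.card ↥K → s ∣ Nat.card ↥K → r = s) ∧ ¬ Group.IsSolvable G := by
  classical
  obtain ⟨hρ1, hρ2⟩ := hc
  have main : ∀ (K : Subgroup G) [K.Normal] (hK : Group.IsSolvable ↥K), ∀ r ∈ ρ, ∀ s ∈ ρ, r ∣ Nat.card ↥K → s ∣ Nat.card ↥K → r = s := by
    intro K _ hK r hr s hs hrK hsK
    by_contra hne
    have h1 : 1 ≤ ((ρ.erase r).erase s).card := by
      rw [Finset.card_erase_of_mem (Finset.mem_erase.2 ⟨fun h => hne h.symm, hs⟩), Finset.card_erase_of_mem hr]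
      omega
    obtain ⟨t, ht⟩ := Finset.card_pos.1 h1
    rw [Finset.mem_erase, Finset.mem_erase] at ht
    obtain ⟨hts, htr, ht⟩ := ht
    exact solvable_false _ K inferInstance hK rfl r s t (hρ1 r hr).1 (hρ1 s hs).1 (hρ1 t ht).1 hne (Ne.symm htr) (Ne.symm hts)
      (hρ2 r hr s hs hne) (hρ2 r hr t ht (Ne.symm htr)) (hρ2 s hs t ht (Ne.symm hts)) hrK hsK (hρ1 t ht).2
  refine ⟨main K hK, fun hG => ?_⟩
  have hs : Group.IsSolvable (⊤ : Subgroup G) := solvable_of_solvable_injective (⊤ : Subgroup G).subtype_injective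
  have h2 := main ⊤ hs
  have h3 : ∀ r ∈ ρ, ∀ s ∈ ρ, r = s := by
    intro r hr s hs
    apply h2 r hr s hs
    · simpa using (hρ1 r hr).2
    · simpa using (hρ1 s hs).2
  have h4 : ρ.card ≤ 1 := Finset.card_le_one.2 h3
  omega

end CfsgLib.Rec
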