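import Mathlib
import Cfsg.Prelude.Def_Perm
import Cfsg.Agent.Lib.H9.PrimeDeg

/-! Closures of subgroups of the one-dimensional affine group. -/

set_option autoImplicit false
set_option linter.unusedVariables false

namespace CfsgLib.Rec

open Cfsg

variable (p : ℕ) [Fact p.Prime]

/-- The 2-closure of a permutation group. -/
def twoClosure (G : Subgroup (Equiv.Perm (ZMod p))) : Subgroup (Equiv.Perm (ZMod p)) where
  carrier := {σ | ∀ t : Fin 2 → ZMod p, ∃ g ∈ G, ∀ i, σ (t i) = g (t i)}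
  mul_mem' := by
    intro a b ha hb t
    obtain ⟨g₂, hg₂, h₂⟩ := hb t
    obtain ⟨g₁, hg₁, h₁⟩ := ha (fun i => b (t i))
    refine ⟨g₁ * g₂, G.mul_mem hg₁ hg₂, fun i => ?_⟩
    show a (b (t i)) = g₁ (g₂ (t i))
    rw [h₁ i, h₂ i]
  one_mem' := fun t => ⟨1, G.one_mem, fun i => rfl⟩
  inv_mem' := by
    intro a ha t
    obtain ⟨g, hg, h⟩ := ha (fun i => a⁻¹ (t i))
    refine ⟨g⁻¹, G.inv_mem hg, fun i => ?_⟩
    have h1 : a (a⁻¹ (t i)) = g (a⁻¹ (t i)) := h i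
    have h2 : a (a⁻¹ (t i)) = t i := by
      rw [← Equiv.Perm.mul_apply, mul_inv_cancel, Equiv.Perm.one_apply]
    rw [h2] at h1
    have h3 : g⁻¹ (g (a⁻¹ (t i))) = a⁻¹ (t i) := by
      rw [← Equiv.Perm.mul_apply, inv_mul_cancel, Equiv.Perm.one_apply]
    rw [← h1] at h3
    exact h3.symm

theorem mem_affine_iff {σ : Equiv.Perm (ZMod p)} :
    σ ∈ affineGroup (ZMod p) ↔ ∃ a b : ZMod p, a ≠ 0 ∧ ∀ x, σ x = a * x + b := by
  constructor
  · rintro ⟨a, b, h⟩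
    exact ⟨a, b, a.ne_zero, h⟩
  · rintro ⟨a, b, ha, h⟩
    exact ⟨Units.mk0 a ha, b, h⟩

theorem part1 (G : Subgroup (Equiv.Perm (ZMod p))) (hG : G ≤ affineGroup (ZMod p))
    (htrans : ∀ b : ZMod p, ∃ g ∈ G, ∀ x, g x = x + b) (hne : G ≠ affineGroup (ZMod p))
    (σ : Equiv.Perm (ZMod p)) (hσ : ∀ t : Fin 2 → ZMod p, ∃ g ∈ G, ∀ i, σ (t i) = g (t i)) :
    σ ∈ G := by
  classical
  -- an affine map outside G
  obtain ⟨τ, hτ, hτG⟩ : ∃ τ ∈ affineGroup (ZMod p), τ ∉ G := by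
    by_contra h
    push Not at h
    exact hne (le_antisymm hG h)
  obtain ⟨a, b, ha, hτx⟩ := (mem_affine_iff p).1 hτ
  have hGle : G ≤ twoClosure p G := fun g hg t => ⟨g, hg, fun i => rfl⟩
  obtain ⟨u, huG, hu⟩ := htrans 1
  let U : twoClosure p G := ⟨u, hGle huG⟩
  have hnot : ¬ ∃ g : twoClosure p G, g • (0 : ZMod p) = 0 ∧ g • (1 : ZMod p) = a := by
    rintro ⟨g, hg0, hg1⟩
    obtain ⟨g', hg', h⟩ := g.2 ![0, 1]
    have h0 : g' 0 = 0 := by
      have := h 0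
      simp only [Matrix.cons_val_zero] at this
      rw [← this]
      exact hg0
    have h1 : g' 1 = a := by
      have := h 1
      simp only [Matrix.cons_val_one, Matrix.cons_val_zero] at this
      rw [← this]
      exact hg1
    obtain ⟨a', b', ha', h'⟩ := (mem_affine_iff p).1 (hG hg')
    have hb' : b' = 0 := by
      have := h' 0
      rw [h0] at this
      simpa using this.symm
    have ha'' : a' = a := by
      have := h' 1
      rw [h1, hb'] at this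
      simpa using this.symm
    obtain ⟨w, hw, hw'⟩ := htrans b
    apply hτG
    have heq : τ = w * g' := by
      ext x
      show τ x = w (g' x)
      rw [hτx, hw', h', hb', ha'']
      simp
    rw [heq]
    exact G.mul_mem hw hg'
  have h01 : (1 : ZMod p) ≠ 0 := one_ne_zero
  have haff := CfsgLib.H9.WPoly.affine_of_not_linked (p := p) (ZMod p) (u := U) (fun j => hu j) h01 ha hnot
  obtain ⟨a₁, b₁, hσ₁⟩ := haff ⟨σ, hσ⟩
  have hσ₁' : ∀ j, σ j = a₁ * j + b₁ := hσ₁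
  obtain ⟨g, hg, hgt⟩ := hσ ![0, 1]
  obtain ⟨a₂, b₂, -, hg₂⟩ := (mem_affine_iff p).1 (hG hg)
  have h0 : g 0 = σ 0 := by
    have := hgt 0
    simp only [Matrix.cons_val_zero] at this
    exact this.symm
  have h1 : g 1 = σ 1 := by
    have := hgt 1
    simp only [Matrix.cons_val_one, Matrix.cons_val_zero] at this
    exact this.symm
  have hb : b₂ = b₁ := by
    rw [hg₂, hσ₁'] at h0
    simpa using h0
  have ha₂ : a₂ = a₁ := by
    rw [hg₂, hσ₁', hb] at h1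
    simpa using h1
  have heq : σ = g := by
    ext x
    rw [hσ₁', hg₂, hb, ha₂]
  rw [heq]
  exact hg

theorem part2 (σ : Equiv.Perm (ZMod p)) (t : Fin 2 → ZMod p) :
    ∃ g ∈ affineGroup (ZMod p), ∀ i, σ (t i) = g (t i) := by
  classical
  by_cases h : t 0 = t 1
  · refine ⟨Equiv.addRight (σ (t 0) - t 0), (mem_affine_iff p).2 ⟨1, σ (t 0) - t 0, one_ne_zero, fun x => ?_⟩, ?_⟩
    · simp
    · intro i
      fin_cases i
      · simp
      · simp [← h]
  · have hne : t 1 - t 0 ≠ 0 := sub_ne_zero.2 (Ne.symm h)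
    have hne2 : σ (t 1) - σ (t 0) ≠ 0 := sub_ne_zero.2 (fun h2 => h (σ.injective h2).symm)
    let a := (σ (t 1) - σ (t 0)) / (t 1 - t 0)
    have ha : a ≠ 0 := div_ne_zero hne2 hne
    let e : Equiv.Perm (ZMod p) :=
      (Equiv.mulLeft₀ a ha).trans (Equiv.addRight (σ (t 0) - a * t 0))
    have he : ∀ x, e x = a * x + (σ (t 0) - a * t 0) := fun x => rfl
    refine ⟨e, (mem_affine_iff p).2 ⟨a, _, ha, he⟩, ?_⟩
    intro i
    fin_cases i
    · show σ (t 0) = e (t 0)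
      rw [he]
      ring
    · show σ (t 1) = e (t 1)
      rw [he]
      have : a * (t 1 - t 0) = σ (t 1) - σ (t 0) := div_mul_cancel₀ _ hne
      linear_combination -this

theorem part3 (σ : Equiv.Perm (ZMod p))
    (h : ∀ t : Fin 3 → ZMod p, ∃ g ∈ affineGroup (ZMod p), ∀ i, σ (t i) = g (t i)) :
    σ ∈ affineGroup (ZMod p) := by
  classical
  have key : ∀ x, ∃ a₀ : ZMod p, a₀ ≠ 0 ∧ a₀ = σ 1 - σ 0 ∧ σ x = a₀ * x + σ 0 := by
    intro x
    obtain ⟨g, hg, hgt⟩ := h ![0, 1, x]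
    obtain ⟨a₂, b₂, ha₂, hg₂⟩ := (mem_affine_iff p).1 hg
    have h0 : σ 0 = g 0 := hgt 0
    have h1 : σ 1 = g 1 := hgt 1
    have h2 : σ x = g x := hgt 2
    rw [hg₂] at h0 h1 h2
    refine ⟨a₂, ha₂, ?_, ?_⟩
    · rw [h0, h1]; ring
    · rw [h2, h0]; ring
  obtain ⟨a₀, ha₀, ha₁, -⟩ := key 0
  refine (mem_affine_iff p).2 ⟨a₀, σ 0, ha₀, fun x => ?_⟩
  obtain ⟨a₃, -, ha₃, hx⟩ := key x
  rw [hx, ha₃, ha₁]

end CfsgLib.Rec
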